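import Mathlib
import Cfsg.Agent.Lib.TwoGroups.NormalAbelian

/-!
2-groups `X` with no normal elementary abelian subgroup of order 8 and a group `A` of automorphisms of odd
order with `[X, A] = X`: basic facts.
-/

set_option autoImplicit false

namespace CfsgLib.ClassTech.NoScn

open scoped commutatorElement

variable {X : Type*} [Group X]

/-- The hypotheses. -/
structure Hyp (A : Subgroup (MulAut X)) : Prop where
  pgrp : IsPGroup 2 X
  nonab : ∃ a b : X, a * b ≠ b * a
  small : ∀ E : Subgroup X, E.Normal → (∀ a ∈ E, a * a = 1) → Nat.card E ≤ 4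
  odd : Odd (Nat.card A)
  gen : Subgroup.closure {g : X | ∃ φ ∈ A, ∃ x : X, g = x⁻¹ * φ x} = ⊤

/-- An element mapped to itself by an automorphism of odd order squared is fixed. -/
theorem fixed_of_swap {φ : MulAut X} {k : ℕ} (hk : Odd k) (hφ : φ ^ k = 1) {b c : X} (h1 : φ b = c)
    (h2 : φ c = b) : b = c := by
  obtain ⟨m, rfl⟩ := hk
  have hm : ∀ j : ℕ, (φ ^ (2 * j)) b = b := fun j => by
    induction j with
    | zero => simp
    | succ j ih =>
      rw [show 2 * (j + 1) = 2 * j + 1 + 1 by ring, pow_succ, pow_succ, MulAut.mul_apply,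
        MulAut.mul_apply, h1, h2, ih]
  have h := congrArg (fun ψ : MulAut X => ψ b) hφ
  simp only [pow_succ', MulAut.mul_apply, hm, h1, MulAut.one_apply] at h
  exact h.symm

/-- An automorphism of odd order fixing the involutions of an invariant abelian 2-subgroup fixes it. -/
theorem fixed_abelian [Finite X] (hX : IsPGroup 2 X) {φ : MulAut X} {k : ℕ} (hk : Odd k)
    (hφ : φ ^ k = 1) (B : Subgroup X) (hc : ∀ a ∈ B, ∀ b ∈ B, a * b = b * a) (hB : ∀ b ∈ B, φ b ∈ B)
    (h2 : ∀ b ∈ B, b * b = 1 → φ b = b) : ∀ b ∈ B, φ b = b := by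
  suffices ∀ n, ∀ b ∈ B, b ^ 2 ^ n = 1 → φ b = b by
    intro b hb
    obtain ⟨n, hn⟩ := hX b
    exact this n b hb hn
  intro n
  induction n with
  | zero => intro b _ h; rw [pow_zero, pow_one] at h; rw [h, map_one]
  | succ n ih =>
    intro b hb h
    have hsq : φ (b * b) = b * b := ih _ (mul_mem hb hb) (by
      rw [← pow_two, ← pow_mul, ← pow_succ']; exact h)
    obtain ⟨c, hcdef⟩ : ∃ c, c = b⁻¹ * φ b := ⟨_, rfl⟩
    have hcB : c ∈ B := hcdef ▸ mul_mem (inv_mem hb) (hB b hb)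
    have hφb : φ b = b * c := by rw [hcdef]; group
    have hc2 : c * c = 1 := by
      have h1 : φ b * φ b = b * b := by rw [← map_mul]; exact hsq
      rw [hφb] at h1
      have h3 : b * c * (b * c) = b * b * (c * c) := by
        calc b * c * (b * c) = b * (c * b) * c := by group
          _ = b * (b * c) * c := by rw [hc c hcB b hb]
          _ = _ := by group
      rw [h3] at h1
      simpa using h1
    have hfc : φ c = c := h2 c hcB hc2
    have hit : ∀ j : ℕ, (φ ^ j) b = b * c ^ j := fun j => by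
      induction j with
      | zero => simp
      | succ j ihj =>
        rw [pow_succ', MulAut.mul_apply, ihj, map_mul, hφb, map_pow, hfc, pow_succ']; group
    have hck := hit k
    rw [hφ, MulAut.one_apply] at hck
    have hk1 : c ^ k = 1 := mul_left_cancel (a := b) (by rw [mul_one]; exact hck.symm)
    obtain ⟨m, rfl⟩ := hk
    rw [pow_succ, pow_mul, show c ^ 2 = 1 by rw [pow_two]; exact hc2, one_pow, one_mul] at hk1
    rw [hφb, hk1, mul_one]

/-- A subgroup generated up to a central subgroup by four cosets has at most one nontrivial commutator. -/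
theorem comm_pair [Finite X] (T Z : Subgroup X) (hZT : Z ≤ T) (hZ : ∀ z ∈ Z, ∀ t ∈ T, z * t = t * z)
    (hidx : Nat.card T ≤ 4 * Nat.card Z) {x y : X} (hx : x ∈ T) (hy : y ∈ T) (hxy : x * y ≠ y * x) :
    ∀ a ∈ T, ∀ b ∈ T, (∀ u ∈ T, ∀ v ∈ T, ∀ w ∈ T, ⁅u, v⁆ * w = w * ⁅u, v⁆) →
      ⁅x, y⁆ * ⁅x, y⁆ = 1 → ⁅a, b⁆ = 1 ∨ ⁅a, b⁆ = ⁅x, y⁆ := by
  classical
  let f : Bool × Bool × Z → X := fun p =>
    (if p.1 then x else 1) * (if p.2.1 then y else 1) * (p.2.2 : X)
  have hfT : ∀ p, f p ∈ T := fun p => by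
    refine mul_mem (mul_mem ?_ ?_) (hZT p.2.2.2) <;> split_ifs <;> first | assumption | exact one_mem _
  have hxnZ : ∀ z ∈ Z, x ≠ z := fun z hz e => hxy (by rw [e]; exact hZ z hz y hy)
  have hynZ : ∀ z ∈ Z, y ≠ z := fun z hz e => hxy (by rw [e]; exact (hZ z hz x hx).symm)
  have hxynZ : ∀ z ∈ Z, x * y ≠ z := fun z hz e => hxy (by
    rw [eq_mul_inv_of_mul_eq e]
    have h := hZ z hz y hy
    calc z * y⁻¹ * y = y * (y⁻¹ * z) := by group
      _ = y * (z * y⁻¹) := by rw [hZ z hz y⁻¹ (inv_mem hy)]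
    )
  have hneq : ∀ z ∈ Z, x ≠ y * z := fun z hz e => hxy (by
    rw [e, mul_assoc, hZ z hz y hy])
  have finj : Function.Injective f := by
    rintro ⟨a, b, z⟩ ⟨a', b', z'⟩ h
    have hz : (z' : X) * (z : X)⁻¹ ∈ Z := mul_mem z'.2 (inv_mem z.2)
    have hz2 : (z : X) * (z' : X)⁻¹ ∈ Z := mul_mem z.2 (inv_mem z'.2)
    cases a <;> cases b <;> cases a' <;> cases b' <;>
      simp only [f, Bool.false_eq_true, if_false, if_true, one_mul, mul_one] at h <;>
      first
        | (rw [Subtype.ext (mul_left_cancel h)]; done)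
        | (rw [Subtype.ext h]; done)
        | skip
    all_goals exfalso
    · exact hynZ _ hz2 (eq_mul_inv_of_mul_eq h.symm)
    · exact hxnZ _ hz2 (eq_mul_inv_of_mul_eq h.symm)
    · exact hxynZ _ hz2 (eq_mul_inv_of_mul_eq h.symm)
    · exact hynZ _ hz (eq_mul_inv_of_mul_eq h)
    · refine hneq _ hz2 ?_
      rw [← mul_assoc, h]; group
    · rw [mul_assoc x y (z' : X)] at h
      have e : (y : X) * z = x * (y * z') := h
      refine hxnZ _ hz2 ?_
      have : y * (z : X) = x * ((z' : X) * y) := by rw [hZ _ z'.2 y hy]; exact e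
      calc x = y * (z : X) * y⁻¹ * (z' : X)⁻¹ := by rw [this]; group
        _ = (z : X) * y * y⁻¹ * (z' : X)⁻¹ := by rw [hZ _ z.2 y hy]
        _ = _ := by group
    · exact hxnZ _ hz (eq_mul_inv_of_mul_eq h)
    · refine hneq _ hz ?_
      rw [← mul_assoc, ← h]; group
    · exact hynZ _ hz2 (mul_left_cancel (a := x) (by
        rw [← mul_assoc, h]; group))
    · exact hxynZ _ hz (eq_mul_inv_of_mul_eq h)
    · rw [mul_assoc x y (z : X)] at h
      have e : x * (y * (z : X)) = y * z' := h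
      refine hxnZ _ hz ?_
      have : x * ((z : X) * y) = y * (z' : X) := by rw [hZ _ z.2 y hy]; exact e
      calc x = y * (z' : X) * y⁻¹ * (z : X)⁻¹ := by rw [← this]; group
        _ = (z' : X) * y * y⁻¹ * (z : X)⁻¹ := by rw [hZ _ z'.2 y hy]
        _ = _ := by group
    · exact hynZ _ hz (mul_left_cancel (a := x) (by
        rw [← mul_assoc, ← h]; group))
  have hcov : ∀ t ∈ T, ∃ p, f p = t := by
    have hsub : Set.range f ⊆ (T : Set X) := by rintro _ ⟨p, rfl⟩; exact hfT p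
    have heq : Set.range f = (T : Set X) :=
      Set.eq_of_subset_of_ncard_le hsub (by
        rw [Set.ncard_range_of_injective finj, ← Nat.card_coe_set_eq, Nat.card_prod, Nat.card_prod,
          Nat.card_eq_fintype_card (α := Bool), Fintype.card_bool]
        show Nat.card T ≤ 2 * (2 * Nat.card Z)
        omega)
    intro t ht
    exact heq.ge ht
  intro a ha b hb hcen hc2
  set c := ⁅x, y⁆ with hc
  have hmul : ∀ {u v w : X}, u ∈ T → v ∈ T → w ∈ T → ⁅u * v, w⁆ = ⁅u, w⁆ * ⁅v, w⁆ := by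
    intro u v w hu hv hw
    calc ⁅u * v, w⁆ = u * ⁅v, w⁆ * u⁻¹ * ⁅u, w⁆ := by simp only [commutatorElement_def]; group
      _ = ⁅v, w⁆ * u * u⁻¹ * ⁅u, w⁆ := by rw [hcen v hv w hw u hu]
      _ = ⁅v, w⁆ * ⁅u, w⁆ := by group
      _ = _ := hcen v hv w hw _ (by
        rw [commutatorElement_def]; exact mul_mem (mul_mem (mul_mem hu hw) (inv_mem hu)) (inv_mem hw))
  have hz1 : ∀ {z w : X}, z ∈ Z → w ∈ T → ⁅z, w⁆ = 1 := fun hz hw =>
    commutatorElement_eq_one_iff_commute.2 (hZ _ hz _ hw)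
  have hin : ∀ {u : X}, u ∈ T → ∀ {p : Bool × Bool × Z}, f p = u → ∀ {w : X}, w ∈ T →
      ⁅u, w⁆ = (if p.1 then ⁅x, w⁆ else 1) * (if p.2.1 then ⁅y, w⁆ else 1) := by
    rintro u hu ⟨p, q, z⟩ rfl w hw
    cases p <;> cases q <;> simp only [f, Bool.false_eq_true, if_false, if_true, one_mul, mul_one]
    · exact hz1 z.2 hw
    · rw [hmul hy (hZT z.2) hw, hz1 z.2 hw, mul_one]
    · rw [hmul hx (hZT z.2) hw, hz1 z.2 hw, mul_one]
    · rw [hmul (mul_mem hx hy) (hZT z.2) hw, hmul hx hy hw, hz1 z.2 hw, mul_one]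
  have hci : c⁻¹ = c := inv_eq_of_mul_eq_one_right hc2
  obtain ⟨p, hp⟩ := hcov a ha
  obtain ⟨q, hq⟩ := hcov b hb
  have hxb : ⁅x, b⁆ = if q.2.1 then c else 1 := by
    rw [← commutatorElement_inv, hin hb hq hx]
    cases q.1 <;> cases q.2.1 <;>
      simp [commutatorElement_self, show ⁅y, x⁆ = c by rw [← commutatorElement_inv, ← hc, hci], hci]
  have hyb : ⁅y, b⁆ = if q.1 then c else 1 := by
    rw [← commutatorElement_inv, hin hb hq hy]
    cases q.1 <;> cases q.2.1 <;> simp [commutatorElement_self, ← hc, hci]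
  rw [hin ha hp hb, hxb, hyb]
  cases p.1 <;> cases p.2.1 <;> cases q.1 <;> cases q.2.1 <;> simp [hc2]

namespace Hyp

variable {A : Subgroup (MulAut X)} (h : Hyp A)
include h

theorem pow_card {φ : MulAut X} (hφ : φ ∈ A) : φ ^ Nat.card A = 1 :=
  congrArg Subtype.val (pow_card_eq_one' (x := (⟨φ, hφ⟩ : A)))

theorem fix_four [Finite X] {φ : MulAut X} (hφ : φ ∈ A) (M : Subgroup X) (hM : ∀ m ∈ M, φ m ∈ M)
    (hc : Nat.card M ≤ 4) {z : X} (hz : z ∈ M) (hz1 : z ≠ 1) (hzf : φ z = z) :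
    ∀ m ∈ M, φ m = m := by
  classical
  intro m hm
  by_contra hne
  have hm1 : m ≠ 1 := fun e => hne (by rw [e, map_one])
  have hmz : m ≠ z := fun e => hne (by rw [e]; exact hzf)
  let S : Finset X := {1, z, m, φ m}
  have hS : ∀ s ∈ S, s ∈ M := by
    simp only [S, Finset.mem_insert, Finset.mem_singleton, forall_eq_or_imp, forall_eq]
    exact ⟨one_mem _, hz, hm, hM m hm⟩
  have e1 : φ m ≠ 1 := fun e => hm1 (φ.injective (e.trans (map_one φ).symm))
  have e2 : φ m ≠ z := fun e => hmz (φ.injective (e.trans hzf.symm))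
  have hScard : S.card = 4 := by
    simp [S, Finset.card_insert_of_notMem, hz1.symm, hm1.symm, e1.symm, hmz.symm, e2.symm, Ne.symm hne]
  have hcov : ∀ u ∈ M, u ∈ S := by
    intro u hu
    by_contra hn
    have : (insert u S).card ≤ Nat.card M := by
      rw [← Nat.card_eq_finsetCard]
      exact Nat.card_le_card_of_injective
        (fun s : (insert u S : Finset X) => (⟨s.1, by
          rcases Finset.mem_insert.1 s.2 with e | e
          · rw [e]; exact hu
          · exact hS _ e⟩ : M))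
        (fun a b e => Subtype.ext (congrArg (fun v : M => (v : X)) e))
    rw [Finset.card_insert_of_notMem hn, hScard] at this
    omega
  have h3 := hcov _ (hM _ (hM m hm))
  simp only [S, Finset.mem_insert, Finset.mem_singleton] at h3
  rcases h3 with e | e | e | e
  · exact e1 (φ.injective (e.trans (map_one φ).symm))
  · exact e2 (φ.injective (e.trans hzf.symm))
  · exact hne (fixed_of_swap h.odd (h.pow_card hφ) rfl e).symm
  · exact hne (φ.injective e)

/-- A normal subgroup fixed elementwise is central. -/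
theorem central_of_fixed (N : Subgroup X) [N.Normal] (hN : ∀ φ ∈ A, ∀ n ∈ N, φ n = n) :
    N ≤ Subgroup.center X := by
  intro n hn
  refine Subgroup.mem_center_iff.2 fun g => ?_
  have : g ∈ Subgroup.centralizer ({n} : Set X) := by
    refine (?_ : ⊤ ≤ Subgroup.centralizer ({n} : Set X)) (Subgroup.mem_top g)
    rw [← h.gen, Subgroup.closure_le]
    rintro _ ⟨φ, hφ, x, rfl⟩
    rw [SetLike.mem_coe, Subgroup.mem_centralizer_singleton_iff]
    have h1 := hN φ hφ _ ((inferInstance : N.Normal).conj_mem n hn x)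
    rw [map_mul, map_mul, map_inv, hN φ hφ n hn] at h1
    calc x⁻¹ * φ x * n = x⁻¹ * (φ x * n * (φ x)⁻¹) * φ x := by group
      _ = x⁻¹ * (x * n * x⁻¹) * φ x := by rw [h1]
      _ = n * (x⁻¹ * φ x) := by group
  exact Subgroup.mem_centralizer_singleton_iff.1 this

/-- Elements fixed modulo an invariant normal subgroup with abelian factor group lie in it. -/
theorem mem_of_fixed_mod [Finite X] (P : Subgroup X) [P.Normal] (hP : commutator X ≤ P)
    (hPinv : ∀ φ ∈ A, ∀ p ∈ P, φ p ∈ P) {x : X} (hx : ∀ φ ∈ A, x⁻¹ * φ x ∈ P) : x ∈ P := by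
  classical
  letI : CommGroup (X ⧸ P) :=
    { (inferInstance : Group (X ⧸ P)) with
      mul_comm := by
        rintro ⟨a⟩ ⟨b⟩
        refine QuotientGroup.eq.2 ?_
        rw [show (a * b)⁻¹ * (b * a) = ⁅b⁻¹, a⁻¹⁆ by rw [commutatorElement_def]; group]
        exact hP (Subgroup.commutator_mem_commutator (Subgroup.mem_top _) (Subgroup.mem_top _)) }
  have : Fintype A := Fintype.ofFinite A
  let N : X →* X ⧸ P :=
    MonoidHom.mk' (fun g => ∏ φ : A, QuotientGroup.mk ((φ : MulAut X) g)) (fun a b => by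
      rw [← Finset.prod_mul_distrib]
      exact Finset.prod_congr rfl fun φ _ => by rw [map_mul, QuotientGroup.mk_mul])
  have hN : ∀ g, N g = 1 := by
    intro g
    refine MonoidHom.mem_ker.1 ((?_ : ⊤ ≤ N.ker) (Subgroup.mem_top g))
    rw [← h.gen, Subgroup.closure_le]
    rintro _ ⟨φ, hφ, y, rfl⟩
    rw [SetLike.mem_coe, MonoidHom.mem_ker, map_mul, map_inv]
    have : N (φ y) = N y :=
      Fintype.prod_equiv (Equiv.mulRight (⟨φ, hφ⟩ : A))
        (fun ψ : A => (QuotientGroup.mk ((ψ : MulAut X) (φ y)) : X ⧸ P))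
        (fun ψ : A => QuotientGroup.mk ((ψ : MulAut X) y)) (fun ψ => rfl)
    rw [this, inv_mul_cancel]
  have hx' : N x = (QuotientGroup.mk x : X ⧸ P) ^ Nat.card A := by
    show (∏ φ : A, QuotientGroup.mk ((φ : MulAut X) x)) = _
    rw [Finset.prod_congr rfl (fun φ _ => (QuotientGroup.eq.2 (hx φ.1 φ.2)).symm), Finset.prod_const,
      Finset.card_univ, Nat.card_eq_fintype_card]
  obtain ⟨n, hn⟩ := h.pgrp.to_quotient P (QuotientGroup.mk x)
  have h1 : orderOf (QuotientGroup.mk x : X ⧸ P) ∣ Nat.card A :=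
    orderOf_dvd_of_pow_eq_one (hx'.symm.trans (hN x))
  have h2 : orderOf (QuotientGroup.mk x : X ⧸ P) ∣ 2 ^ n := orderOf_dvd_of_pow_eq_one hn
  have h3 := Nat.dvd_gcd h1 h2
  rw [Nat.Coprime.gcd_eq_one (Nat.Coprime.pow_right n h.odd.coprime_two_right), Nat.dvd_one,
    orderOf_eq_one_iff] at h3
  exact (QuotientGroup.eq_one_iff x).1 h3

end Hyp

/-- Above a proper normal subgroup there is an element central of order two modulo it. -/
theorem exists_central_mod [Finite X] (hX : IsPGroup 2 X) (N R : Subgroup X) [N.Normal] [R.Normal]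
    (hR : ¬ R ≤ N) : ∃ r ∈ R, r ∉ N ∧ r * r ∈ N ∧ ∀ x : X, ⁅x, r⁆ ∈ N := by
  have : Fact (Nat.Prime 2) := ⟨Nat.prime_two⟩
  let π := QuotientGroup.mk' N
  have hne : R.map π ≠ ⊥ := fun e => hR fun r hr => by
    have : π r ∈ R.map π := ⟨r, hr, rfl⟩
    rw [e, Subgroup.mem_bot] at this
    exact (QuotientGroup.eq_one_iff r).1 this
  have : (R.map π).Normal := Subgroup.Normal.map inferInstance _ (QuotientGroup.mk'_surjective N)
  obtain ⟨z, hz, hz1, hzc⟩ := CfsgLib.TwoGroups.exists_mem_center_of_normal (hX.to_quotient N) hne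
  obtain ⟨k, hk⟩ := IsPGroup.iff_orderOf.1 (hX.to_quotient N) z
  have hk1 : k ≠ 0 := fun e => hz1 (orderOf_eq_one_iff.1 (by rw [hk, e, pow_zero]))
  obtain ⟨j, rfl⟩ := Nat.exists_eq_succ_of_ne_zero hk1
  have hw : z ^ 2 ^ j ≠ 1 :=
    pow_ne_one_of_lt_orderOf (pow_ne_zero _ two_ne_zero) (by rw [hk, pow_succ]; have := Nat.two_pow_pos j; omega)
  have hw2 : z ^ 2 ^ j * z ^ 2 ^ j = 1 := by
    rw [← pow_add, ← two_mul, ← pow_succ', ← hk, pow_orderOf_eq_one]
  obtain ⟨r, hr, e⟩ := pow_mem hz (2 ^ j)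
  refine ⟨r, hr, fun hn => hw ?_, ?_, fun x => ?_⟩
  · rw [← e]; exact (QuotientGroup.eq_one_iff r).2 hn
  · refine (QuotientGroup.eq_one_iff _).1 ?_
    show π (r * r) = 1
    rw [map_mul, e, hw2]
  · refine (QuotientGroup.eq_one_iff _).1 ?_
    show π ⁅x, r⁆ = 1
    rw [map_commutatorElement, e, commutatorElement_eq_one_iff_commute]
    exact Subgroup.mem_center_iff.1 (pow_mem hzc _) (π x)

end CfsgLib.ClassTech.NoScn
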