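import Cfsg.Agent.Lib.ClassTech.NoScnThreeBasic

/-!
The case in which an automorphism moves a central involution: every invariant normal abelian subgroup
forces all squares into the central four group.
-/

set_option autoImplicit false

namespace CfsgLib.ClassTech.NoScn

open scoped commutatorElement

variable {X : Type*} [Group X]

/-- The central elements of order at most two. -/
def W (X : Type*) [Group X] : Subgroup X where
  carrier := {z | z ∈ Subgroup.center X ∧ z * z = 1}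
  one_mem' := ⟨one_mem _, one_mul _⟩
  mul_mem' := fun {a b} ha hb => ⟨mul_mem ha.1 hb.1, by
    calc a * b * (a * b) = a * (b * a) * b := by group
      _ = a * (a * b) * b := by rw [Subgroup.mem_center_iff.1 ha.1 b]
      _ = a * a * (b * b) := by group
      _ = 1 := by rw [ha.2, hb.2, one_mul]⟩
  inv_mem' := fun {a} ha => ⟨inv_mem ha.1, by rw [← mul_inv_rev, ha.2, inv_one]⟩

theorem mem_W {z : X} : z ∈ W X ↔ z ∈ Subgroup.center X ∧ z * z = 1 := Iff.rfl

instance W_normal : (W X).Normal :=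
  ⟨fun z hz g => by rwa [Subgroup.mem_center_iff.1 hz.1 g, mul_inv_cancel_right]⟩

theorem W_comm {z : X} (hz : z ∈ W X) (g : X) : g * z = z * g := Subgroup.mem_center_iff.1 hz.1 g

theorem W_map (φ : MulAut X) {z : X} (hz : z ∈ W X) : φ z ∈ W X :=
  ⟨Subgroup.mem_center_iff.2 fun g => by
      rw [← φ.apply_symm_apply g, ← map_mul, ← map_mul, W_comm hz],
    by rw [← map_mul, hz.2, map_one]⟩

/-- An element commuting, inside an abelian group, modulo itself. -/
theorem sq_mul_of_comm {a b : X} (hab : a * b = b * a) : a * b * (a * b) = a * a * (b * b) := by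
  calc a * b * (a * b) = a * (b * a) * b := by group
    _ = a * (a * b) * b := by rw [hab]
    _ = _ := by group

namespace Hyp

variable [Finite X] {A : Subgroup (MulAut X)} (h : Hyp A)
include h

theorem card_W_le : Nat.card (W X) ≤ 4 := h.small _ inferInstance fun _ ha => ha.2

/-- An involution whose commutators lie in `W` lies in `W`, if `W` is a four group. -/
theorem mem_W_of_comm (hW : Nat.card (W X) = 4) {u : X} (hu : u * u = 1)
    (hc : ∀ x : X, ⁅x, u⁆ ∈ W X) : u ∈ W X := by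
  let E : Subgroup X :=
    { carrier := {g | g ∈ W X ∨ ∃ w ∈ W X, g = u * w}
      one_mem' := Or.inl (one_mem _)
      mul_mem' := by
        rintro a b (ha | ⟨w, hw, rfl⟩) (hb | ⟨v, hv, rfl⟩)
        · exact Or.inl (mul_mem ha hb)
        · exact Or.inr ⟨a * v, mul_mem ha hv, by rw [← mul_assoc, ← W_comm ha u, mul_assoc]⟩
        · exact Or.inr ⟨w * b, mul_mem hw hb, by rw [mul_assoc]⟩
        · refine Or.inl ?_
          rw [show u * w * (u * v) = u * (w * u) * v by group, ← W_comm hw u,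
            show u * (u * w) * v = (u * u) * (w * v) by group, hu, one_mul]
          exact mul_mem hw hv
      inv_mem' := by
        rintro a (ha | ⟨w, hw, rfl⟩)
        · exact Or.inl (inv_mem ha)
        · refine Or.inr ⟨w⁻¹, inv_mem hw, ?_⟩
          rw [mul_inv_rev, inv_eq_of_mul_eq_one_right hu, W_comm (inv_mem hw) u] }
  have hE : ∀ g ∈ E, g * g = 1 := by
    rintro g (hg | ⟨w, hw, rfl⟩)
    · exact hg.2
    · rw [sq_mul_of_comm (W_comm hw u), hu, hw.2, one_mul]
  have hEn : E.Normal := ⟨by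
    rintro g (hg | ⟨w, hw, rfl⟩) x
    · exact Or.inl ((inferInstance : (W X).Normal).conj_mem g hg x)
    · refine Or.inr ⟨⁅x, u⁆ * w, mul_mem (hc x) hw, ?_⟩
      calc x * (u * w) * x⁻¹ = x * u * (w * x⁻¹) := by group
        _ = x * u * (x⁻¹ * w) := by rw [W_comm hw x⁻¹]
        _ = ⁅x, u⁆ * u * w := by rw [commutatorElement_def]; group
        _ = u * ⁅x, u⁆ * w := by rw [W_comm (hc x) u]
        _ = _ := by group⟩
  have hWE : W X ≤ E := fun g hg => Or.inl hg
  have heq : W X = E := Subgroup.eq_of_le_of_card_ge hWE (by rw [hW]; exact h.small E hEn hE)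
  rw [heq]
  exact Or.inr ⟨1, one_mem _, (mul_one u).symm⟩

section Moved

variable {α : MulAut X} (hα : α ∈ A) {w : X} (hw : w ∈ W X) (hmv : α w ≠ w)
include hα hw hmv

theorem W_fix_trivial {z : X} (hz : z ∈ W X) (hf : α z = z) : z = 1 := by
  by_contra hz1
  exact hmv (h.fix_four hα (W X) (fun m hm => W_map α hm) h.card_W_le hz hz1 hf w hw)

theorem moved_ne_one : w ≠ 1 := fun e => hmv (by rw [e, map_one])

theorem W_facts : Nat.card (W X) = 4 ∧ α (α w) = w * α w ∧
    ∀ u ∈ W X, u = 1 ∨ u = w ∨ u = α w ∨ u = w * α w := by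
  classical
  have hw1 := h.moved_ne_one hα hw hmv
  have ha1 : α w ≠ 1 := fun e => hw1 (α.injective (e.trans (map_one α).symm))
  have hp1 : w * α w ≠ 1 := fun e => hmv (by rw [eq_inv_of_mul_eq_one_right e, inv_eq_of_mul_eq_one_right hw.2])
  have hpw : w * α w ≠ w := fun e => ha1 (mul_eq_left.1 e)
  have hpa : w * α w ≠ α w := fun e => hw1 (mul_eq_right.1 e)
  let S : Finset X := {1, w, α w, w * α w}
  have hS : ∀ s ∈ S, s ∈ W X := by
    simp only [S, Finset.mem_insert, Finset.mem_singleton, forall_eq_or_imp, forall_eq]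
    exact ⟨one_mem _, hw, W_map α hw, mul_mem hw (W_map α hw)⟩
  have hScard : S.card = 4 := by
    simp [S, Finset.card_insert_of_notMem, hw1.symm, ha1.symm, hp1.symm, hmv.symm, hpw.symm, hpa.symm]
  have hSW : (S : Set X) = (W X : Set X) :=
    Set.eq_of_subset_of_ncard_le hS (by
      rw [Set.ncard_coe_finset, hScard, ← Nat.card_coe_set_eq]; exact h.card_W_le)
  have hall : ∀ u ∈ W X, u = 1 ∨ u = w ∨ u = α w ∨ u = w * α w := fun u hu => by
    have := hSW.ge hu
    simpa [S] using this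
  refine ⟨?_, ?_, hall⟩
  · rw [← hScard, ← Set.ncard_coe_finset, hSW, ← Nat.card_coe_set_eq]; rfl
  · rcases hall _ (W_map α (W_map α hw)) with e | e | e | e
    · exact absurd (α.injective (e.trans (map_one α).symm)) ha1
    · exact absurd (fixed_of_swap h.odd (h.pow_card hα) rfl e).symm hmv
    · exact absurd (α.injective e) hmv
    · exact e

theorem W_prod {u : X} (hu : u ∈ W X) : u * α u * α (α u) = 1 := by
  obtain ⟨-, hαα, hall⟩ := h.W_facts hα hw hmv
  have hw2 := hw.2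
  have ha2 := (W_map α hw).2
  have hc := W_comm hw (α w)
  rcases hall u hu with rfl | rfl | rfl | rfl
  · simp
  · rw [hαα, show u * α u * (u * α u) = 1 from (mul_mem hu (W_map α hu)).2]
  · rw [hαα, map_mul, hαα]
    exact (mul_mem (W_map α hw) (mul_mem hw (W_map α hw))).2
  · simp only [map_mul, hαα]
    exact (mul_mem (mul_mem hw (W_map α hw)) (mul_mem (W_map α hw) (mul_mem hw (W_map α hw)))).2

theorem cube_fix {u : X} (hu : u ∈ W X) : α (α (α u)) = u := by
  have h1 := h.W_prod hα hw hmv hu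
  have h2 := h.W_prod hα hw hmv (W_map α hu)
  have e1 : α u * α (α u) = u := by
    rw [mul_assoc] at h1
    rw [eq_inv_of_mul_eq_one_right h1, inv_eq_of_mul_eq_one_right hu.2]
  rw [eq_inv_of_mul_eq_one_right h2, e1, inv_eq_of_mul_eq_one_right hu.2]

/-- A subgroup invariant under `α` meeting `W` nontrivially contains it. -/
theorem W_le {K : Subgroup X} (hK : ∀ k ∈ K, α k ∈ K) {z : X} (hz : z ∈ W X) (hz1 : z ≠ 1)
    (hzK : z ∈ K) : W X ≤ K := by
  obtain ⟨-, hαα, hall⟩ := h.W_facts hα hw hmv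
  have hwK : w ∈ K := by
    rcases hall z hz with rfl | rfl | rfl | rfl
    · exact absurd rfl hz1
    · exact hzK
    · have := hK _ (hK _ hzK)
      rwa [h.cube_fix hα hw hmv hw] at this
    · have h2 : α (α w) ∈ K := hαα ▸ hzK
      have := hK _ h2
      rwa [h.cube_fix hα hw hmv hw] at this
  intro u hu
  rcases hall u hu with rfl | rfl | rfl | rfl
  · exact one_mem _
  · exact hwK
  · exact hK _ hwK
  · exact mul_mem hwK (hK _ hwK)

/-- Every `φ ∈ A` agrees on `W` with a power of `α`. -/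
theorem exists_adjust {φ : MulAut X} (hφ : φ ∈ A) :
    ∃ i : ℕ, ∀ u ∈ W X, ((α ^ i)⁻¹ * φ) u = u := by
  obtain ⟨-, hαα, hall⟩ := h.W_facts hα hw hmv
  have hw1 := h.moved_ne_one hα hw hmv
  obtain ⟨i, hi⟩ : ∃ i : ℕ, φ w = (α ^ i) w := by
    rcases hall _ (W_map φ hw) with e | e | e | e
    · exact absurd (φ.injective (e.trans (map_one φ).symm)) hw1
    · exact ⟨0, by simpa using e⟩
    · exact ⟨1, by simpa using e⟩
    · exact ⟨2, by rw [e, pow_two, MulAut.mul_apply, hαα]⟩
  refine ⟨i, h.fix_four (A.mul_mem (A.inv_mem (A.pow_mem hα i)) hφ) (W X) (fun m hm => W_map _ hm)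
    h.card_W_le hw hw1 ?_⟩
  rw [MulAut.mul_apply, hi, MulAut.inv_apply_self]

omit hw hmv in
theorem iterate_mem {K : Subgroup X} (hK : ∀ φ ∈ A, ∀ k ∈ K, φ k ∈ K) {k : X} (hk : k ∈ K) :
    α k ∈ K := hK α hα k hk

section Base

variable {B0 : Subgroup X} [B0.Normal] (h0c : ∀ a ∈ B0, ∀ b ∈ B0, a * b = b * a)
  (h0i : ∀ φ ∈ A, ∀ b ∈ B0, φ b ∈ B0) (hWB0 : W X ≤ B0) (h0 : ¬ B0 ≤ W X)
include h0c h0i hWB0 h0

/-- The maximal invariant normal abelian subgroup over `B0`, with its basic properties. -/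
theorem exists_big : ∃ B : Subgroup X, B.Normal ∧ (∀ a ∈ B, ∀ b ∈ B, a * b = b * a) ∧
    (∀ φ ∈ A, ∀ b ∈ B, φ b ∈ B) ∧ B0 ≤ B ∧ (∀ b ∈ B, b * b = 1 → b ∈ W X) ∧
    (∀ u ∈ W X, ∃ b ∈ B, b * b = u) ∧ (∀ g : X, (∀ b ∈ B, g * b = b * g) → g ∈ B) := by
  classical
  have hfin : Finite (Subgroup X) := inferInstance
  let S := {B : Subgroup X // B.Normal ∧ (∀ a ∈ B, ∀ b ∈ B, a * b = b * a) ∧
    (∀ φ ∈ A, ∀ b ∈ B, φ b ∈ B) ∧ B0 ≤ B}
  have : Nonempty S := ⟨⟨B0, inferInstance, h0c, h0i, le_rfl⟩⟩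
  obtain ⟨⟨B, hBn, hBc, hBi, hB0⟩, hmax⟩ := Finite.exists_max fun B : S => Nat.card B.1
  have hWB : W X ≤ B := hWB0.trans hB0
  have hW4 := (h.W_facts hα hw hmv).1
  let Om : Subgroup X :=
    { carrier := {b | b ∈ B ∧ b * b = 1}
      one_mem' := ⟨one_mem _, one_mul _⟩
      mul_mem' := fun {a b} ha hb => ⟨mul_mem ha.1 hb.1, by
        rw [sq_mul_of_comm (hBc a ha.1 b hb.1), ha.2, hb.2, one_mul]⟩
      inv_mem' := fun {a} ha => ⟨inv_mem ha.1, by rw [← mul_inv_rev, ha.2, inv_one]⟩ }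
  have hOmn : Om.Normal := ⟨fun b hb g => ⟨hBn.conj_mem b hb.1 g, by
    rw [show g * b * g⁻¹ * (g * b * g⁻¹) = g * (b * b) * g⁻¹ by group, hb.2, mul_one, mul_inv_cancel]⟩⟩
  have hOm : W X = Om := Subgroup.eq_of_le_of_card_ge (fun z hz => ⟨hWB hz, hz.2⟩)
    (by rw [hW4]; exact h.small Om hOmn fun a ha => ha.2)
  have hinv : ∀ b ∈ B, b * b = 1 → b ∈ W X := fun b hb hb2 => hOm ▸ (⟨hb, hb2⟩ : b ∈ Om)
  let S2 : Subgroup X :=
    { carrier := {u | ∃ b ∈ B, b * b = u}
      one_mem' := ⟨1, one_mem _, one_mul _⟩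
      mul_mem' := by
        rintro _ _ ⟨a, ha, rfl⟩ ⟨b, hb, rfl⟩
        exact ⟨a * b, mul_mem ha hb, sq_mul_of_comm (hBc a ha b hb)⟩
      inv_mem' := by
        rintro _ ⟨a, ha, rfl⟩
        exact ⟨a⁻¹, inv_mem ha, by group⟩ }
  have hS2 : W X ≤ S2 := by
    obtain ⟨b, hb, hbW⟩ := SetLike.not_le_iff_exists.1 h0
    have hb2 : b * b ≠ 1 := fun e => hbW (hinv b (hB0 hb) e)
    obtain ⟨k, hk⟩ := IsPGroup.iff_orderOf.1 h.pgrp (b * b)
    have hk0 : k ≠ 0 := fun e => hb2 (orderOf_eq_one_iff.1 (by rw [hk, e, pow_zero]))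
    obtain ⟨j, rfl⟩ := Nat.exists_eq_succ_of_ne_zero hk0
    set v := (b * b) ^ 2 ^ j with hv
    have hv1 : v ≠ 1 := pow_ne_one_of_lt_orderOf (pow_ne_zero _ two_ne_zero)
      (by rw [hk, pow_succ]; have := Nat.two_pow_pos j; omega)
    have hv2 : v * v = 1 := by
      rw [hv, ← pow_add, ← two_mul, ← pow_succ', ← hk, pow_orderOf_eq_one]
    have hvS : v ∈ S2 := S2.pow_mem ⟨b, hB0 hb, rfl⟩ _
    have hvB : v ∈ B := pow_mem (mul_mem (hB0 hb) (hB0 hb)) _
    refine h.W_le hα hw hmv ?_ (hinv v hvB hv2) hv1 hvS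
    rintro _ ⟨a, ha, rfl⟩
    exact ⟨α a, hBi α hα a ha, (map_mul α a a).symm⟩
  refine ⟨B, hBn, hBc, hBi, hB0, hinv, fun u hu => hS2 hu, ?_⟩
  -- self-centralising
  let R : Subgroup X := Subgroup.centralizer (B : Set X)
  have hmemR : ∀ {g}, g ∈ R ↔ ∀ b ∈ B, b * g = g * b := fun {g} => Subgroup.mem_centralizer_iff
  suffices R ≤ B by exact fun g hg => this (hmemR.2 fun b hb => (hg b hb).symm)
  by_contra hRB
  have hRn : R.Normal := inferInstance
  obtain ⟨r, hr, hrB, hr2, hrc⟩ := exists_central_mod h.pgrp B R hRB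
  let T : Subgroup X :=
    { carrier := {g | g ∈ R ∧ g * g ∈ B ∧ ∀ x : X, ⁅x, g⁆ ∈ B}
      one_mem' := ⟨one_mem _, by simp, fun x => by simp⟩
      mul_mem' := fun {a b} ha hb => ⟨mul_mem ha.1 hb.1, by
          rw [show a * b * (a * b) = a * a * (⁅a⁻¹, b⁆ * (b * b)) by
            rw [commutatorElement_def]; group]
          exact mul_mem ha.2.1 (mul_mem (hb.2.2 a⁻¹) hb.2.1), fun x => by
          rw [show ⁅x, a * b⁆ = ⁅x, a⁆ * (a * ⁅x, b⁆ * a⁻¹) by simp only [commutatorElement_def]; group]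
          exact mul_mem (ha.2.2 x) (hBn.conj_mem _ (hb.2.2 x) a)⟩
      inv_mem' := fun {a} ha => ⟨inv_mem ha.1, by rw [← mul_inv_rev]; exact inv_mem ha.2.1, fun x => by
          rw [show ⁅x, a⁻¹⁆ = a⁻¹ * ⁅x, a⁆⁻¹ * a⁻¹⁻¹ by simp only [commutatorElement_def]; group]
          exact hBn.conj_mem _ (inv_mem (ha.2.2 x)) _⟩ }
  have hBT : B ≤ T := fun b hb => ⟨hmemR.2 fun c hc => hBc c hc b hb, mul_mem hb hb, fun x => by
    rw [commutatorElement_def]; exact mul_mem (hBn.conj_mem b hb x) (inv_mem hb)⟩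
  have hTn : T.Normal := ⟨fun g hg x => by
    rw [show x * g * x⁻¹ = ⁅x, g⁆ * g by rw [commutatorElement_def]; group]
    exact mul_mem (hBT (hg.2.2 x)) hg⟩
  have hTi : ∀ φ ∈ A, ∀ g ∈ T, φ g ∈ T := fun φ hφ g hg =>
    ⟨hmemR.2 fun b hb => by
      have hb' : φ.symm b ∈ B := hBi φ⁻¹ (inv_mem hφ) b hb
      rw [← φ.apply_symm_apply b, ← map_mul, hmemR.1 hg.1 _ hb', map_mul],
    by rw [← map_mul]; exact hBi φ hφ _ hg.2.1,
    fun x => by
      rw [← φ.apply_symm_apply x, ← map_commutatorElement]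
      exact hBi φ hφ _ (hg.2.2 _)⟩
  have hBcen : ∀ b ∈ B, ∀ t ∈ T, b * t = t * b := fun b hb t ht => hmemR.1 ht.1 b hb
  -- commutators inside `T`
  have hTW : ∀ u ∈ T, ∀ v ∈ T, ⁅u, v⁆ ∈ W X := by
    intro u hu v hv
    refine hinv _ (hv.2.2 u) ?_
    have h1 : ⁅u * u, v⁆ = 1 :=
      commutatorElement_eq_one_iff_commute.2 (hBcen _ hu.2.1 v hv)
    rw [show ⁅u * u, v⁆ = u * ⁅u, v⁆ * u⁻¹ * ⁅u, v⁆ by simp only [commutatorElement_def]; group,
      ← hBcen _ (hv.2.2 u) u hu] at h1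
    calc ⁅u, v⁆ * ⁅u, v⁆ = ⁅u, v⁆ * u * u⁻¹ * ⁅u, v⁆ := by group
      _ = 1 := h1
  -- squaring is injective from `T / B` to `B / B²`
  have hidx : Nat.card T ≤ 4 * Nat.card B := by
    let sqB : B →* B :=
      MonoidHom.mk' (fun b => b * b) (fun a b => Subtype.ext (sq_mul_of_comm (hBc a a.2 b b.2)))
    have hkerB : Nat.card sqB.ker ≤ 4 := by
      rw [← hW4]
      exact Nat.card_le_card_of_injective
        (fun k : sqB.ker => (⟨((k : B) : X), hinv _ (k : B).2 (congrArg Subtype.val k.2)⟩ : W X))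
        (fun a b e => Subtype.ext (Subtype.ext (congrArg (fun v : W X => (v : X)) e)))
    have hB2 : sqB.range.index ≤ 4 := by
      have e1 := sqB.range.card_mul_index
      rw [← Nat.card_congr (QuotientGroup.quotientKerEquivRange sqB).toEquiv] at e1
      have e2 := sqB.ker.card_eq_card_quotient_mul_card_subgroup
      have hpos : 0 < Nat.card (B ⧸ sqB.ker) := Nat.card_pos
      rw [e2] at e1
      have : sqB.range.index = Nat.card sqB.ker := Nat.eq_of_mul_eq_mul_left hpos e1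
      omega
    have hWr : ∀ u ∈ W X, ∀ hu : u ∈ B, (⟨u, hu⟩ : B) ∈ sqB.range := fun u hu hu' => by
      obtain ⟨b, hb, e⟩ := hS2 hu
      exact ⟨⟨b, hb⟩, Subtype.ext e⟩
    haveI : sqB.range.Normal := ⟨fun n hn g => by
      rw [show g * n * g⁻¹ = n from Subtype.ext (by
        show (g : X) * n * (g : X)⁻¹ = n
        rw [hBc g g.2 n n.2, mul_inv_cancel_right])]
      exact hn⟩
    let q : T →* B ⧸ sqB.range := MonoidHom.mk'
      (fun t : T => QuotientGroup.mk (⟨(t : X) * t, t.2.2.1⟩ : B)) (fun a b => by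
        show QuotientGroup.mk _ = QuotientGroup.mk _ * QuotientGroup.mk _
        rw [← QuotientGroup.mk_mul]
        refine QuotientGroup.eq.2 ?_
        have hc : ⁅(b : X)⁻¹, (a : X)⁻¹⁆ ∈ W X := hTW _ (inv_mem b.2) _ (inv_mem a.2)
        have e : ((⟨((a * b : T) : X) * (a * b : T), (a * b : T).2.2.1⟩ : B)⁻¹ *
            (⟨(a : X) * a, a.2.2.1⟩ * ⟨(b : X) * b, b.2.2.1⟩) : B) =
            ⟨⁅(b : X)⁻¹, (a : X)⁻¹⁆, hWB hc⟩ := by
          refine Subtype.ext ?_
          show ((a : X) * b * ((a : X) * b))⁻¹ * ((a : X) * a * ((b : X) * b)) = _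
          calc ((a : X) * b * ((a : X) * b))⁻¹ * ((a : X) * a * ((b : X) * b))
              = (b : X)⁻¹ * ⁅(a : X)⁻¹, (b : X)⁻¹⁆ * b := by
                simp only [commutatorElement_def]; group
            _ = (b : X)⁻¹ * (⁅(b : X)⁻¹, (a : X)⁻¹⁆ * b) := by
                rw [← commutatorElement_inv (b : X)⁻¹ (a : X)⁻¹, inv_eq_of_mul_eq_one_right hc.2]; group
            _ = (b : X)⁻¹ * ((b : X) * ⁅(b : X)⁻¹, (a : X)⁻¹⁆) := by rw [W_comm hc]
            _ = _ := by group
        rw [e]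
        exact hWr _ hc _)
    have hker : q.ker ≤ B.subgroupOf T := by
      intro t ht
      have ht' : (⟨(t : X) * t, t.2.2.1⟩ : B) ∈ sqB.range := (QuotientGroup.eq_one_iff _).1 ht
      obtain ⟨⟨b, hb⟩, e⟩ := ht'
      have e : b * b = (t : X) * t := congrArg Subtype.val e
      have hbt : b⁻¹ * (t : X) = (t : X) * b⁻¹ := hBcen _ (inv_mem hb) _ t.2
      have hs : (t : X) * b⁻¹ * ((t : X) * b⁻¹) = 1 := by
        rw [sq_mul_of_comm hbt.symm, ← e]; group
      have hsT : (t : X) * b⁻¹ ∈ T := mul_mem t.2 (hBT (inv_mem hb))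
      have hsW : (t : X) * b⁻¹ ∈ W X := by
        refine h.mem_W_of_comm hW4 hs fun x => hinv _ (hsT.2.2 x) ?_
        set s := (t : X) * b⁻¹
        have h1 : ⁅x, s * s⁆ = 1 := by rw [hs]; simp
        rw [show ⁅x, s * s⁆ = ⁅x, s⁆ * (s * ⁅x, s⁆ * s⁻¹) by simp only [commutatorElement_def]; group,
          ← hBcen _ (hsT.2.2 x) s hsT] at h1
        calc ⁅x, s⁆ * ⁅x, s⁆ = ⁅x, s⁆ * (⁅x, s⁆ * s * s⁻¹) := by group
          _ = 1 := h1
      show (t : X) ∈ B
      rw [show (t : X) = (t : X) * b⁻¹ * b by group]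
      exact mul_mem (hWB hsW) hb
    have e1 := q.ker.card_eq_card_quotient_mul_card_subgroup
    have e2 : Nat.card (T ⧸ q.ker) ≤ 4 := by
      refine le_trans ?_ hB2
      rw [Nat.card_congr (QuotientGroup.quotientKerEquivRange q).toEquiv]
      exact Subgroup.card_le_card_group _
    have e3 : Nat.card q.ker ≤ Nat.card B := by
      refine (Subgroup.card_le_of_le hker).trans (le_of_eq ?_)
      exact Nat.card_congr (Subgroup.subgroupOfEquivOfLe hBT).toEquiv
    calc Nat.card T = Nat.card (T ⧸ q.ker) * Nat.card q.ker := e1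
      _ ≤ 4 * Nat.card B := Nat.mul_le_mul e2 e3
  have hTc : ∀ a ∈ T, ∀ b ∈ T, a * b = b * a := by
    by_contra hne
    push Not at hne
    obtain ⟨u, hu, v, hv, huv⟩ := hne
    have hc1 : ⁅u, v⁆ ≠ 1 := fun e => huv (commutatorElement_eq_one_iff_commute.1 e).eq
    have hpair := fun a ha b hb => comm_pair T B hBT hBcen hidx hu hv huv a ha b hb
      (fun p hp q hq z _ => (W_comm (hTW p hp q hq) z).symm) (hTW u hu v hv).2
    refine hc1 (h.W_fix_trivial hα hw hmv (hTW u hu v hv) ?_)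
    rcases hpair (α u) (hTi α hα u hu) (α v) (hTi α hα v hv) with e | e
    · rw [← map_commutatorElement] at e
      exact absurd (α.injective (e.trans (map_one α).symm)) hc1
    · rw [← map_commutatorElement] at e
      exact e
  have hle := hmax ⟨T, hTn, hTc, hTi, hB0.trans hBT⟩
  exact hrB ((Subgroup.eq_of_le_of_card_ge hBT hle).ge (⟨hr, hr2, hrc⟩ : r ∈ T))

/-- All squares lie in `W`. -/
theorem squares_mem_W : ∀ x : X, x * x ∈ W X := by
  obtain ⟨B, hBn, hBc, hBi, hB0, hinv, hroot, hself⟩ :=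
    h.exists_big hα hw hmv h0c h0i hWB0 h0
  have hWB : W X ≤ B := hWB0.trans hB0
  have hW4 := (h.W_facts hα hw hmv).1
  have hαB : ∀ {b}, b ∈ B → α b ∈ B := fun hb => hBi α hα _ hb
  -- products over orbits and cubes of `α` on `B`
  have hfix : ∀ {φ : MulAut X}, φ ∈ A → (∀ u ∈ W X, φ u = u) → ∀ b ∈ B, φ b = b := fun hφ hu =>
    fixed_abelian h.pgrp h.odd (h.pow_card hφ) B hBc (fun b hb => hBi _ hφ b hb)
      fun b hb hb2 => hu b (hinv b hb hb2)
  have hcube : ∀ b ∈ B, α (α (α b)) = b := fun b hb =>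
    hfix (A.mul_mem hα (A.mul_mem hα hα)) (fun u hu => h.cube_fix hα hw hmv hu) b hb
  have hprod : ∀ b ∈ B, b * α b * α (α b) = 1 := by
    intro b hb
    have hyB : b * α b * α (α b) ∈ B := mul_mem (mul_mem hb (hαB hb)) (hαB (hαB hb))
    have hyf : α (b * α b * α (α b)) = b * α b * α (α b) := by
      rw [map_mul, map_mul, hcube b hb, hBc _ (mul_mem (hαB hb) (hαB (hαB hb))) b hb, ← mul_assoc]
    generalize b * α b * α (α b) = y at hyB hyf
    by_contra hy
    obtain ⟨k, hk⟩ := IsPGroup.iff_orderOf.1 h.pgrp y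
    have hk0 : k ≠ 0 := fun e => hy (orderOf_eq_one_iff.1 (by rw [hk, e, pow_zero]))
    obtain ⟨j, rfl⟩ := Nat.exists_eq_succ_of_ne_zero hk0
    have hv1 : y ^ 2 ^ j ≠ 1 := pow_ne_one_of_lt_orderOf (pow_ne_zero _ two_ne_zero)
      (by rw [hk, pow_succ]; have := Nat.two_pow_pos j; omega)
    refine hv1 (h.W_fix_trivial hα hw hmv (hinv _ (pow_mem hyB _) ?_) (by rw [map_pow, hyf]))
    rw [← pow_add, ← two_mul, ← pow_succ', ← hk, pow_orderOf_eq_one]
  -- conjugation on `B`
  have hcm : ∀ x : X, ∀ b ∈ B, ⁅x, b⁆ ∈ B := fun x b hb => by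
    rw [commutatorElement_def]; exact mul_mem (hBn.conj_mem b hb x) (inv_mem hb)
  have hr : ∀ x : X, ∀ a ∈ B, ∀ b ∈ B, ⁅x, a * b⁆ = ⁅x, a⁆ * ⁅x, b⁆ := fun x a ha b hb => by
    calc ⁅x, a * b⁆ = ⁅x, a⁆ * (a * ⁅x, b⁆ * a⁻¹) := by simp only [commutatorElement_def]; group
      _ = _ := by rw [hBc a ha _ (hcm x b hb)]; group
  -- the elements of order at most four
  let B4 : Subgroup X :=
    { carrier := {b | b ∈ B ∧ b * b ∈ W X}
      one_mem' := ⟨one_mem _, by simp⟩
      mul_mem' := fun {a b} ha hb => ⟨mul_mem ha.1 hb.1, by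
        rw [sq_mul_of_comm (hBc a ha.1 b hb.1)]; exact mul_mem ha.2 hb.2⟩
      inv_mem' := fun {a} ha => ⟨inv_mem ha.1, by rw [← mul_inv_rev]; exact inv_mem ha.2⟩ }
  have hB4W : ∀ x : X, ∀ b ∈ B4, ⁅x, b⁆ ∈ W X := fun x b hb => by
    refine hinv _ (hcm x b hb.1) ?_
    rw [← hr x b hb.1 b hb.1]
    exact commutatorElement_eq_one_iff_commute.2 (W_comm hb.2 x)
  have hB4α : ∀ b ∈ B4, α b ∈ B4 := fun b hb => ⟨hαB hb.1, by rw [← map_mul]; exact W_map α hb.2⟩
  have hWB4 : W X ≤ B4 := fun u hu => ⟨hWB hu, by rw [hu.2]; exact one_mem _⟩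
  -- the norm relation
  have hnorm : ∀ b ∈ B4, ∀ x : X, ⁅x, b⁆ * ⁅α x, b⁆ * ⁅α (α x), b⁆ = 1 := by
    intro b hb
    let g : X →* W X := MonoidHom.mk' (fun x => ⟨⁅x, b⁆, hB4W x b hb⟩) (fun x y => Subtype.ext (by
      show ⁅x * y, b⁆ = ⁅x, b⁆ * ⁅y, b⁆
      calc ⁅x * y, b⁆ = x * ⁅y, b⁆ * x⁻¹ * ⁅x, b⁆ := by simp only [commutatorElement_def]; group
        _ = ⁅y, b⁆ * x * x⁻¹ * ⁅x, b⁆ := by rw [W_comm (hB4W y b hb) x]
        _ = ⁅y, b⁆ * ⁅x, b⁆ := by group
        _ = _ := W_comm (hB4W x b hb) _))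
    have gval : ∀ x, (g x : X) = ⁅x, b⁆ := fun x => rfl
    let P : X →* W X := MonoidHom.mk' (fun x => g x * g (α x) * g (α (α x))) (fun x y => Subtype.ext (by
      simp only [map_mul, Subgroup.coe_mul]
      have hc : ∀ (u : W X) (v : X), v * (u : X) = (u : X) * v := fun u v => W_comm u.2 v
      generalize g x = p1; generalize g y = q1; generalize g (α x) = p2; generalize g (α y) = q2
      generalize g (α (α x)) = p3; generalize g (α (α y)) = q3
      calc (p1 : X) * q1 * ((p2 : X) * q2) * ((p3 : X) * q3)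
          = p1 * ((q1 : X) * p2) * q2 * p3 * q3 := by group
        _ = p1 * ((p2 : X) * q1) * q2 * p3 * q3 := by rw [hc p2]
        _ = p1 * p2 * (((q1 : X) * q2) * p3) * q3 := by group
        _ = p1 * p2 * ((p3 : X) * ((q1 : X) * q2)) * q3 := by rw [hc p3]
        _ = _ := by group))
    have hPker : ⊤ ≤ P.ker := by
      -- generators
      have hcent : ∀ {ψ : MulAut X}, ψ ∈ A → (∀ u ∈ W X, ψ u = u) → ∀ x, x⁻¹ * ψ x ∈ B := by
        intro ψ hψ hu x
        refine hself _ fun c hc => ?_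
        have h1 := hfix hψ hu _ (hBn.conj_mem c hc x)
        rw [map_mul, map_mul, map_inv, hfix hψ hu c hc] at h1
        calc x⁻¹ * ψ x * c = x⁻¹ * (ψ x * c * (ψ x)⁻¹) * ψ x := by group
          _ = x⁻¹ * (x * c * x⁻¹) * ψ x := by rw [h1]
          _ = c * (x⁻¹ * ψ x) := by group
      have hB1 : ∀ c ∈ B, g c = 1 := fun c hc => Subtype.ext
        (commutatorElement_eq_one_iff_commute.2 (hBc c hc b hb.1))
      have hBP : ∀ c ∈ B, c ∈ P.ker := fun c hc => by
        show g c * g (α c) * g (α (α c)) = 1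
        rw [hB1 c hc, hB1 _ (hαB hc), hB1 _ (hαB (hαB hc)), one_mul, one_mul]
      have h1 : ∀ x, x⁻¹ * α x ∈ P.ker := fun x => by
        have h3 : g (α (α (α x))) = g x := by
          have := hB1 _ (hcent (A.mul_mem hα (A.mul_mem hα hα))
            (fun u hu => h.cube_fix hα hw hmv hu) x)
          rw [map_mul, map_inv, inv_mul_eq_one] at this
          exact this.symm
        rw [MonoidHom.mem_ker, map_mul, map_inv, inv_mul_eq_one]
        show g x * g (α x) * g (α (α x)) = g (α x) * g (α (α x)) * g (α (α (α x)))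
        rw [h3]
        refine Subtype.ext ?_
        simp only [Subgroup.coe_mul]
        calc (g x : X) * g (α x) * g (α (α x)) = (g x : X) * ((g (α x) : X) * g (α (α x))) := by group
          _ = _ := (W_comm (g x).2 _).symm
      have hpow : ∀ i : ℕ, ∀ x, x⁻¹ * (α ^ i) x ∈ P.ker := fun i => by
        induction i with
        | zero => intro x; simp
        | succ i ih =>
          intro x
          rw [pow_succ, MulAut.mul_apply,
            show x⁻¹ * (α ^ i) (α x) = (x⁻¹ * α x) * ((α x)⁻¹ * (α ^ i) (α x)) by group]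
          exact mul_mem (h1 x) (ih _)
      rw [← h.gen, Subgroup.closure_le]
      rintro _ ⟨φ, hφ, x, rfl⟩
      obtain ⟨i, hi⟩ := h.exists_adjust hα hw hmv hφ
      have hψ : (α ^ i)⁻¹ * φ ∈ A := A.mul_mem (A.inv_mem (A.pow_mem hα i)) hφ
      have hx := hcent hψ hi x
      rw [show x⁻¹ * φ x = (x⁻¹ * (α ^ i) x) *
        (α ^ i) (x⁻¹ * ((α ^ i)⁻¹ * φ) x) by
          rw [map_mul, map_inv, MulAut.mul_apply, MulAut.apply_inv_self]; group]
      exact mul_mem (hpow i x) (hBP _ (hBi _ (A.pow_mem hα i) _ hx))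
    intro x
    exact congrArg Subtype.val (hPker (Subgroup.mem_top x))
  -- an element killed modulo `α`
  have hαW : ∀ u ∈ W X, α u = u → u = 1 := fun u hu hf => h.W_fix_trivial hα hw hmv hu hf
  have hgen4 : ∀ c ∈ B4, c * c ≠ 1 → ∀ b ∈ B4, ∃ u ∈ W X, b = u ∨ b = c * u ∨ b = α c * u ∨
      b = c * α c * u := by
    intro c hc hc2 b hb
    have hne : α (c * c) ≠ c * c := fun e => hc2 (hαW _ hc.2 e)
    obtain ⟨-, -, hall⟩ := h.W_facts hα hc.2 hne
    have key : ∀ d ∈ B4, b * b = d * d → d⁻¹ * b ∈ W X ∧ b = d * (d⁻¹ * b) := by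
      intro d hd e
      refine ⟨hinv _ (mul_mem (inv_mem hd.1) hb.1) ?_, by group⟩
      rw [sq_mul_of_comm (hBc _ (inv_mem hd.1) b hb.1), e]; group
    rcases hall _ hb.2 with e | e | e | e
    · exact ⟨b, hinv b hb.1 e, Or.inl rfl⟩
    · obtain ⟨h1, h2⟩ := key c hc e
      exact ⟨_, h1, Or.inr (Or.inl h2)⟩
    · obtain ⟨h1, h2⟩ := key (α c) (hB4α c hc) (e.trans (map_mul α c c))
      exact ⟨_, h1, Or.inr (Or.inr (Or.inl h2))⟩
    · obtain ⟨h1, h2⟩ := key (c * α c) (mul_mem hc (hB4α c hc)) (by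
        rw [e, sq_mul_of_comm (hBc c hc.1 _ (hαB hc.1)), map_mul])
      exact ⟨_, h1, Or.inr (Or.inr (Or.inr h2))⟩
  have hdich : ∀ x : X, ∀ c ∈ B4, c * c ≠ 1 → ⁅x, c⁆ = 1 → ∀ b ∈ B4, ⁅x, b⁆ = 1 := by
    intro x c hc hc2 hxc
    set p := ⁅x, α c⁆ with hp
    set p' := ⁅x, α (α c)⁆ with hp'
    have hpW : p ∈ W X := hB4W x _ (hB4α c hc)
    have hp'W : p' ∈ W X := hB4W x _ (hB4α _ (hB4α c hc))
    have hpp : p * p' = 1 := by
      have h1 := congrArg (fun y => ⁅x, y⁆) (hprod c hc.1)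
      simp only [commutatorElement_one_right] at h1
      rw [hr x _ (mul_mem hc.1 (hαB hc.1)) _ (hαB (hαB hc.1)), hr x c hc.1 _ (hαB hc.1), hxc,
        one_mul] at h1
      exact h1
    have hpeq : p' = p := by
      rw [eq_inv_of_mul_eq_one_right hpp]; exact inv_eq_of_mul_eq_one_right hpW.2
    have h2 := hnorm _ (hB4α c hc) x
    have e1 : ⁅α x, α c⁆ = 1 := by rw [← map_commutatorElement, hxc, map_one]
    have e2 : ⁅α (α x), α c⁆ = α (α p') := by
      rw [hp', map_commutatorElement, map_commutatorElement, hcube c hc.1]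
    rw [e1, e2, hpeq, mul_one] at h2
    have h3 : α (α p) = p := by
      rw [eq_inv_of_mul_eq_one_right h2]; exact inv_eq_of_mul_eq_one_right hpW.2
    have hp1 : p = 1 := hαW p hpW (by
      have := congrArg α h3
      rw [h.cube_fix hα hw hmv hpW] at this
      exact this.symm)
    intro b hb
    obtain ⟨u, hu, hb'⟩ := hgen4 c hc hc2 b hb
    have hu1 : ⁅x, u⁆ = 1 := commutatorElement_eq_one_iff_commute.2 (W_comm hu x)
    rcases hb' with rfl | rfl | rfl | rfl
    · exact hu1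
    · rw [hr x c hc.1 u (hWB hu), hxc, hu1, one_mul]
    · rw [hr x _ (hαB hc.1) u (hWB hu), ← hp, hp1, hu1, one_mul]
    · rw [hr x _ (mul_mem hc.1 (hαB hc.1)) u (hWB hu), hr x c hc.1 _ (hαB hc.1), hxc, ← hp, hp1, hu1]
      simp
  by_cases hbig : ∀ b ∈ B, b ∈ B4
  · -- exponent four
    intro x
    by_cases hx : x ∈ B
    · exact (hbig x hx).2
    have hxB : x * x ∈ B := by
      refine hself _ fun b hb => (commutatorElement_eq_one_iff_commute.1 ?_).eq
      have hcW := hB4W x b (hbig b hb)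
      calc ⁅x * x, b⁆ = x * ⁅x, b⁆ * x⁻¹ * ⁅x, b⁆ := by simp only [commutatorElement_def]; group
        _ = ⁅x, b⁆ * x * x⁻¹ * ⁅x, b⁆ := by rw [W_comm hcW x]
        _ = ⁅x, b⁆ * ⁅x, b⁆ := by group
        _ = 1 := hcW.2
    refine hinv _ hxB ?_ |> fun hh => hh
    by_contra hne
    refine hx (hself x fun b hb => (commutatorElement_eq_one_iff_commute.1 ?_).eq)
    exact hdich x (x * x) (hbig _ hxB) hne
      (commutatorElement_eq_one_iff_commute.2 ((Commute.refl x).mul_right (Commute.refl x))) b (hbig b hb)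
  · exfalso
    push Not at hbig
    obtain ⟨b0, hb0, hb04⟩ := hbig
    -- fourth powers cover `W`
    let S4 : Subgroup X :=
      { carrier := {u | ∃ d ∈ B, d * d * (d * d) = u}
        one_mem' := ⟨1, one_mem _, by simp⟩
        mul_mem' := by
          rintro _ _ ⟨a, ha, rfl⟩ ⟨b, hb, rfl⟩
          exact ⟨a * b, mul_mem ha hb, by
            rw [sq_mul_of_comm (hBc a ha b hb), sq_mul_of_comm (hBc _ (mul_mem ha ha) _ (mul_mem hb hb))]⟩
        inv_mem' := by
          rintro _ ⟨a, ha, rfl⟩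
          exact ⟨a⁻¹, inv_mem ha, by group⟩ }
    have hS4 : W X ≤ S4 := by
      have hv0 : b0 * b0 * (b0 * b0) ≠ 1 := fun e => hb04 ⟨hb0, hinv _ (mul_mem hb0 hb0) e⟩
      obtain ⟨k, hk⟩ := IsPGroup.iff_orderOf.1 h.pgrp (b0 * b0 * (b0 * b0))
      have hk0 : k ≠ 0 := fun e => hv0 (orderOf_eq_one_iff.1 (by rw [hk, e, pow_zero]))
      obtain ⟨j, rfl⟩ := Nat.exists_eq_succ_of_ne_zero hk0
      have hvB : (b0 * b0 * (b0 * b0)) ^ 2 ^ j ∈ B :=
        pow_mem (mul_mem (mul_mem hb0 hb0) (mul_mem hb0 hb0)) _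
      refine h.W_le hα hw hmv (K := S4) ?_ (hinv _ hvB (by
        rw [← pow_add, ← two_mul, ← pow_succ', ← hk, pow_orderOf_eq_one]))
        (pow_ne_one_of_lt_orderOf (pow_ne_zero _ two_ne_zero)
          (by rw [hk, pow_succ]; have := Nat.two_pow_pos j; omega))
        (S4.pow_mem ⟨b0, hb0, rfl⟩ _)
      rintro _ ⟨d, hd, rfl⟩
      exact ⟨α d, hαB hd, by simp⟩
    have hB4sq : ∀ c ∈ B4, ∃ d ∈ B, d * d = c := by
      intro c hc
      obtain ⟨d, hd, e⟩ := hS4 hc.2
      have hcdB : (d * d)⁻¹ * c ∈ B := mul_mem (inv_mem (mul_mem hd hd)) hc.1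
      have hcd : (d * d)⁻¹ * c ∈ W X := hinv _ hcdB (by
        rw [sq_mul_of_comm (hBc _ (inv_mem (mul_mem hd hd)) c hc.1), ← e]; group)
      obtain ⟨f, hf, ef⟩ := hroot _ hcd
      exact ⟨d * f, mul_mem hd hf, by rw [sq_mul_of_comm (hBc d hd f hf), ef]; group⟩
    -- a central involution modulo `B`
    have hne : ¬ (⊤ : Subgroup X) ≤ B := fun hle => by
      obtain ⟨a, b, hab⟩ := h.nonab
      exact hab (hBc a (hle (Subgroup.mem_top a)) b (hle (Subgroup.mem_top b)))
    obtain ⟨t0, -, ht0, ht02, ht0c⟩ := exists_central_mod h.pgrp B ⊤ hne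
    have hcentB : ∀ {φ : MulAut X}, φ ∈ A → (∀ u ∈ W X, φ u = u) → ∀ x, x⁻¹ * φ x ∈ B := by
      intro ψ hψ hu x
      refine hself _ fun c hc => ?_
      have h1 := hfix hψ hu _ (hBn.conj_mem c hc x)
      rw [map_mul, map_mul, map_inv, hfix hψ hu c hc] at h1
      calc x⁻¹ * ψ x * c = x⁻¹ * (ψ x * c * (ψ x)⁻¹) * ψ x := by group
        _ = x⁻¹ * (x * c * x⁻¹) * ψ x := by rw [h1]
        _ = c * (x⁻¹ * ψ x) := by group
    let Q : Subgroup X :=
      { carrier := {g | g * g ∈ B ∧ ∀ x : X, ⁅x, g⁆ ∈ B}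
        one_mem' := ⟨by simp, fun x => by simp⟩
        mul_mem' := fun {a b} ha hb => ⟨by
            rw [show a * b * (a * b) = a * a * (⁅a⁻¹, b⁆ * (b * b)) by rw [commutatorElement_def]; group]
            exact mul_mem ha.1 (mul_mem (hb.2 a⁻¹) hb.1), fun x => by
            rw [show ⁅x, a * b⁆ = ⁅x, a⁆ * (a * ⁅x, b⁆ * a⁻¹) by simp only [commutatorElement_def]; group]
            exact mul_mem (ha.2 x) (hBn.conj_mem _ (hb.2 x) a)⟩
        inv_mem' := fun {a} ha => ⟨by rw [← mul_inv_rev]; exact inv_mem ha.1, fun x => by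
            rw [show ⁅x, a⁻¹⁆ = a⁻¹ * ⁅x, a⁆⁻¹ * a⁻¹⁻¹ by simp only [commutatorElement_def]; group]
            exact hBn.conj_mem _ (inv_mem (ha.2 x)) _⟩ }
    have hQi : ∀ g ∈ Q, α g ∈ Q := fun g hg => ⟨by rw [← map_mul]; exact hαB hg.1, fun x => by
      rw [← α.apply_symm_apply x, ← map_commutatorElement]; exact hαB (hg.2 _)⟩
    -- choose `t` with trivial norm, or fixed modulo `B`
    obtain ⟨t, htB, htQ, hchoice⟩ : ∃ t, t ∉ B ∧ t ∈ Q ∧ (t * α t * α (α t) ∈ B ∨ t⁻¹ * α t ∈ B) := by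
      by_cases hP : t0 * α t0 * α (α t0) ∈ B
      · exact ⟨t0, ht0, ⟨ht02, ht0c⟩, Or.inl hP⟩
      · have ht0Q : t0 ∈ Q := ⟨ht02, ht0c⟩
        refine ⟨_, hP, mul_mem (mul_mem ht0Q (hQi _ ht0Q)) (hQi _ (hQi _ ht0Q)), Or.inr ?_⟩
        have h3 := hcentB (A.mul_mem hα (A.mul_mem hα hα)) (fun u hu => h.cube_fix hα hw hmv hu) t0
        let π := QuotientGroup.mk' B
        rw [← QuotientGroup.eq]
        show π _ = π _
        have hQc : ∀ g ∈ Q, ∀ y : X, π y * π g = π g * π y := fun g hg y => by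
          rw [← commutatorElement_eq_one_iff_mul_comm, ← map_commutatorElement]
          exact (QuotientGroup.eq_one_iff _).2 (hg.2 y)
        have h3' : π (α (α (α t0))) = π t0 := (QuotientGroup.eq.2 h3).symm
        simp only [map_mul]
        rw [h3']
        calc π t0 * π (α t0) * π (α (α t0)) = π t0 * (π (α t0) * π (α (α t0))) := mul_assoc _ _ _
          _ = π (α t0) * π (α (α t0)) * π t0 := by rw [← map_mul, hQc t0 ht0Q]
    -- `t` centralises `B4`
    have ht4 : ∀ b ∈ B4, ⁅t, b⁆ = 1 := by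
      by_contra hne
      push Not at hne
      obtain ⟨b1, hb1, hb1t⟩ := hne
      have hinj : ∀ c ∈ B4, ⁅t, c⁆ = 1 → c * c = 1 := fun c hc hct => by
        by_contra hc2
        exact hb1t (hdich t c hc hc2 hct b1 hb1)
      -- the induced map on `W` would be the identity
      obtain ⟨d, hd, hd4⟩ := hS4 hw
      have hd2 : d * d ∈ B4 := ⟨mul_mem hd hd, by rw [hd4]; exact hw⟩
      set e := ⁅t, d⁆ with he
      have heB : e ∈ B := hcm t d hd
      have he2 : e * e = ⁅t, d * d⁆ := (hr t d hd d hd).symm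
      have he4 : e ∈ B4 := ⟨heB, he2 ▸ hB4W t _ hd2⟩
      have ht2d : ⁅t, d⁆ * ⁅t, e⁆ * ⁅t, d⁆ = 1 := by
        have h0 : ⁅t * t, d⁆ = 1 := commutatorElement_eq_one_iff_commute.2 (hBc _ htQ.1 d hd)
        calc ⁅t, d⁆ * ⁅t, e⁆ * ⁅t, d⁆ = e * ⁅t, e⁆ * ⁅t, d⁆ := by rw [← he]
          _ = ⁅t, e⁆ * e * ⁅t, d⁆ := by rw [W_comm (hB4W t e he4) e]
          _ = ⁅t * t, d⁆ := by rw [he]; simp only [commutatorElement_def]; group
          _ = 1 := h0
      have hfe : ⁅t, e⁆ = e * e := by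
        have heW : e * e ∈ W X := he4.2
        calc ⁅t, e⁆ = e⁻¹ * (e * ⁅t, e⁆ * e) * e⁻¹ := by group
          _ = (e * e)⁻¹ := by rw [show e * ⁅t, e⁆ * e = 1 from ht2d]; group
          _ = _ := inv_eq_of_mul_eq_one_right heW.2
      -- hence `e` and `d²` agree up to `W`
      have hec : e * (d * d)⁻¹ ∈ B4 := mul_mem he4 (inv_mem hd2)
      have hsame : e * e = w := by
        have h1 : ⁅t, e * (d * d)⁻¹⁆ = 1 := by
          rw [hr t e heB _ (inv_mem (mul_mem hd hd)), hfe, he2]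
          rw [← hr t _ (mul_mem hd hd) _ (inv_mem (mul_mem hd hd))]
          simp
        have h2 := hinj _ hec h1
        rw [sq_mul_of_comm (hBc e heB _ (inv_mem (mul_mem hd hd)))] at h2
        rw [eq_inv_of_mul_eq_one_left h2, ← hd4]; simp [mul_inv_rev]
      have hfw : ⁅t, d * d⁆ = w := he2 ▸ hsame
      -- the same for every element of `B4`
      have hid : ∀ c ∈ B4, ⁅t, c⁆ = c * c := by
        intro c hc
        obtain ⟨d', hd', hd'4⟩ := hS4 hc.2
        have hd'2 : d' * d' ∈ B4 := ⟨mul_mem hd' hd', by rw [hd'4]; exact hc.2⟩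
        set f := ⁅t, d'⁆ with hf
        have hfB : f ∈ B := hcm t d' hd'
        have hf2 : f * f = ⁅t, d' * d'⁆ := (hr t d' hd' d' hd').symm
        have hf4 : f ∈ B4 := ⟨hfB, hf2 ▸ hB4W t _ hd'2⟩
        have hft : ⁅t, f⁆ = f * f := by
          have h0 : ⁅t * t, d'⁆ = 1 := commutatorElement_eq_one_iff_commute.2 (hBc _ htQ.1 d' hd')
          have h1 : f * ⁅t, f⁆ * f = 1 := by
            calc f * ⁅t, f⁆ * f = ⁅t, f⁆ * f * f := by rw [W_comm (hB4W t f hf4) f]
              _ = ⁅t * t, d'⁆ := by rw [hf]; simp only [commutatorElement_def]; group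
              _ = 1 := h0
          calc ⁅t, f⁆ = f⁻¹ * (f * ⁅t, f⁆ * f) * f⁻¹ := by group
            _ = (f * f)⁻¹ := by rw [h1]; group
            _ = _ := inv_eq_of_mul_eq_one_right hf4.2.2
        have hfc : f * (d' * d')⁻¹ ∈ B4 := mul_mem hf4 (inv_mem hd'2)
        have h1 : ⁅t, f * (d' * d')⁻¹⁆ = 1 := by
          rw [hr t f hfB _ (inv_mem (mul_mem hd' hd')), hft, hf2,
            ← hr t _ (mul_mem hd' hd') _ (inv_mem (mul_mem hd' hd'))]
          simp
        have h2 := hinj _ hfc h1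
        rw [sq_mul_of_comm (hBc f hfB _ (inv_mem (mul_mem hd' hd')))] at h2
        have h3 : f * f = c * c := by rw [eq_inv_of_mul_eq_one_left h2, ← hd'4]; simp [mul_inv_rev]
        have h4 : (d' * d')⁻¹ * c ∈ B4 := mul_mem (inv_mem hd'2) hc
        have h5 : (d' * d')⁻¹ * c ∈ W X := hinv _ h4.1 (by
          rw [sq_mul_of_comm (hBc _ (inv_mem (mul_mem hd' hd')) c hc.1), ← hd'4]; group)
        rw [show c = (d' * d') * ((d' * d')⁻¹ * c) by group,
          hr t _ (mul_mem hd' hd') _ h4.1, ← hf2, h3,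
          commutatorElement_eq_one_iff_commute.2 (W_comm h5 t), mul_one]
        group
      rcases hchoice with hn | hfixB
      · have hz : ∀ b ∈ B4, ∀ v ∈ B, ∀ s : X, ⁅s * v, b⁆ = ⁅s, b⁆ := fun b hb v hv s => by
          have e1 : ⁅v, b⁆ = 1 := commutatorElement_eq_one_iff_commute.2 (hBc v hv b hb.1)
          calc ⁅s * v, b⁆ = s * ⁅v, b⁆ * s⁻¹ * ⁅s, b⁆ := by simp only [commutatorElement_def]; group
            _ = _ := by rw [e1]; group
        -- the norm relation at `d²` gives `w³ = 1`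
        have h1 := hnorm _ hd2 t
        have e1 : ⁅α t, d * d⁆ = w := by
          have hc' : α (α (d * d)) ∈ B4 := hB4α _ (hB4α _ hd2)
          have := congrArg α (hid _ hc')
          rw [map_commutatorElement, hcube _ hd2.1, map_mul, hcube _ hd2.1, hd4] at this
          exact this
        have e2 : ⁅α (α t), d * d⁆ = w := by
          have hc' : α (d * d) ∈ B4 := hB4α _ hd2
          have := congrArg (fun y => α (α y)) (hid _ hc')
          simp only [map_commutatorElement] at this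
          rw [hcube _ hd2.1] at this
          rw [this, map_mul, map_mul, hcube _ hd2.1, hd4]
        rw [hfw, e1, e2, hw.2, one_mul] at h1
        exact h.moved_ne_one hα hw hmv h1
      · have h1 := hnorm _ hd2 t
        have e0 : ∀ {s : X}, t⁻¹ * s ∈ B → ⁅s, d * d⁆ = w := fun {s} hs => by
          have : ⁅t * (t⁻¹ * s), d * d⁆ = ⁅t, d * d⁆ := by
            have e1 : ⁅t⁻¹ * s, d * d⁆ = 1 :=
              commutatorElement_eq_one_iff_commute.2 (hBc _ hs _ hd2.1)
            calc ⁅t * (t⁻¹ * s), d * d⁆ = t * ⁅t⁻¹ * s, d * d⁆ * t⁻¹ * ⁅t, d * d⁆ := by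
                  simp only [commutatorElement_def]; group
              _ = _ := by rw [e1]; group
          rw [mul_inv_cancel_left] at this
          rw [this, hfw]
        have h2 : t⁻¹ * α (α t) ∈ B := by
          rw [show t⁻¹ * α (α t) = (t⁻¹ * α t) * α (t⁻¹ * α t) by rw [map_mul, map_inv]; group]
          exact mul_mem hfixB (hαB hfixB)
        rw [hfw, e0 hfixB, e0 h2, hw.2, one_mul] at h1
        exact h.moved_ne_one hα hw hmv h1
    -- `t` maps `B` into `W`
    have htW : ∀ n, ∀ b ∈ B, b ^ 2 ^ n = 1 → ⁅t, b⁆ ∈ W X := by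
      intro n
      induction n with
      | zero => intro b _ e; rw [pow_zero, pow_one] at e; simp [e]
      | succ n ih =>
        intro b hb e
        have h1 : ⁅t, b * b⁆ ∈ W X :=
          ih _ (mul_mem hb hb) (by rw [← pow_two, ← pow_mul, ← pow_succ']; exact e)
        rw [hr t b hb b hb] at h1
        have he4 : ⁅t, b⁆ ∈ B4 := ⟨hcm t b hb, h1⟩
        refine hinv _ (hcm t b hb) ?_
        have h0 : ⁅t * t, b⁆ = 1 := commutatorElement_eq_one_iff_commute.2 (hBc _ htQ.1 b hb)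
        calc ⁅t, b⁆ * ⁅t, b⁆ = ⁅t, ⁅t, b⁆⁆ * ⁅t, b⁆ * ⁅t, b⁆ := by rw [ht4 _ he4, one_mul]
          _ = ⁅t * t, b⁆ := by simp only [commutatorElement_def]; group
          _ = 1 := h0
    have htW' : ∀ b ∈ B, ⁅t, b⁆ ∈ W X := fun b hb => by
      obtain ⟨n, hn⟩ := h.pgrp b
      exact htW n b hb hn
    -- `t² ∈ B²`
    obtain ⟨d, hd, hdt⟩ : ∃ d ∈ B, d * d = t * t := by
      let S2 : Subgroup X :=
        { carrier := {u | ∃ b ∈ B, b * b = u}
          one_mem' := ⟨1, one_mem _, one_mul _⟩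
          mul_mem' := by
            rintro _ _ ⟨a, ha, rfl⟩ ⟨b, hb, rfl⟩
            exact ⟨a * b, mul_mem ha hb, sq_mul_of_comm (hBc a ha b hb)⟩
          inv_mem' := by
            rintro _ ⟨a, ha, rfl⟩
            exact ⟨a⁻¹, inv_mem ha, by group⟩ }
      have hS2i : ∀ u ∈ S2, α u ∈ S2 := by
        rintro _ ⟨b, hb, rfl⟩; exact ⟨α b, hαB hb, (map_mul α b b).symm⟩
      have hWS2 : W X ≤ S2 := fun u hu => hroot u hu
      -- elements of `B` fixed modulo squares are squares
      have hfpf : ∀ b ∈ B, b⁻¹ * α b ∈ S2 → b ∈ S2 := by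
        intro b hb h1
        have h2 : b⁻¹ * α (α b) ∈ S2 := by
          rw [show b⁻¹ * α (α b) = (b⁻¹ * α b) * α (b⁻¹ * α b) by rw [map_mul, map_inv]; group]
          exact mul_mem h1 (hS2i _ h1)
        have h3 := mul_mem (mul_mem h1 h2) (⟨b, hb, rfl⟩ : b * b ∈ S2)
        have e : b⁻¹ * α b * (b⁻¹ * α (α b)) * (b * b) = b⁻¹ := by
          have hp := hprod b hb
          have c1 := hBc _ (hαB hb) b⁻¹ (inv_mem hb)
          have c2 := hBc _ (mul_mem (hαB hb) (hαB (hαB hb))) (b * b) (mul_mem hb hb)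
          calc b⁻¹ * α b * (b⁻¹ * α (α b)) * (b * b)
              = b⁻¹ * (α b * b⁻¹) * α (α b) * (b * b) := by group
            _ = b⁻¹ * (b⁻¹ * α b) * α (α b) * (b * b) := by rw [c1]
            _ = b⁻¹ * b⁻¹ * (α b * α (α b) * (b * b)) := by group
            _ = b⁻¹ * (b * α b * α (α b)) := by rw [c2]; group
            _ = b⁻¹ := by rw [hp, mul_one]
        rw [e] at h3
        exact inv_mem_iff.1 h3
      suffices ht2 : t * t ∈ S2 by exact ht2
      rcases hchoice with hn | hfixB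
      · -- norm zero: a non-square fixed by `t` forces `t` to centralise `B`
        by_contra hns
        set c := t * t with hc
        have hcB : c ∈ B := htQ.1
        have hxc : ⁅t, c⁆ = 1 :=
          commutatorElement_eq_one_iff_commute.2 ((Commute.refl t).mul_right (Commute.refl t))
        have hnt : ∀ b ∈ B, ⁅t, b⁆ * α ⁅t, α (α b)⁆ * α (α ⁅t, α b⁆) = 1 := by
          intro b hb
          have h0 : ⁅t * α t * α (α t), b⁆ = 1 :=
            commutatorElement_eq_one_iff_commute.2 (hBc _ hn b hb)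
          have a1 : ⁅α t, b⁆ = α ⁅t, α (α b)⁆ := by
            rw [map_commutatorElement, hcube b hb]
          have a2 : ⁅α (α t), b⁆ = α (α ⁅t, α b⁆) := by
            rw [map_commutatorElement, map_commutatorElement, hcube b hb]
          have w1 : α ⁅t, α (α b)⁆ ∈ W X := W_map α (htW' _ (hαB (hαB hb)))
          have w2 : α (α ⁅t, α b⁆) ∈ W X := W_map α (W_map α (htW' _ (hαB hb)))
          rw [← a1, ← a2] at *
          calc ⁅t, b⁆ * ⁅α t, b⁆ * ⁅α (α t), b⁆
              = ⁅α (α t), b⁆ * (⁅t, b⁆ * ⁅α t, b⁆) := W_comm w2 _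
            _ = ⁅α (α t), b⁆ * (⁅α t, b⁆ * ⁅t, b⁆) := by rw [W_comm w1]
            _ = (t * α t) * ⁅α (α t), b⁆ * (t * α t)⁻¹ * (t * ⁅α t, b⁆ * t⁻¹ * ⁅t, b⁆) := by
                rw [W_comm w2 (t * α t), W_comm w1 t]; group
            _ = ⁅t * α t * α (α t), b⁆ := by simp only [commutatorElement_def]; group
            _ = 1 := h0
        set p := ⁅t, α c⁆ with hp
        have hpW : p ∈ W X := htW' _ (hαB hcB)
        have hp' : ⁅t, α (α c)⁆ = p := by
          have h1 := congrArg (fun y => ⁅t, y⁆) (hprod c hcB)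
          simp only [commutatorElement_one_right] at h1
          rw [hr t _ (mul_mem hcB (hαB hcB)) _ (hαB (hαB hcB)), hr t c hcB _ (hαB hcB), hxc,
            one_mul, ← hp] at h1
          rw [eq_inv_of_mul_eq_one_right h1]; exact inv_eq_of_mul_eq_one_right hpW.2
        have h2 := hnt _ (hαB hcB)
        rw [hcube c hcB, hxc, map_one, mul_one, hp', ← hp] at h2
        have h3 : α (α p) = p := by
          rw [eq_inv_of_mul_eq_one_right h2]; exact inv_eq_of_mul_eq_one_right hpW.2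
        have hp1 : p = 1 := hαW p hpW (by
          have := congrArg α h3
          rw [h.cube_fix hα hw hmv hpW] at this
          exact this.symm)
        -- so `t` centralises all of `B`
        let K : Subgroup X :=
          { carrier := {b | b ∈ B ∧ ⁅t, b⁆ = 1}
            one_mem' := ⟨one_mem _, by simp⟩
            mul_mem' := fun {a b} ha hb => ⟨mul_mem ha.1 hb.1, by
              rw [hr t a ha.1 b hb.1, ha.2, hb.2, one_mul]⟩
            inv_mem' := fun {a} ha => ⟨inv_mem ha.1, by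
              have h1 := hr t a ha.1 _ (inv_mem ha.1)
              rw [mul_inv_cancel, commutatorElement_one_right, ha.2, one_mul] at h1
              exact h1.symm⟩ }
        have hS2K : S2 ≤ K := by
          rintro _ ⟨b, hb, rfl⟩
          exact ⟨mul_mem hb hb, by rw [hr t b hb b hb]; exact (htW' b hb).2⟩
        refine htB (hself t fun b hb => (commutatorElement_eq_one_iff_commute.1 ?_).eq)
        -- `B` has exactly four classes modulo squares
        let sq : B →* B :=
          MonoidHom.mk' (fun b => b * b) (fun a b => Subtype.ext (sq_mul_of_comm (hBc a a.2 b b.2)))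
        have hker : Nat.card sq.ker ≤ 4 := by
          rw [← hW4]
          exact Nat.card_le_card_of_injective
            (fun k : sq.ker => (⟨((k : B) : X), hinv _ (k : B).2 (congrArg Subtype.val k.2)⟩ : W X))
            (fun a b e => Subtype.ext (Subtype.ext (congrArg (fun v : W X => (v : X)) e)))
        have hidx : sq.range.index ≤ 4 := by
          have e1 := sq.range.card_mul_index
          rw [← Nat.card_congr (QuotientGroup.quotientKerEquivRange sq).toEquiv,
            sq.ker.card_eq_card_quotient_mul_card_subgroup] at e1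
          have := Nat.eq_of_mul_eq_mul_left (Nat.card_pos (α := B ⧸ sq.ker)) e1
          omega
        have hrS : ∀ y : B, y ∈ sq.range ↔ (y : X) ∈ S2 := fun y => by
          constructor
          · rintro ⟨z, e⟩; exact ⟨z, z.2, congrArg Subtype.val e⟩
          · rintro ⟨z, hz, e⟩; exact ⟨⟨z, hz⟩, Subtype.ext e⟩
        let KB : Subgroup B := K.subgroupOf B
        have hKtop : KB = ⊤ := by
          have h1 : sq.range ≤ KB := fun y hy => hS2K ((hrS y).1 hy)
          by_contra hne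
          have hlt : 2 ≤ KB.index := by
            have := Subgroup.index_ne_zero_of_finite (H := KB)
            have : KB.index ≠ 1 := fun e => hne (Subgroup.index_eq_one.1 e)
            omega
          have hmul := Subgroup.relIndex_mul_index h1
          have hrel : 4 ≤ sq.range.relIndex KB := by
            have hfour : ∀ a : Bool × Bool, (if a.1 then c else 1) * (if a.2 then α c else 1) ∈ K := by
              intro a
              refine mul_mem ?_ ?_ <;> split_ifs <;> first | exact one_mem _ | exact ⟨hcB, hxc⟩ | exact ⟨hαB hcB, hp1⟩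
            let g : Bool × Bool → KB ⧸ sq.range.subgroupOf KB := fun a =>
              QuotientGroup.mk ⟨⟨_, (hfour a).1⟩, hfour a⟩
            refine le_trans (le_of_eq ?_) (Nat.card_le_card_of_injective g ?_)
            · simp
            intro a a' e
            have e0 : (⟨⟨_, (hfour a).1⟩, hfour a⟩ : KB)⁻¹ * ⟨⟨_, (hfour a').1⟩, hfour a'⟩ ∈
                sq.range.subgroupOf KB :=
              (QuotientGroup.eq (s := sq.range.subgroupOf KB)).1 e
            have e' : ((if a.1 then c else 1) * (if a.2 then α c else 1))⁻¹ *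
                ((if a'.1 then c else 1) * (if a'.2 then α c else 1)) ∈ S2 := (hrS _).1 e0
            have hcα : α c ∉ S2 := fun hh => hns (by
              have := hS2i _ (hS2i _ hh)
              rwa [hcube c hcB] at this)
            have hdiff : c⁻¹ * α c ∉ S2 := fun hh => hns (hfpf c hcB hh)
            have hsum : c * α c ∉ S2 := fun hh => hdiff (by
              rw [show c⁻¹ * α c = (c * c)⁻¹ * (c * α c) by group]
              exact mul_mem (inv_mem ⟨c, hcB, rfl⟩) hh)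
            have hcc := hBc c hcB _ (hαB hcB)
            rcases a with ⟨_ | _, _ | _⟩ <;> rcases a' with ⟨_ | _, _ | _⟩ <;>
              simp only [Bool.false_eq_true, if_false, if_true, one_mul, mul_one, inv_one] at e' <;>
              first
                | rfl
                | (exfalso; exact hns e') | (exfalso; exact hns (inv_mem_iff.1 e'))
                | (exfalso; exact hcα e') | (exfalso; exact hcα (inv_mem_iff.1 e'))
                | (exfalso; exact hsum e') | (exfalso; exact hsum (inv_mem_iff.1 e'))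
                | (exfalso; exact hdiff e') | (exfalso; exact hdiff (by
                    have := inv_mem e'; simpa using this))
                | (exfalso; refine hns ?_; rw [inv_mul_cancel_left] at e'; exact e')
                | (exfalso; refine hcα ?_; rw [inv_mul_cancel_left] at e'; exact e')
                | (exfalso; refine hns ?_; rw [hcc, inv_mul_cancel_left] at e'; exact e')
                | (exfalso; refine hns ?_; have := inv_mem e'; rw [hcc] at this; simpa using this)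
                | (exfalso; refine hcα ?_; have := inv_mem e'; simpa using this)
                | (exfalso; refine hns ?_; rw [mul_inv_rev, mul_assoc, inv_mul_cancel, mul_one] at e';
                   exact inv_mem_iff.1 e')
                | (exfalso; refine hcα ?_; rw [hcc, mul_inv_rev, mul_assoc, inv_mul_cancel, mul_one] at e';
                   exact inv_mem_iff.1 e')
          nlinarith
        exact (show (⟨b, hb⟩ : B) ∈ KB from hKtop ▸ Subgroup.mem_top _).2
      · -- fixed modulo `B`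
        refine hfpf _ htQ.1 ?_
        obtain ⟨b, hb, e⟩ : ∃ b ∈ B, α t = t * b := ⟨t⁻¹ * α t, hfixB, by group⟩
        have hc := htW' b hb
        have hα2 : α (t * t) = t * t * (b * b) * ⁅t, b⁆ := by
          rw [map_mul, e]
          have hcb : ⁅t, b⁆ * b = b * ⁅t, b⁆ := (W_comm hc b).symm
          have hcb2 : b * b * ⁅t, b⁆ = ⁅t, b⁆ * (b * b) := W_comm hc _
          calc t * b * (t * b) = t * (⁅t, b⁆⁻¹ * t * b) * b := by
                simp only [commutatorElement_def]; group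
            _ = t * (⁅t, b⁆ * t * b) * b := by rw [inv_eq_of_mul_eq_one_right hc.2]
            _ = t * (t * ⁅t, b⁆ * b) * b := by rw [W_comm hc t]
            _ = t * t * (⁅t, b⁆ * (b * b)) := by group
            _ = _ := by rw [← hcb2]; group
        rw [hα2, show (t * t)⁻¹ * (t * t * (b * b) * ⁅t, b⁆) = b * b * ⁅t, b⁆ by group]
        exact mul_mem ⟨b, hb, rfl⟩ (hWS2 hc)
    -- an involution in `t B`
    obtain ⟨e, heW, heeq⟩ : ∃ e ∈ W X, t * d⁻¹ * (t * d⁻¹) = e := by
      refine ⟨⁅t, d⁻¹⁆, htW' _ (inv_mem hd), ?_⟩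
      have hc := htW' _ (inv_mem hd)
      have hcb : ⁅t, d⁻¹⁆ * d⁻¹ = d⁻¹ * ⁅t, d⁻¹⁆ := (W_comm hc _).symm
      calc t * d⁻¹ * (t * d⁻¹) = t * (⁅t, d⁻¹⁆⁻¹ * t * d⁻¹) * d⁻¹ := by
            simp only [commutatorElement_def]; group
        _ = t * (⁅t, d⁻¹⁆ * t * d⁻¹) * d⁻¹ := by rw [inv_eq_of_mul_eq_one_right hc.2]
        _ = t * (t * ⁅t, d⁻¹⁆ * d⁻¹) * d⁻¹ := by rw [W_comm hc t]
        _ = t * t * ⁅t, d⁻¹⁆ * (d * d)⁻¹ := by group
        _ = t * t * ((d * d)⁻¹ * ⁅t, d⁻¹⁆) := by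
            rw [mul_assoc (t * t) ⁅t, d⁻¹⁆, ← W_comm hc ((d * d)⁻¹)]
        _ = _ := by rw [hdt]; group
    obtain ⟨k, hk, hke⟩ := hroot e heW
    have hk4 : k ∈ B4 := ⟨hk, hke.symm ▸ heW⟩
    have htk : t * k = k * t := (commutatorElement_eq_one_iff_commute.1 (ht4 k hk4)).eq
    have hdk : d⁻¹ * k = k * d⁻¹ := hBc _ (inv_mem hd) k hk
    set s := t * d⁻¹ * k⁻¹ with hs
    have hsk : (t * d⁻¹) * k⁻¹ = k⁻¹ * (t * d⁻¹) := by
      have hcm' : Commute (t * d⁻¹) k := Commute.mul_left htk hdk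
      exact hcm'.inv_right.eq
    have hs2 : s * s = 1 := by
      rw [hs, sq_mul_of_comm hsk, heeq, ← hke]; group
    have hsB : s ∉ B := fun hh => htB (by
      rw [show t = s * k * d by rw [hs]; group]; exact mul_mem (mul_mem hh hk) hd)
    have hsact : ∀ b ∈ B, ⁅s, b⁆ = ⁅t, b⁆ := fun b hb => by
      have hv : d⁻¹ * k⁻¹ ∈ B := mul_mem (inv_mem hd) (inv_mem hk)
      have e1 : ⁅d⁻¹ * k⁻¹, b⁆ = 1 := commutatorElement_eq_one_iff_commute.2 (hBc _ hv b hb)
      rw [hs, mul_assoc t]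
      calc ⁅t * (d⁻¹ * k⁻¹), b⁆ = t * ⁅d⁻¹ * k⁻¹, b⁆ * t⁻¹ * ⁅t, b⁆ := by
            simp only [commutatorElement_def]; group
        _ = _ := by rw [e1]; group
    have hsQ : ∀ x : X, ⁅x, s⁆ ∈ B := fun x => by
      rw [hs, mul_assoc t,
        show ⁅x, t * (d⁻¹ * k⁻¹)⁆ = ⁅x, t⁆ * (t * ⁅x, d⁻¹ * k⁻¹⁆ * t⁻¹) by
          simp only [commutatorElement_def]; group]
      exact mul_mem (htQ.2 x) (hBn.conj_mem _ (hcm x _ (mul_mem (inv_mem hd) (inv_mem hk))) t)
    refine hsB (hWB (h.mem_W_of_comm hW4 hs2 fun x => ?_))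
    set c := ⁅x, s⁆ with hc
    have hcB : c ∈ B := hsQ x
    have hsc : c * ⁅s, c⁆ * c = 1 := by
      have h1 : ⁅x, s * s⁆ = 1 := by rw [hs2]; simp
      calc c * ⁅s, c⁆ * c = c * (⁅s, c⁆ * c) := by group
        _ = ⁅x, s * s⁆ := by rw [hc]; simp only [commutatorElement_def]; group
        _ = 1 := h1
    have hcW : ⁅s, c⁆ ∈ W X := hsact c hcB ▸ htW' c hcB
    have hcc : c * c = ⁅s, c⁆ := by
      calc c * c = c * ⁅s, c⁆ * c * (⁅s, c⁆⁻¹) := by
            rw [inv_eq_of_mul_eq_one_right hcW.2]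
            calc c * c = c * (c * 1) := by group
              _ = c * (c * (⁅s, c⁆ * ⁅s, c⁆)) := by rw [hcW.2]
              _ = c * ((c * ⁅s, c⁆) * ⁅s, c⁆) := by group
              _ = c * ((⁅s, c⁆ * c) * ⁅s, c⁆) := by rw [W_comm hcW c]
              _ = _ := by group
        _ = _ := by rw [hsc, one_mul, inv_eq_of_mul_eq_one_right hcW.2]
    refine hinv _ hcB ?_
    rw [hcc, hsact c hcB]
    exact ht4 c ⟨hcB, hcc ▸ hcW⟩

end Base

end Moved

end Hyp

end CfsgLib.ClassTech.NoScn
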