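import Cfsg.Prelude.Def_Transfer
import Cfsg.Agent.Lib.ClassTech.NoScnThreeMoved
import Cfsg.Agent.Lib.PGroups.Frattini

/-!
Reduction to class two: the group is special, with centre generated by its central involutions.
-/

set_option autoImplicit false

namespace CfsgLib.ClassTech.NoScn

open scoped commutatorElement

variable {X : Type*} [Group X] [Finite X]

/-- If all squares lie in a subgroup of central elements, so do all commutators. -/
theorem comm_mem_of_sq {K : Subgroup X} (hs : ∀ x : X, x * x ∈ K) (x y : X) : ⁅x, y⁆ ∈ K := by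
  rw [show ⁅x, y⁆ = (x * x) * ((x⁻¹ * y) * (x⁻¹ * y)) * (y⁻¹ * y⁻¹) by
    rw [commutatorElement_def]; group]
  exact mul_mem (mul_mem (hs _) (hs _)) (hs _)

/-- The elements all of whose commutators lie in `W`. -/
def U (X : Type*) [Group X] : Subgroup X where
  carrier := {u | ∀ x : X, ⁅x, u⁆ ∈ W X}
  one_mem' := fun x => by simp
  mul_mem' := fun {a b} ha hb x => by
    rw [show ⁅x, a * b⁆ = ⁅x, a⁆ * (a * ⁅x, b⁆ * a⁻¹) by simp only [commutatorElement_def]; group]
    exact mul_mem (ha x) ((W_normal).conj_mem _ (hb x) a)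
  inv_mem' := fun {a} ha x => by
    rw [show ⁅x, a⁻¹⁆ = a⁻¹ * ⁅x, a⁆⁻¹ * a⁻¹⁻¹ by simp only [commutatorElement_def]; group]
    exact (W_normal).conj_mem _ (inv_mem (ha x)) _

theorem mem_U {u : X} : u ∈ U X ↔ ∀ x : X, ⁅x, u⁆ ∈ W X := Iff.rfl

theorem center_le_U : Subgroup.center X ≤ U X := fun c hc x => by
  rw [commutatorElement_eq_one_iff_commute.2 (Subgroup.mem_center_iff.1 hc x)]; exact one_mem _

instance U_normal : (U X).Normal :=
  ⟨fun u hu g x => by
    rw [show ⁅x, g * u * g⁻¹⁆ = g * ⁅g⁻¹ * x * g, u⁆ * g⁻¹ by simp only [commutatorElement_def]; group]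
    exact (W_normal).conj_mem _ (hu _) g⟩

namespace Hyp

variable {A : Subgroup (MulAut X)} (h : Hyp A)
include h

omit [Finite X] h in
theorem U_map (φ : MulAut X) {u : X} (hu : u ∈ U X) : φ u ∈ U X := fun x => by
  rw [← φ.apply_symm_apply x, ← map_commutatorElement]; exact W_map φ (hu _)

theorem W_ne_bot : ∃ z ∈ W X, z ≠ 1 := by
  obtain ⟨a, b, hab⟩ := h.nonab
  obtain ⟨r, -, hr, hr2, hrc⟩ := exists_central_mod h.pgrp (⊥ : Subgroup X) ⊤ (fun hle => hab (by
    rw [(Subgroup.mem_bot).1 (hle (Subgroup.mem_top a))]; simp))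
  refine ⟨r, ⟨Subgroup.mem_center_iff.2 fun g => ?_, Subgroup.mem_bot.1 hr2⟩, fun e => hr (e ▸ one_mem _)⟩
  exact (commutatorElement_eq_one_iff_commute.1 (Subgroup.mem_bot.1 (hrc g))).eq

/-- Elements centralising all of `U` and lying in it are central. -/
theorem center_U {b : X} (hb : b ∈ U X) (hbc : ∀ u ∈ U X, u * b = b * u) : b ∈ Subgroup.center X := by
  let B0 : Subgroup X := U X ⊓ Subgroup.centralizer (U X : Set X)
  have hmem : ∀ {c}, c ∈ B0 ↔ c ∈ U X ∧ ∀ u ∈ U X, u * c = c * u := fun {c} => by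
    simp [B0, Subgroup.mem_inf, Subgroup.mem_centralizer_iff]
  have hB0n : B0.Normal := inferInstance
  have h0c : ∀ a ∈ B0, ∀ b ∈ B0, a * b = b * a := fun a ha b hb => (hmem.1 hb).2 a (hmem.1 ha).1
  have h0i : ∀ φ ∈ A, ∀ c ∈ B0, φ c ∈ B0 := fun φ _ c hc => hmem.2 ⟨U_map φ (hmem.1 hc).1, fun u hu => by
    rw [← φ.apply_symm_apply u, ← map_mul, (hmem.1 hc).2 _ (U_map φ.symm hu), map_mul]⟩
  have hZB : Subgroup.center X ≤ B0 := fun c hc =>
    hmem.2 ⟨center_le_U hc, fun u _ => Subgroup.mem_center_iff.1 hc u⟩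
  have hWB : W X ≤ B0 := fun c hc => hZB hc.1
  suffices B0 ≤ Subgroup.center X from this (hmem.2 ⟨hb, hbc⟩)
  by_cases hmv : ∃ α ∈ A, ∃ w ∈ W X, α w ≠ w
  · obtain ⟨α, hα, w, hw, hne⟩ := hmv
    intro c hc
    by_contra hcc
    have hsq := h.squares_mem_W hα hw hne h0c h0i hWB (fun hle => hcc (hle hc).1)
    refine hcc (Subgroup.mem_center_iff.2 fun g => ?_)
    exact (hmem.1 hc).2 g fun x => comm_mem_of_sq hsq x g
  · push Not at hmv
    let Om : Subgroup X :=
      { carrier := {c | c ∈ B0 ∧ c * c = 1}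
        one_mem' := ⟨one_mem _, one_mul _⟩
        mul_mem' := fun {a b} ha hb => ⟨mul_mem ha.1 hb.1, by
          rw [sq_mul_of_comm (h0c a ha.1 b hb.1), ha.2, hb.2, one_mul]⟩
        inv_mem' := fun {a} ha => ⟨inv_mem ha.1, by rw [← mul_inv_rev, ha.2, inv_one]⟩ }
    have hOmn : Om.Normal := ⟨fun c hc g => ⟨hB0n.conj_mem c hc.1 g, by
      rw [show g * c * g⁻¹ * (g * c * g⁻¹) = g * (c * c) * g⁻¹ by group, hc.2, mul_one,
        mul_inv_cancel]⟩⟩
    obtain ⟨z, hz, hz1⟩ := h.W_ne_bot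
    refine h.central_of_fixed B0 fun φ hφ => ?_
    refine fixed_abelian h.pgrp h.odd (h.pow_card hφ) B0 h0c (h0i φ hφ) fun c hc hc2 => ?_
    exact h.fix_four hφ Om (fun m hm => ⟨h0i φ hφ m hm.1, by rw [← map_mul, hm.2, map_one]⟩)
      (h.small Om hOmn fun a ha => ha.2) (⟨hWB hz, hz.2⟩ : z ∈ Om) hz1 (hmv φ hφ z hz) c ⟨hc, hc2⟩

/-- The centralizer of `U` is the centre. -/
theorem centralizer_U {r : X} (hr : ∀ u ∈ U X, u * r = r * u) : r ∈ Subgroup.center X := by
  let R : Subgroup X := Subgroup.centralizer (U X : Set X)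
  suffices R ≤ Subgroup.center X from this (Subgroup.mem_centralizer_iff.2 hr)
  by_contra hR
  have hRn : R.Normal := inferInstance
  obtain ⟨s, hs, hsZ, hs2, hsc⟩ := exists_central_mod h.pgrp (Subgroup.center X) R hR
  refine hsZ (h.center_U (fun x => ⟨hsc x, ?_⟩) (Subgroup.mem_centralizer_iff.1 hs))
  have h1 : ⁅x, s * s⁆ = 1 :=
    commutatorElement_eq_one_iff_commute.2 (Subgroup.mem_center_iff.1 hs2 x)
  rw [show ⁅x, s * s⁆ = ⁅x, s⁆ * (s * ⁅x, s⁆ * s⁻¹) by simp only [commutatorElement_def]; group,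
    Subgroup.mem_center_iff.1 (hsc x) s, mul_inv_cancel_right] at h1
  exact h1

theorem sq_central (x : X) : x * x ∈ Subgroup.center X := by
  refine h.centralizer_U fun u hu => ?_
  have h1 : ⁅x * x, u⁆ = 1 := by
    rw [show ⁅x * x, u⁆ = x * ⁅x, u⁆ * x⁻¹ * ⁅x, u⁆ by simp only [commutatorElement_def]; group,
      W_comm (hu x) x, mul_inv_cancel_right]
    exact (hu x).2
  exact (commutatorElement_eq_one_iff_commute.1 h1).eq.symm

theorem comm_mem_W (x y : X) : ⁅x, y⁆ ∈ W X := by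
  have hc : ∀ a b : X, ⁅a, b⁆ ∈ Subgroup.center X := comm_mem_of_sq h.sq_central
  refine ⟨hc x y, ?_⟩
  have h1 : ⁅x * x, y⁆ = 1 :=
    commutatorElement_eq_one_iff_commute.2 (Subgroup.mem_center_iff.1 (h.sq_central x) y).symm
  rw [show ⁅x * x, y⁆ = x * ⁅x, y⁆ * x⁻¹ * ⁅x, y⁆ by simp only [commutatorElement_def]; group,
    Subgroup.mem_center_iff.1 (hc x y) x, mul_inv_cancel_right] at h1
  exact h1

theorem comm_mul_left (u v w : X) : ⁅u * v, w⁆ = ⁅u, w⁆ * ⁅v, w⁆ := by
  rw [show ⁅u * v, w⁆ = u * ⁅v, w⁆ * u⁻¹ * ⁅u, w⁆ by simp only [commutatorElement_def]; group,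
    W_comm (h.comm_mem_W v w) u, mul_inv_cancel_right, W_comm (h.comm_mem_W u w)]

theorem comm_mul_right (u v w : X) : ⁅u, v * w⁆ = ⁅u, v⁆ * ⁅u, w⁆ := by
  rw [show ⁅u, v * w⁆ = ⁅u, v⁆ * (v * ⁅u, w⁆ * v⁻¹) by simp only [commutatorElement_def]; group,
    W_comm (h.comm_mem_W u w) v, mul_inv_cancel_right]

theorem comm_symm (u v : X) : ⁅v, u⁆ = ⁅u, v⁆ := by
  rw [← commutatorElement_inv, inv_eq_of_mul_eq_one_right (h.comm_mem_W u v).2]

theorem sq_mul (a b : X) : a * b * (a * b) = a * a * (b * b) * ⁅a, b⁆ := by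
  calc a * b * (a * b) = a * a * (⁅a⁻¹, b⁆ * (b * b)) := by rw [commutatorElement_def]; group
    _ = a * a * ((b * b) * ⁅a⁻¹, b⁆) := by rw [W_comm (h.comm_mem_W _ _) (b * b)]
    _ = a * a * (b * b) * ⁅a, b⁆ := by
      have : ⁅a⁻¹, b⁆ = ⁅a, b⁆ := by
        have h1 := h.comm_mul_left a⁻¹ a b
        rw [inv_mul_cancel, commutatorElement_one_left] at h1
        rw [eq_inv_of_mul_eq_one_left h1.symm, inv_eq_of_mul_eq_one_right (h.comm_mem_W a b).2]
      rw [this]; group

theorem commutator_le_W : commutator X ≤ W X := by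
  rw [commutator_eq_closure, Subgroup.closure_le]
  rintro _ ⟨a, b, rfl⟩
  exact h.comm_mem_W a b

theorem center_eq : Subgroup.center X = W X ∧ commutator X = W X := by
  have hcX := h.commutator_le_W
  suffices Subgroup.center X ≤ W X ∧ W X ≤ commutator X from
    ⟨le_antisymm this.1 fun c hc => hc.1, le_antisymm hcX this.2⟩
  by_cases hmv : ∃ α ∈ A, ∃ w ∈ W X, α w ≠ w
  · obtain ⟨α, hα, w, hw, hne⟩ := hmv
    have hW4 := (h.W_facts hα hw hne).1
    obtain ⟨a, b, hab⟩ := h.nonab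
    have hc1 : ⁅a, b⁆ ≠ 1 := fun e => hab (commutatorElement_eq_one_iff_commute.1 e).eq
    have hWc : W X ≤ commutator X := by
      refine h.W_le hα hw hne (fun k hk => ?_) (h.comm_mem_W a b) hc1
        (Subgroup.commutator_mem_commutator (Subgroup.mem_top a) (Subgroup.mem_top b))
      exact (Subgroup.characteristic_iff_map_le.1 inferInstance α) ⟨k, hk, rfl⟩
    refine ⟨?_, hWc⟩
    by_contra hZ
    obtain ⟨z, hzc, hzW⟩ := SetLike.not_le_iff_exists.1 hZ
    let Z := Subgroup.center X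
    have hZc : ∀ p ∈ Z, ∀ q ∈ Z, p * q = q * p := fun p _ q hq => Subgroup.mem_center_iff.1 hq p
    let S2 : Subgroup X :=
      { carrier := {u | ∃ p ∈ Z, p * p = u}
        one_mem' := ⟨1, one_mem _, one_mul _⟩
        mul_mem' := by
          rintro _ _ ⟨p, hp, rfl⟩ ⟨q, hq, rfl⟩
          exact ⟨p * q, mul_mem hp hq, sq_mul_of_comm (hZc p hp q hq)⟩
        inv_mem' := by
          rintro _ ⟨p, hp, rfl⟩
          exact ⟨p⁻¹, inv_mem hp, by group⟩ }
    have hS2 : W X ≤ S2 := by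
      have hz2 : z * z ≠ 1 := fun e => hzW ⟨hzc, e⟩
      obtain ⟨k, hk⟩ := IsPGroup.iff_orderOf.1 h.pgrp (z * z)
      have hk0 : k ≠ 0 := fun e => hz2 (orderOf_eq_one_iff.1 (by rw [hk, e, pow_zero]))
      obtain ⟨j, rfl⟩ := Nat.exists_eq_succ_of_ne_zero hk0
      refine h.W_le hα hw hne ?_ (z := (z * z) ^ 2 ^ j)
        ⟨pow_mem (mul_mem hzc hzc) _, by
          rw [← pow_add, ← two_mul, ← pow_succ', ← hk, pow_orderOf_eq_one]⟩
        (pow_ne_one_of_lt_orderOf (pow_ne_zero _ two_ne_zero)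
          (by rw [hk, pow_succ]; have := Nat.two_pow_pos j; omega))
        (S2.pow_mem ⟨z, hzc, rfl⟩ _)
      rintro _ ⟨p, hp, rfl⟩
      exact ⟨α p, (Subgroup.characteristic_iff_map_le.1 inferInstance α) ⟨p, hp, rfl⟩,
        (map_mul α p p).symm⟩
    let sq : Z →* Z :=
      MonoidHom.mk' (fun p => p * p) (fun p q => Subtype.ext (sq_mul_of_comm (hZc p p.2 q q.2)))
    have hker : Nat.card sq.ker ≤ 4 := by
      rw [← hW4]
      exact Nat.card_le_card_of_injective
        (fun k : sq.ker => (⟨((k : Z) : X), (k : Z).2, congrArg Subtype.val k.2⟩ : W X))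
        (fun p q e => Subtype.ext (Subtype.ext (congrArg (fun v : W X => (v : X)) e)))
    have hidx : sq.range.index ≤ 4 := by
      have e1 := sq.range.card_mul_index
      rw [← Nat.card_congr (QuotientGroup.quotientKerEquivRange sq).toEquiv,
        sq.ker.card_eq_card_quotient_mul_card_subgroup] at e1
      have := Nat.eq_of_mul_eq_mul_left (Nat.card_pos (α := Z ⧸ sq.ker)) e1
      omega
    let q : X →* Z ⧸ sq.range := MonoidHom.mk'
      (fun x => QuotientGroup.mk (⟨x * x, h.sq_central x⟩ : Z)) (fun p r => by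
        show QuotientGroup.mk _ = QuotientGroup.mk _ * QuotientGroup.mk _
        rw [← QuotientGroup.mk_mul]
        refine QuotientGroup.eq.2 ?_
        obtain ⟨v, hv, hve⟩ := hS2 (h.comm_mem_W p r)
        refine ⟨⟨v, hv⟩⁻¹, Subtype.ext ?_⟩
        show v⁻¹ * v⁻¹ = (p * r * (p * r))⁻¹ * (p * p * (r * r))
        rw [h.sq_mul, ← hve]; group)
    have hkq : q.ker ≤ Z := by
      intro x hx
      obtain ⟨⟨v, hv⟩, e⟩ := (QuotientGroup.eq_one_iff _).1 hx
      have e : v * v = x * x := congrArg Subtype.val e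
      have hu : x * v⁻¹ * (x * v⁻¹) = 1 := by
        rw [sq_mul_of_comm (Subgroup.mem_center_iff.1 (inv_mem hv) x), ← e]; group
      have huW := h.mem_W_of_comm hW4 hu (fun g => h.comm_mem_W g _)
      rw [show x = x * v⁻¹ * v by group]
      exact mul_mem huW.1 hv
    have hcard : Nat.card (⊤ : Subgroup X) ≤ 4 * Nat.card Z := by
      rw [Nat.card_congr Subgroup.topEquiv.toEquiv, q.ker.card_eq_card_quotient_mul_card_subgroup]
      refine Nat.mul_le_mul ?_ (Subgroup.card_le_of_le hkq)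
      refine le_trans ?_ hidx
      rw [Nat.card_congr (QuotientGroup.quotientKerEquivRange q).toEquiv]
      exact Subgroup.card_le_card_group _
    refine hc1 (h.W_fix_trivial hα hw hne (h.comm_mem_W a b) ?_)
    rcases comm_pair ⊤ Z le_top (fun p hp t _ => (Subgroup.mem_center_iff.1 hp t).symm) hcard
      (Subgroup.mem_top a) (Subgroup.mem_top b) hab (α a) (Subgroup.mem_top _) (α b) (Subgroup.mem_top _)
      (fun p _ r _ t _ => (W_comm (h.comm_mem_W p r) t).symm) (h.comm_mem_W a b).2 with e | e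
    · rw [← map_commutatorElement] at e
      exact absurd (α.injective (e.trans (map_one α).symm)) hc1
    · rw [← map_commutatorElement] at e
      exact e
  · push Not at hmv
    have hZfix : Subgroup.center X ≤ commutator X := by
      intro c hc
      refine h.mem_of_fixed_mod (commutator X) le_rfl (fun φ _ p hp =>
        (Subgroup.characteristic_iff_map_le.1 inferInstance φ) ⟨p, hp, rfl⟩) fun φ hφ => ?_
      rw [fixed_abelian h.pgrp h.odd (h.pow_card hφ) (Subgroup.center X)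
        (fun p _ r hr => Subgroup.mem_center_iff.1 hr p)
        (fun p hp => (Subgroup.characteristic_iff_map_le.1 inferInstance φ) ⟨p, hp, rfl⟩)
        (fun p hp hp2 => hmv φ hφ p ⟨hp, hp2⟩) c hc, inv_mul_cancel]
      exact one_mem _
    exact ⟨hZfix.trans hcX, fun c hc => hZfix hc.1⟩

theorem isSpecial : Cfsg.IsSpecial 2 X := by
  have : Fact (Nat.Prime 2) := ⟨Nat.prime_two⟩
  refine ⟨h.pgrp, le_antisymm ?_ ?_, h.center_eq.2.trans h.center_eq.1.symm⟩
  · refine (CfsgLib.PGroups.frattini_le_iff h.pgrp).2 ⟨?_, fun x => ?_⟩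
    · rw [h.center_eq.2, h.center_eq.1]
    · rw [pow_two]; exact h.sq_central x
  · rw [h.center_eq.1, ← h.center_eq.2]
    exact CfsgLib.PGroups.commutator_le_frattini h.pgrp

theorem sq_mem_W (x : X) : x * x ∈ W X := h.center_eq.1 ▸ h.sq_central x

end Hyp

end CfsgLib.ClassTech.NoScn
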