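import Cfsg.Agent.Lib.ClassTech.NoScnThreeClassTwo
import Cfsg.Agent.Lib.TwoGroups.Taussky

/-!
The classification: `Q₈`, special of order 64 with three involutions, extraspecial of order 32 with eleven.
-/

set_option autoImplicit false

namespace CfsgLib.ClassTech.NoScn

open scoped commutatorElement

/-- Addition of pairs of bits, as exclusive or. -/
def bx (p q : Bool × Bool) : Bool × Bool := (p.1 ^^ q.1, p.2 ^^ q.2)

/-- The condition on the pair of commutators with the two fixed elements. -/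
def good (p r : Bool × Bool) : Bool :=
  (p == (true, false)) || (r == (false, true)) || (bx p (true, false) == bx r (false, true))

/-- Nonzero and good. -/
def ok (p r : Bool × Bool) : Bool :=
  !((p == (false, false)) && (r == (false, false))) && good p r

theorem no_three : ∀ p1 r1 p2 r2 p3 r3 : Bool × Bool,
    (ok p1 r1 && ok p2 r2 && ok p3 r3 && ok (bx p1 p2) (bx r1 r2) && ok (bx p1 p3) (bx r1 r3) &&
      ok (bx p2 p3) (bx r2 r3) && ok (bx (bx p1 p2) p3) (bx (bx r1 r2) r3)) = false := by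
  decide +kernel

set_option synthInstance.maxSize 4000 in
set_option synthInstance.maxHeartbeats 400000 in
theorem not_ok_cases : ∀ p r c : Bool × Bool, ¬ (p = (false, false) ∧ r = (false, false)) →
    ¬ ok p r = true → c ≠ (false, false) → c ≠ bx p (true, false) → c ≠ bx r (false, true) →
      c ≠ bx (bx p r) (true, true) → False := by
  decide +kernel

variable {X : Type*} [Group X] [Finite X]

namespace Hyp

variable {A : Subgroup (MulAut X)} (h : Hyp A)
include h

omit h in
theorem card_le_four_of_cover {K : Subgroup X} {u v : X}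
    (hK : ∀ x ∈ K, x ∈ W X ∨ (∃ z ∈ W X, x = v * z) ∨ (∃ z ∈ W X, x = u * z) ∨ ∃ z ∈ W X, x = v * u * z) :
    Nat.card K ≤ 4 * Nat.card (W X) := by
  classical
  let f : Fin 4 × W X → X := fun p => ![1, v, u, v * u] p.1 * (p.2 : X)
  have hsub : (K : Set X) ⊆ Set.range f := fun x hx => by
    rcases hK x hx with hz | ⟨z, hz, rfl⟩ | ⟨z, hz, rfl⟩ | ⟨z, hz, rfl⟩
    · exact ⟨(0, ⟨x, hz⟩), by simp [f]⟩
    · exact ⟨(1, ⟨z, hz⟩), by simp [f]⟩
    · exact ⟨(2, ⟨z, hz⟩), by simp [f]⟩
    · exact ⟨(3, ⟨z, hz⟩), by simp [f]⟩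
  calc Nat.card K ≤ Nat.card (Set.range f) := Nat.card_mono (Set.toFinite _) hsub
    _ ≤ Nat.card (Fin 4 × W X) := Finite.card_range_le _
    _ = _ := by rw [Nat.card_prod, Nat.card_fin]

/-- The centralizer of an element, of index at most `|W|`. -/
theorem card_le_centralizer (v : X) :
    Nat.card X ≤ Nat.card (W X) * Nat.card (Subgroup.centralizer ({v} : Set X)) := by
  let g : X →* W X := MonoidHom.mk' (fun x => ⟨⁅x, v⁆, h.comm_mem_W x v⟩)
    (fun a b => Subtype.ext (h.comm_mul_left a b v))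
  have hker : g.ker = Subgroup.centralizer ({v} : Set X) := by
    ext x
    rw [MonoidHom.mem_ker, Subgroup.mem_centralizer_singleton_iff, Subtype.ext_iff]
    exact commutatorElement_eq_one_iff_mul_comm
  rw [g.ker.card_eq_card_quotient_mul_card_subgroup, hker]
  refine Nat.mul_le_mul_right _ ?_
  rw [← hker, Nat.card_congr (QuotientGroup.quotientKerEquivRange g).toEquiv]
  exact Subgroup.card_le_card_group _

/-- `|X : W| ≠ 8`. -/
theorem card_ne_eight_mul : Nat.card X ≠ 8 * Nat.card (W X) := by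
  intro hcard
  have hWle := h.card_W_le
  have hWpos : 0 < Nat.card (W X) := Nat.card_pos
  -- two commuting elements independent modulo `W`
  obtain ⟨e1, he1⟩ : ∃ e, e ∉ W X := by
    by_contra hc
    push Not at hc
    have := Subgroup.card_le_of_le (show (⊤ : Subgroup X) ≤ W X from fun x _ => hc x)
    rw [Nat.card_congr Subgroup.topEquiv.toEquiv] at this
    omega
  let P1 : Subgroup X := W X ⊔ Subgroup.zpowers e1
  have hP1 : Nat.card P1 ≤ 2 * Nat.card (W X) := by
    have hmem : ∀ x ∈ P1, x ∈ W X ∨ ∃ z ∈ W X, x = e1 * z := by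
      intro x hx
      obtain ⟨z, hz, y, hy, rfl⟩ := Subgroup.mem_sup_of_normal_left.1 hx
      obtain ⟨i, rfl⟩ := Subgroup.mem_zpowers_iff.1 hy
      have h2 : e1 ^ (2 : ℤ) ∈ W X := by rw [zpow_two]; exact h.sq_mem_W e1
      rcases Int.even_or_odd' i with ⟨j, rfl | rfl⟩
      · left; rw [zpow_mul]; exact mul_mem hz (zpow_mem h2 j)
      · right
        refine ⟨z * (e1 ^ (2 : ℤ)) ^ j, mul_mem hz (zpow_mem h2 j), ?_⟩
        rw [add_comm, zpow_add, zpow_one, zpow_mul, ← mul_assoc, ← mul_assoc, W_comm hz e1]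
    let f : Bool × W X → X := fun p => (if p.1 then e1 else 1) * (p.2 : X)
    have hsub : (P1 : Set X) ⊆ Set.range f := fun x hx => by
      rcases hmem x hx with hz | ⟨z, hz, rfl⟩
      · exact ⟨(false, ⟨x, hz⟩), by simp [f]⟩
      · exact ⟨(true, ⟨z, hz⟩), by simp [f]⟩
    calc Nat.card P1 ≤ Nat.card (Set.range f) := Nat.card_mono (Set.toFinite _) hsub
      _ ≤ Nat.card (Bool × W X) := Finite.card_range_le _
      _ = _ := by rw [Nat.card_prod, Nat.card_eq_fintype_card (α := Bool), Fintype.card_bool]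
  obtain ⟨e2, he2⟩ : ∃ e, e ∉ P1 := by
    by_contra hc
    push Not at hc
    have := Subgroup.card_le_of_le (show (⊤ : Subgroup X) ≤ P1 from fun x _ => hc x)
    rw [Nat.card_congr Subgroup.topEquiv.toEquiv] at this
    omega
  let P2 : Subgroup X :=
    { carrier := {x | x ∈ W X ∨ (∃ z ∈ W X, x = e1 * z) ∨ (∃ z ∈ W X, x = e2 * z) ∨ ∃ z ∈ W X, x = e1 * e2 * z}
      one_mem' := Or.inl (one_mem _)
      mul_mem' := by
        have q1 := h.sq_mem_W e1
        have q2 := h.sq_mem_W e2
        have hsw : ∀ a b : X, b * a = a * b * ⁅b, a⁆ := fun a b => by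
          rw [W_comm (h.comm_mem_W b a) (a * b), commutatorElement_def]; group
        have mv : ∀ (a b z : X), z ∈ W X → a * z * b = a * b * z := fun a b z hz => by
          rw [mul_assoc, ← W_comm hz b, mul_assoc]
        rintro a b (ha | ⟨y, hy, rfl⟩ | ⟨y, hy, rfl⟩ | ⟨y, hy, rfl⟩)
          (hb | ⟨z, hz, rfl⟩ | ⟨z, hz, rfl⟩ | ⟨z, hz, rfl⟩)
        · exact Or.inl (mul_mem ha hb)
        · exact Or.inr (Or.inl ⟨a * z, mul_mem ha hz, by rw [← mul_assoc, ← W_comm ha, mul_assoc]⟩)
        · exact Or.inr (Or.inr (Or.inl ⟨a * z, mul_mem ha hz, by rw [← mul_assoc, ← W_comm ha, mul_assoc]⟩))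
        · exact Or.inr (Or.inr (Or.inr ⟨a * z, mul_mem ha hz, by rw [← mul_assoc, ← W_comm ha, mul_assoc]⟩))
        · exact Or.inr (Or.inl ⟨y * b, mul_mem hy hb, by rw [mul_assoc]⟩)
        · refine Or.inl ?_
          rw [← mul_assoc, mv e1 e1 y hy]
          exact mul_mem (mul_mem q1 hy) hz
        · refine Or.inr (Or.inr (Or.inr ⟨y * z, mul_mem hy hz, ?_⟩))
          rw [← mul_assoc, mv e1 e2 y hy, mul_assoc]
        · refine Or.inr (Or.inr (Or.inl ⟨e1 * e1 * (y * z), mul_mem q1 (mul_mem hy hz), ?_⟩))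
          rw [← mul_assoc, ← mul_assoc, mv e1 e1 y hy, mv (e1 * e1) e2 y hy,
            show e2 * (e1 * e1 * (y * z)) = e2 * (e1 * e1) * (y * z) by group, W_comm q1 e2]
          group
        · exact Or.inr (Or.inr (Or.inl ⟨y * b, mul_mem hy hb, by rw [mul_assoc]⟩))
        · refine Or.inr (Or.inr (Or.inr ⟨⁅e2, e1⁆ * (y * z), mul_mem (h.comm_mem_W _ _) (mul_mem hy hz), ?_⟩))
          rw [← mul_assoc, mv e2 e1 y hy, hsw e1 e2]
          group
        · refine Or.inl ?_
          rw [← mul_assoc, mv e2 e2 y hy]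
          exact mul_mem (mul_mem q2 hy) hz
        · refine Or.inr (Or.inl ⟨⁅e2, e1⁆ * (e2 * e2) * (y * z),
            mul_mem (mul_mem (h.comm_mem_W _ _) q2) (mul_mem hy hz), ?_⟩)
          rw [← mul_assoc, ← mul_assoc, mv e2 e1 y hy, mv (e2 * e1) e2 y hy, hsw e1 e2,
            mv (e1 * e2) e2 _ (h.comm_mem_W e2 e1), mul_assoc (e1 * e2 * e2) ⁅e2, e1⁆ y]
          calc e1 * e2 * e2 * (⁅e2, e1⁆ * y) * z = e1 * ((e2 * e2) * ⁅e2, e1⁆) * (y * z) := by group
            _ = e1 * (⁅e2, e1⁆ * (e2 * e2)) * (y * z) := by rw [W_comm (h.comm_mem_W e2 e1) (e2 * e2)]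
            _ = _ := by group
        · exact Or.inr (Or.inr (Or.inr ⟨y * b, mul_mem hy hb, by rw [mul_assoc]⟩))
        · refine Or.inr (Or.inr (Or.inl ⟨(e1 * e1) * ⁅e2, e1⁆ * (y * z),
            mul_mem (mul_mem q1 (h.comm_mem_W _ _)) (mul_mem hy hz), ?_⟩))
          rw [← mul_assoc, mv (e1 * e2) e1 y hy, mul_assoc e1 e2 e1, hsw e1 e2]
          calc e1 * (e1 * e2 * ⁅e2, e1⁆) * y * z = (e1 * e1 * e2) * ⁅e2, e1⁆ * (y * z) := by group
            _ = (e2 * (e1 * e1)) * ⁅e2, e1⁆ * (y * z) := by rw [W_comm q1 e2]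
            _ = _ := by group
        · refine Or.inr (Or.inl ⟨e2 * e2 * (y * z), mul_mem q2 (mul_mem hy hz), ?_⟩)
          rw [← mul_assoc, mv (e1 * e2) e2 y hy]
          group
        · refine Or.inl ?_
          rw [← mul_assoc, mv (e1 * e2) (e1 * e2) y hy]
          exact mul_mem (mul_mem (h.sq_mem_W _) hy) hz
      inv_mem' := by
        intro a ha
        have e : a⁻¹ = a * (a * a)⁻¹ := by group
        rw [e]
        have hw := inv_mem (h.sq_mem_W a)
        rcases ha with ha | ⟨y, hy, rfl⟩ | ⟨y, hy, rfl⟩ | ⟨y, hy, rfl⟩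
        · exact Or.inl (mul_mem ha hw)
        · exact Or.inr (Or.inl ⟨_, mul_mem hy hw, mul_assoc _ _ _⟩)
        · exact Or.inr (Or.inr (Or.inl ⟨_, mul_mem hy hw, mul_assoc _ _ _⟩))
        · exact Or.inr (Or.inr (Or.inr ⟨_, mul_mem hy hw, mul_assoc _ _ _⟩)) }
  obtain ⟨e3, he3⟩ : ∃ e, e ∉ P2 := by
    by_contra hc
    push Not at hc
    have := Subgroup.card_le_of_le (show (⊤ : Subgroup X) ≤ P2 from fun x _ => hc x)
    rw [Nat.card_congr Subgroup.topEquiv.toEquiv] at this
    have := card_le_four_of_cover (K := P2) (v := e1) (u := e2) fun x hx => hx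
    omega
  have hP1mem : ∀ z ∈ W X, z ∈ P1 ∧ e1 * z ∈ P1 := fun z hz =>
    ⟨Subgroup.mem_sup_left hz,
      mul_mem (Subgroup.mem_sup_right (Subgroup.mem_zpowers e1)) (Subgroup.mem_sup_left hz)⟩
  have b1 : e1 ∈ P2 := Or.inr (Or.inl ⟨1, one_mem _, (mul_one _).symm⟩)
  have b2 : e2 ∈ P2 := Or.inr (Or.inr (Or.inl ⟨1, one_mem _, (mul_one _).symm⟩))
  have cW : ∀ a b : X, ⁅a, b⁆ ∈ W X := h.comm_mem_W
  -- the commuting pair
  obtain ⟨u, v, huv, hu, hv, hvu⟩ : ∃ u v : X, u * v = v * u ∧ u ∉ W X ∧ v ∉ W X ∧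
      (u⁻¹ * v ∉ W X) := by
    have hcom : ∀ a b : X, ⁅a, b⁆ = 1 → a * b = b * a := fun a b e =>
      (commutatorElement_eq_one_iff_commute.1 e).eq
    have k2 : e2 ∉ W X := fun hh => he2 (hP1mem _ hh).1
    have k3 : e3 ∉ W X := fun hh => he3 (Or.inl hh)
    have k12 : e1⁻¹ * e2 ∉ W X := fun hh => he2 (by
      have := (hP1mem _ hh).2; rwa [mul_inv_cancel_left] at this)
    have k13 : e1⁻¹ * e3 ∉ W X := fun hh => he3 (Or.inr (Or.inl ⟨_, hh, (mul_inv_cancel_left e1 e3).symm⟩))
    have k23 : e2⁻¹ * e3 ∉ W X := fun hh =>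
      he3 (Or.inr (Or.inr (Or.inl ⟨_, hh, (mul_inv_cancel_left e2 e3).symm⟩)))
    by_cases c12 : ⁅e1, e2⁆ = 1
    · exact ⟨e1, e2, hcom _ _ c12, he1, k2, k12⟩
    by_cases c13 : ⁅e1, e3⁆ = 1
    · exact ⟨e1, e3, hcom _ _ c13, he1, k3, k13⟩
    by_cases c23 : ⁅e2, e3⁆ = 1
    · exact ⟨e2, e3, hcom _ _ c23, k2, k3, k23⟩
    have inW : ∀ {z : X}, z ∈ W X → z ∈ P2 := fun hz => Or.inl hz
    have out : ∀ {p q : X}, p ∈ P2 → q ∈ P2 → p * e3 * q ∉ P2 := fun {p q} hp hq hh => he3 (by
      have := P2.mul_mem (P2.mul_mem (P2.inv_mem hp) hh) (P2.inv_mem hq)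
      rwa [show p⁻¹ * (p * e3 * q) * q⁻¹ = e3 by group] at this)
    have k23' : e2 * e3 ∉ W X := fun hh => out b2 (one_mem _) (by rw [mul_one]; exact inW hh)
    have k13' : e1 * e3 ∉ W X := fun hh => out b1 (one_mem _) (by rw [mul_one]; exact inW hh)
    have k12' : e1 * e2 ∉ W X := fun hh => k12 (by
      rw [show e1⁻¹ * e2 = (e1 * e1)⁻¹ * (e1 * e2) by group]
      exact mul_mem (inv_mem (h.sq_mem_W e1)) hh)
    by_cases d1 : ⁅e1, e2⁆ = ⁅e1, e3⁆
    · refine ⟨e1, e2 * e3, hcom _ _ (by rw [h.comm_mul_right, d1, (cW _ _).2]), he1, k23', fun hh => ?_⟩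
      exact out (P2.mul_mem (P2.inv_mem b1) b2) (one_mem _) (by rw [mul_one, mul_assoc]; exact inW hh)
    by_cases d2 : ⁅e1, e2⁆ = ⁅e2, e3⁆
    · refine ⟨e2, e1 * e3, hcom _ _ (by rw [h.comm_mul_right, h.comm_symm e1 e2, d2, (cW _ _).2]), k2, k13',
        fun hh => ?_⟩
      exact out (P2.mul_mem (P2.inv_mem b2) b1) (one_mem _) (by rw [mul_one, mul_assoc]; exact inW hh)
    by_cases d3 : ⁅e1, e3⁆ = ⁅e2, e3⁆
    · refine ⟨e3, e1 * e2, hcom _ _ (by
        rw [h.comm_mul_right, h.comm_symm e1 e3, h.comm_symm e2 e3, d3, (cW _ _).2]), k3, k12', fun hh => ?_⟩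
      exact he3 (by
        have := P2.mul_mem (P2.mul_mem b1 b2) (P2.inv_mem (inW hh))
        rwa [show e1 * e2 * (e3⁻¹ * (e1 * e2))⁻¹ = e3 by group] at this)
    -- three different nontrivial commutators in a group of order at most four
    refine ⟨e1 * e2, e2 * e3, hcom _ _ ?_, k12', k23', fun hh => ?_⟩
    swap
    · exact out (P2.mul_mem (P2.inv_mem (P2.mul_mem b1 b2)) b2) (one_mem _)
        (by rw [mul_one, mul_assoc]; exact inW hh)
    rw [h.comm_mul_left, h.comm_mul_right, h.comm_mul_right, commutatorElement_self, one_mul]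
    classical
    have := Fintype.ofFinite (W X)
    by_contra hne
    let S : Finset (W X) := {1, ⟨⁅e1, e2⁆, cW _ _⟩, ⟨⁅e1, e3⁆, cW _ _⟩, ⟨⁅e2, e3⁆, cW _ _⟩,
      ⟨⁅e1, e2⁆ * ⁅e1, e3⁆ * ⁅e2, e3⁆, mul_mem (mul_mem (cW _ _) (cW _ _)) (cW _ _)⟩}
    have p1 : ⁅e1, e2⁆ * ⁅e1, e3⁆ * ⁅e2, e3⁆ ≠ ⁅e1, e2⁆ := fun e => d3 (by
      rw [mul_assoc] at e
      rw [eq_inv_of_mul_eq_one_left (mul_eq_left.1 e), inv_eq_of_mul_eq_one_right (cW e2 e3).2])
    have p3 : ⁅e1, e2⁆ * ⁅e1, e3⁆ * ⁅e2, e3⁆ ≠ ⁅e2, e3⁆ := fun e => d1 (by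
      rw [eq_inv_of_mul_eq_one_left (mul_eq_right.1 e), inv_eq_of_mul_eq_one_right (cW e1 e3).2])
    have p2 : ⁅e1, e2⁆ * ⁅e1, e3⁆ * ⁅e2, e3⁆ ≠ ⁅e1, e3⁆ := fun e => d2 (by
      rw [← W_comm (cW e1 e2) ⁅e1, e3⁆, mul_assoc] at e
      rw [eq_inv_of_mul_eq_one_left (mul_eq_left.1 e), inv_eq_of_mul_eq_one_right (cW e2 e3).2])
    have h5 : S.card = 5 := by
      simp [S, Finset.card_insert_of_notMem, Subtype.ext_iff, Ne.symm c12, Ne.symm c13, Ne.symm c23,
        d1, d2, d3, p1.symm, p2.symm, p3.symm, Ne.symm hne]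
    have h6 := Finset.card_le_univ S
    rw [← Nat.card_eq_fintype_card] at h6
    omega
  -- the abelian subgroup of index two
  let C : Set X := (W X : Set X) ∪ {u, v}
  let P : Subgroup X := Subgroup.closure C
  have hWP : W X ≤ P := fun z hz => Subgroup.subset_closure (Or.inl hz)
  have hPc : ∀ p ∈ P, ∀ r ∈ P, p * r = r * p := by
    have hgen : ∀ p ∈ C, ∀ r ∈ C, p * r = r * p := by
      rintro p (hp | rfl | rfl) r (hr | rfl | rfl)
      all_goals first
        | rfl
        | exact huv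
        | exact huv.symm
        | exact (W_comm hp _).symm
        | exact W_comm hr _
    intro p hp r hr
    have h1 : P ≤ Subgroup.centralizer C := (Subgroup.closure_le _).2 fun a ha =>
      Subgroup.mem_centralizer_iff.2 fun c hc => hgen c hc a ha
    have h2 : P ≤ Subgroup.centralizer (P : Set X) := (Subgroup.closure_le _).2 fun a ha =>
      Subgroup.mem_centralizer_iff.2 fun b hb => (Subgroup.mem_centralizer_iff.1 (h1 hb) a ha).symm
    exact Subgroup.mem_centralizer_iff.1 (h2 hr) p hp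
  have hPcard : 4 * Nat.card (W X) ≤ Nat.card P := by
    let f : Bool × Bool × W X → P := fun p => ⟨(if p.1 then u else 1) * (if p.2.1 then v else 1) * p.2.2,
      by
        refine mul_mem (mul_mem ?_ ?_) (hWP p.2.2.2) <;> split_ifs <;>
          first | exact one_mem _ | exact Subgroup.subset_closure (Or.inr (by simp))⟩
    have finj : Function.Injective f := by
      rintro ⟨a, b, z⟩ ⟨a', b', z'⟩ e
      have e := congrArg (fun p : P => (p : X)) e
      simp only [f] at e
      have hz : (z' : X) * (z : X)⁻¹ ∈ W X := mul_mem z'.2 (inv_mem z.2)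
      have key : ((if a' then u else 1) * (if b' then v else 1))⁻¹ *
          ((if a then u else 1) * (if b then v else 1)) ∈ W X := by
        rw [eq_mul_inv_of_mul_eq e, mul_assoc ((if a' then u else 1) * (if b' then v else 1)),
          inv_mul_cancel_left]
        exact hz
      have hbb : a = a' ∧ b = b' := by
        have uv' : u * v ∉ W X := fun hh => hvu (by
          rw [show u⁻¹ * v = (u * u)⁻¹ * (u * v) by group]
          exact mul_mem (inv_mem (h.sq_mem_W u)) hh)
        cases a <;> cases b <;> cases a' <;> cases b' <;>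
          simp only [Bool.false_eq_true, if_false, if_true, one_mul, mul_one, inv_one] at key <;>
          first
            | exact ⟨rfl, rfl⟩
            | exact absurd key hu
            | exact absurd key hv
            | exact absurd key hvu
            | exact absurd key uv'
            | exact absurd (inv_mem_iff.1 key) hu
            | exact absurd (inv_mem_iff.1 key) hv
            | exact absurd (inv_mem_iff.1 key) uv'
            | exact absurd (by simpa using inv_mem key) hvu
            | (exfalso; refine hv ?_; simpa [mul_assoc] using key)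
            | (exfalso; refine hv ?_; simpa [mul_assoc] using inv_mem key)
            | (exfalso; refine hu ?_; rw [huv] at key; simpa [mul_assoc] using key)
            | (exfalso; refine hu ?_; rw [huv] at key; simpa [mul_assoc] using inv_mem key)
      obtain ⟨rfl, rfl⟩ := hbb
      exact congrArg (fun z => (a, b, z)) (Subtype.ext (mul_left_cancel e))
    have := Nat.card_le_card_of_injective f finj
    rw [Nat.card_prod, Nat.card_prod, Nat.card_eq_fintype_card (α := Bool), Fintype.card_bool] at this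
    omega
  have hne : P ≠ ⊤ := fun e => by
    obtain ⟨a, b, hab⟩ := h.nonab
    exact hab (hPc a (e ▸ Subgroup.mem_top a) b (e ▸ Subgroup.mem_top b))
  have hidx : P.index = 2 := by
    have h1 : P.index ≠ 1 := fun e => hne (Subgroup.index_eq_one.1 e)
    have h2 := P.card_mul_index
    rw [hcard] at h2
    have : 1 ≤ P.index := Nat.one_le_iff_ne_zero.2 Subgroup.index_ne_zero_of_finite
    by_contra hh
    have h3 : 3 ≤ P.index := by omega
    nlinarith
  have hPn : P.Normal := Subgroup.normal_of_index_eq_two hidx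
  -- invariance
  have hPi : ∀ φ ∈ A, ∀ p ∈ P, φ p ∈ P := by
    intro φ hφ p hp
    by_contra hpn
    let Q := P.map φ.toMonoidHom
    have hQc : ∀ q ∈ Q, ∀ r ∈ Q, q * r = r * q := by
      rintro _ ⟨a, ha, rfl⟩ _ ⟨b, hb, rfl⟩
      rw [← map_mul, ← map_mul, hPc a ha b hb]
    have hpQ : φ p ∈ Q := ⟨p, hp, rfl⟩
    have hle : P ⊓ Q ≤ W X := fun g hg => by
      rw [← h.center_eq.1]
      refine Subgroup.mem_center_iff.2 fun y => ?_
      by_cases hy : y ∈ P
      · exact hPc y hy g hg.1
      · have h1 : (φ p)⁻¹ * y ∈ P := by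
          rw [Subgroup.mul_mem_iff_of_index_two hidx, inv_mem_iff]
          exact iff_of_false hpn hy
        have c1 : Commute (φ p) g := hQc _ hpQ g hg.2
        have c2 : Commute ((φ p)⁻¹ * y) g := hPc _ h1 g hg.1
        have := c1.mul_left c2
        rwa [mul_inv_cancel_left] at this
    have h1 := Subgroup.card_le_of_le hle
    have hQcard : Nat.card Q = Nat.card P :=
      (Nat.card_congr (P.equivMapOfInjective _ φ.injective).toEquiv).symm
    have hQidx : Q.index = 2 := by
      have h2 := Q.card_mul_index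
      rw [hQcard, ← P.card_mul_index, hidx] at h2
      exact Nat.eq_of_mul_eq_mul_left Nat.card_pos h2
    have h2 : Q.relIndex P ∣ Q.index :=
      @Subgroup.relIndex_dvd_index_of_normal _ _ Q P (Subgroup.normal_of_index_eq_two hQidx)
    rw [hQidx] at h2
    have h3 : Q.relIndex P ≤ 2 := Nat.le_of_dvd two_pos h2
    have h4 : Nat.card (P ⊓ Q : Subgroup X) * Q.relIndex P = Nat.card P := by
      rw [inf_comm, ← Subgroup.inf_relIndex_right,
        ← Nat.card_congr (Subgroup.subgroupOfEquivOfLe (inf_le_right : Q ⊓ P ≤ P)).toEquiv]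
      exact Subgroup.card_mul_index _
    nlinarith
  obtain ⟨y, hy⟩ : ∃ y, y ∉ P := by
    by_contra hh
    push Not at hh
    exact hne (eq_top_iff.2 fun y _ => hh y)
  refine hy (h.mem_of_fixed_mod P (h.commutator_le_W.trans hWP) hPi fun φ hφ => ?_)
  rw [Subgroup.mul_mem_iff_of_index_two hidx, inv_mem_iff]
  refine iff_of_false hy fun hh => hy ?_
  have := hPi φ⁻¹ (A.inv_mem hφ) _ hh
  rwa [MulAut.inv_apply_self] at this

/-- A group of order eight in this situation is quaternion. -/
theorem quaternion_of_card_eight (h8 : Nat.card X = 8) : Nonempty (X ≃* QuaternionGroup 2) := by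
  have hnc : ¬ IsMulCommutative X := fun hc => by
    obtain ⟨a, b, hab⟩ := h.nonab
    exact hab (@mul_comm' X _ hc a b)
  rcases CfsgLib.TwoGroups.dihedral_or_quaternion_of_card_eight h8 hnc with ⟨⟨e⟩⟩ | hq
  · exfalso
    have f1 : ∀ g : DihedralGroup 4, g * g ≠ 1 → g = DihedralGroup.r 1 ∨ g = DihedralGroup.r 3 := by decide
    have f2 : ∀ g : DihedralGroup 4, (∀ k, k * g = g * k) → g = DihedralGroup.r 0 ∨ g = DihedralGroup.r 2 := by
      decide
    set r := e.symm (DihedralGroup.r 1) with hr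
    let P := Subgroup.zpowers r
    have hpow : ∀ k : ℕ, e (r ^ k) = DihedralGroup.r 1 ^ k := fun k => by rw [map_pow, hr, e.apply_symm_apply]
    have hmem : ∀ (k : ℕ) (g : X), e g = DihedralGroup.r 1 ^ k → g ∈ P := fun k g hg => by
      rw [← e.injective (hpow k |>.trans hg.symm)]
      exact pow_mem (Subgroup.mem_zpowers r) k
    have hidx : P.index = 2 := by
      have h2 := P.card_mul_index
      have h4 : orderOf r = 4 := by
        rw [hr, MulEquiv.orderOf_eq, DihedralGroup.orderOf_r_one]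
      rw [Nat.card_zpowers, h4, h8] at h2
      omega
    have : P.Normal := Subgroup.normal_of_index_eq_two hidx
    have hr2 : r * r ≠ 1 := fun hh => by
      have := congrArg e hh
      rw [map_mul, map_one, hr, e.apply_symm_apply] at this
      exact absurd this (by decide)
    have hPi : ∀ φ ∈ A, ∀ p ∈ P, φ p ∈ P := by
      intro φ _ p hp
      have hφr : φ r ∈ P := by
        have h1 : e (φ r) * e (φ r) ≠ 1 := fun hh => hr2 (φ.injective (by
          rw [map_mul, map_one]; exact e.injective (by rw [map_mul, map_one]; exact hh)))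
        rcases f1 _ h1 with e' | e'
        · exact hmem 1 _ (by rw [e', pow_one])
        · exact hmem 3 _ (by rw [e']; decide)
      obtain ⟨i, rfl⟩ := Subgroup.mem_zpowers_iff.1 hp
      rw [map_zpow]
      exact zpow_mem hφr i
    have hWP : W X ≤ P := fun z hz => by
      rcases f2 (e z) (fun k => by rw [← e.apply_symm_apply k, ← map_mul, ← map_mul, W_comm hz]) with e' | e'
      · exact hmem 0 _ (by rw [e', pow_zero]; rfl)
      · exact hmem 2 _ (by rw [e']; decide)
    obtain ⟨y, hy⟩ : ∃ y, y ∉ P := by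
      by_contra hh
      push Not at hh
      rw [Subgroup.index_eq_one.2 (eq_top_iff.2 fun y _ => hh y)] at hidx
      omega
    refine hy (h.mem_of_fixed_mod P (h.commutator_le_W.trans hWP) hPi fun φ hφ => ?_)
    rw [Subgroup.mul_mem_iff_of_index_two hidx, inv_mem_iff]
    refine iff_of_false hy fun hh => hy ?_
    have := hPi φ⁻¹ (A.inv_mem hφ) _ hh
    rwa [MulAut.inv_apply_self] at this
  · exact hq

theorem card_W_two_or_four : Nat.card (W X) = 2 ∨ Nat.card (W X) = 4 := by
  have : Fact (Nat.Prime 2) := ⟨Nat.prime_two⟩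
  obtain ⟨z, hz, hz1⟩ := h.W_ne_bot
  have h1 : 1 < Nat.card (W X) := by
    rw [Finite.one_lt_card_iff_nontrivial]
    exact ⟨⟨⟨z, hz⟩, 1, fun e => hz1 (congrArg Subtype.val e)⟩⟩
  have h2 := h.card_W_le
  obtain ⟨k, hk⟩ := IsPGroup.iff_card.1 (h.pgrp.to_subgroup (W X))
  rw [hk] at h1 h2 ⊢
  have hk1 : k ≠ 0 := fun e => by rw [e] at h1; simp at h1
  have hk2 : k ≤ 2 := by
    by_contra hh
    have := Nat.pow_le_pow_right (n := 2) two_pos (show 3 ≤ k by omega)
    omega
  interval_cases k <;> simp at hk1 ⊢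

/-- `|X : W| ∉ {1, 2}`. -/
theorem four_mul_le : 4 * Nat.card (W X) ≤ Nat.card X := by
  by_contra hlt
  obtain ⟨a, b, hab⟩ := h.nonab
  have hc : Nat.card X = Nat.card (W X) * (W X).index := (Subgroup.card_mul_index _).symm
  have hi : (W X).index < 4 := by
    by_contra hh
    rw [hc] at hlt
    exact hlt (by rw [mul_comm 4]; exact Nat.mul_le_mul_left _ (by omega))
  have ha : a ∉ W X := fun hh => hab (W_comm hh b).symm
  have hb : b ∉ W X := fun hh => hab (W_comm hh a)
  have hab' : a⁻¹ * b ∉ W X := fun hh => hab (by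
    have := W_comm hh a
    rw [mul_inv_cancel_left] at this
    calc a * b = a * (a * (a⁻¹ * b)) := by rw [mul_inv_cancel_left]
      _ = a * ((a⁻¹ * b) * a) := by rw [W_comm hh a]
      _ = b * a := by group)
  have : 3 ≤ (W X).index := by
    let f : Fin 3 → X ⧸ W X := ![QuotientGroup.mk 1, QuotientGroup.mk a, QuotientGroup.mk b]
    have hf : Function.Injective f := by
      intro i j e
      fin_cases i <;> fin_cases j <;> simp [f] at e ⊢
      all_goals first
        | exact ha ((QuotientGroup.eq_one_iff a).1 e) | exact ha ((QuotientGroup.eq_one_iff a).1 e.symm)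
        | exact hb ((QuotientGroup.eq_one_iff b).1 e) | exact hb ((QuotientGroup.eq_one_iff b).1 e.symm)
        | exact ha e | exact hb e | exact hab' (QuotientGroup.eq.1 e) | exact hab' (QuotientGroup.eq.1 e.symm)
    have := Nat.card_le_card_of_injective f hf
    rwa [Nat.card_fin] at this
  have hdvd : (W X).index ∣ Nat.card X := ⟨Nat.card (W X), by rw [hc, mul_comm]⟩
  have h3 : (W X).index = 3 := by omega
  rw [h3] at hdvd
  have : Fact (Nat.Prime 2) := ⟨Nat.prime_two⟩
  obtain ⟨n, hn⟩ := IsPGroup.iff_card.1 h.pgrp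
  rw [hn] at hdvd
  exact absurd (Nat.Prime.dvd_of_dvd_pow Nat.prime_three hdvd) (by norm_num)

theorem index_pow : ∃ k : ℕ, Nat.card X = Nat.card (W X) * 2 ^ k := by
  have : Fact (Nat.Prime 2) := ⟨Nat.prime_two⟩
  obtain ⟨k, hk⟩ := IsPGroup.iff_card.1 (h.pgrp.to_quotient (W X))
  exact ⟨k, by rw [← hk, (W X).card_eq_card_quotient_mul_card_subgroup, mul_comm]⟩

/-- The case of a central four group. -/
theorem four_case (hW : Nat.card (W X) = 4) :
    Nat.card X = 64 ∧ Nat.card {x : X // orderOf x = 2} = 3 ∧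
      ∀ x : X, orderOf x = 2 → x ∈ Subgroup.center X := by
  classical
  have hinv : ∀ x : X, x * x = 1 → x ∈ W X := fun x hx =>
    h.mem_W_of_comm hW hx fun y => h.comm_mem_W y x
  have h2 : ∀ x : X, orderOf x = 2 ↔ (x ∈ W X ∧ x ≠ 1) := fun x => by
    rw [orderOf_eq_iff two_pos]
    constructor
    · rintro ⟨hx, hlt⟩
      exact ⟨hinv x (by rw [← pow_two, hx]), fun e => hlt 1 one_lt_two one_pos (by rw [e, one_pow])⟩
    · rintro ⟨hx, h1⟩
      refine ⟨by rw [pow_two]; exact hx.2, fun m hm hm0 => ?_⟩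
      rw [show m = 1 by omega, pow_one]; exact h1
  refine ⟨?_, ?_, fun x hx => ((h2 x).1 hx).1.1⟩
  swap
  · have : Fintype (W X) := Fintype.ofFinite _
    rw [Nat.card_congr (show {x : X // orderOf x = 2} ≃ {x : W X // x ≠ 1} from
      { toFun := fun x => ⟨⟨x.1, ((h2 x.1).1 x.2).1⟩, fun e => ((h2 x.1).1 x.2).2 (congrArg Subtype.val e)⟩
        invFun := fun x => ⟨x.1.1, (h2 _).2 ⟨x.1.2, fun e => x.2 (Subtype.ext e)⟩⟩
        left_inv := fun x => rfl
        right_inv := fun x => rfl }),
      Nat.card_eq_fintype_card, Fintype.card_subtype_compl, Fintype.card_subtype_eq,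
      ← Nat.card_eq_fintype_card, hW]
  obtain ⟨k, hk⟩ := h.index_pow
  rw [hW] at hk
  have h16 : 4 * 4 ≤ Nat.card X := hW ▸ h.four_mul_le
  -- `|X : W| ≠ 4`
  have hne4 : Nat.card X ≠ 16 := by
    intro h16'
    obtain ⟨a, b, hab⟩ := h.nonab
    have hpair := fun p q => comm_pair ⊤ (W X) le_top (fun z hz t _ => (W_comm hz t).symm)
      (by rw [Nat.card_congr Subgroup.topEquiv.toEquiv, h16', hW]) (Subgroup.mem_top a) (Subgroup.mem_top b) hab
      p (Subgroup.mem_top p) q (Subgroup.mem_top q)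
      (fun u _ v _ t _ => (W_comm (h.comm_mem_W u v) t).symm) (h.comm_mem_W a b).2
    have hle : commutator X ≤ Subgroup.zpowers ⁅a, b⁆ := by
      rw [commutator_eq_closure, Subgroup.closure_le]
      rintro _ ⟨p, q, rfl⟩
      rcases hpair p q with e | e <;> rw [e]
      · exact one_mem _
      · exact Subgroup.mem_zpowers _
    have := Subgroup.card_le_of_le hle
    rw [h.center_eq.2, hW, Nat.card_zpowers] at this
    have := orderOf_le_of_pow_eq_one two_pos (show ⁅a, b⁆ ^ 2 = 1 by rw [pow_two]; exact (h.comm_mem_W a b).2)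
    omega
  have hne8 : Nat.card X ≠ 32 := fun e => h.card_ne_eight_mul (by rw [e, hW])
  -- `|X : W| ≤ 16`
  obtain ⟨v, hv⟩ : ∃ v, v ∉ W X := by
    by_contra hc
    push Not at hc
    obtain ⟨a, b, hab⟩ := h.nonab
    exact hab (W_comm (hc b) a)
  suffices hle : Nat.card X ≤ 64 by
    rcases lt_trichotomy k 4 with h4 | rfl | h4
    · interval_cases k <;> omega
    · exact hk
    · have := Nat.pow_le_pow_right (n := 2) two_pos (show 5 ≤ k by omega); omega
  by_contra hgt
  -- a second element commuting with `v`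
  have hCv := h.card_le_centralizer v
  rw [hW] at hCv
  have sqv : v * v ∈ W X := h.sq_mem_W v
  obtain ⟨u, huC, hu, hvu⟩ : ∃ u, u * v = v * u ∧ u ∉ W X ∧ v⁻¹ * u ∉ W X := by
    by_contra hc
    push Not at hc
    have := card_le_four_of_cover (K := Subgroup.centralizer ({v} : Set X)) (v := v) (u := v) fun x hx => by
      by_cases hxW : x ∈ W X
      · exact Or.inl hxW
      · exact Or.inr (Or.inl ⟨_, hc x (Subgroup.mem_centralizer_singleton_iff.1 hx) hxW,
          (mul_inv_cancel_left v x).symm⟩)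
    omega
  set a := v * v with ha
  set b := u * u with hb
  have hbW : b ∈ W X := h.sq_mem_W u
  have ha1 : a ≠ 1 := fun e => hv (hinv v e)
  have hb1 : b ≠ 1 := fun e => hu (hinv u e)
  have hab : a ≠ b := fun e => hvu (hinv _ (by
    rw [show v⁻¹ * u * (v⁻¹ * u) = v⁻¹ * (u * v⁻¹) * u by group,
      show u * v⁻¹ = v⁻¹ * u from (Commute.inv_right huC).eq,
      show v⁻¹ * (v⁻¹ * u) * u = (v * v)⁻¹ * (u * u) by group, ← ha, ← hb, e, inv_mul_cancel]))
  -- coordinates in `W`
  let f : Bool × Bool → X := fun p => (if p.1 then a else 1) * (if p.2 then b else 1)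
  have fW : ∀ p, f p ∈ W X := fun p => by
    refine mul_mem ?_ ?_ <;> split_ifs <;> first | exact sqv | exact hbW | exact one_mem _
  have fadd : ∀ p q, f (bx p q) = f p * f q := by
    have ai : a * a = 1 := sqv.2
    have bi : b * b = 1 := hbW.2
    have bab : b * (a * b) = a := by rw [← mul_assoc, W_comm sqv b, mul_assoc, bi, mul_one]
    have aab : a * (a * b) = b := by rw [← mul_assoc, ai, one_mul]
    rintro ⟨_ | _, _ | _⟩ ⟨_ | _, _ | _⟩ <;>
      simp [f, bx, ai, bi, aab, bab, mul_assoc, W_comm sqv b]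
  have fcover : ∀ z ∈ W X, ∃ p, f p = z := by
    have finj : Function.Injective fun p => (⟨f p, fW p⟩ : W X) := fun p q e => by
      have e : f p = f q := congrArg Subtype.val e
      have h0 : f (bx p q) = 1 := by
        rw [fadd, e]; exact (fW q).2
      have : bx p q = (false, false) := by
        revert h0
        generalize bx p q = r
        rcases r with ⟨_ | _, _ | _⟩ <;> simp [f, ha1, hb1]
        intro hh
        exact hab (by rw [eq_inv_of_mul_eq_one_left hh, inv_eq_of_mul_eq_one_right hbW.2])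
      revert this
      rcases p with ⟨_ | _, _ | _⟩ <;> rcases q with ⟨_ | _, _ | _⟩ <;> decide
    intro z hz
    have hsurj : Function.Surjective fun p => (⟨f p, fW p⟩ : W X) := by
      have := Fintype.ofFinite (W X)
      exact ((Fintype.bijective_iff_injective_and_card _).2 ⟨finj, by
        rw [← Nat.card_eq_fintype_card (α := W X), hW]; rfl⟩).2
    obtain ⟨p, hp⟩ := hsurj ⟨z, hz⟩
    exact ⟨p, congrArg Subtype.val hp⟩
  choose! g hg using fcover
  have gadd : ∀ {y z : X}, y ∈ W X → z ∈ W X → g (y * z) = bx (g y) (g z) := by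
    intro y z hy hz
    by_contra hne
    have h1 : f (g (y * z)) = f (bx (g y) (g z)) := by rw [fadd, hg _ hy, hg _ hz, hg _ (mul_mem hy hz)]
    have h0 : f (bx (g (y * z)) (bx (g y) (g z))) = 1 := by rw [fadd, h1]; exact (fW _).2
    revert h0 hne
    generalize g (y * z) = p
    generalize bx (g y) (g z) = q
    rcases p with ⟨_ | _, _ | _⟩ <;> rcases q with ⟨_ | _, _ | _⟩ <;> simp [f, bx, ha1, hb1] <;>
      (intro hh; exact hab (by rw [eq_inv_of_mul_eq_one_left hh, inv_eq_of_mul_eq_one_right hbW.2]))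
  let K : Subgroup X := Subgroup.centralizer ({v} : Set X) ⊓ Subgroup.centralizer ({u} : Set X)
  have hKcov : ∀ x ∈ K, x ∈ W X ∨ (∃ z ∈ W X, x = v * z) ∨ (∃ z ∈ W X, x = u * z) ∨
      ∃ z ∈ W X, x = v * u * z := by
    intro x hx
    have cv : x * v = v * x := Subgroup.mem_centralizer_singleton_iff.1 hx.1
    have cu : x * u = u * x := Subgroup.mem_centralizer_singleton_iff.1 hx.2
    have key : ∀ s : X, x * s = s * x → s * s = x * x → s⁻¹ * x ∈ W X := fun s hs e => hinv _ (by
      rw [sq_mul_of_comm (Commute.inv_left (show Commute s x from hs.symm)).eq, ← e]; group)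
    obtain ⟨p, hp⟩ : ∃ p, f p = x * x := ⟨g _, hg _ (h.sq_mem_W x)⟩
    rcases p with ⟨_ | _, _ | _⟩ <;> simp [f] at hp
    · exact Or.inl (hinv x hp.symm)
    · exact Or.inr (Or.inr (Or.inl ⟨_, key u cu (hb ▸ hp), (mul_inv_cancel_left u x).symm⟩))
    · exact Or.inr (Or.inl ⟨_, key v cv (ha ▸ hp), (mul_inv_cancel_left v x).symm⟩)
    · refine Or.inr (Or.inr (Or.inr ⟨_, key (v * u) ?_ ?_, (mul_inv_cancel_left _ x).symm⟩))
      · rw [← mul_assoc, cv, mul_assoc, cu, mul_assoc]
      · rw [sq_mul_of_comm huC.symm, ← ha, ← hb, hp]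
  have hKcard := card_le_four_of_cover hKcov
  -- goodness outside `K`
  have hok : ∀ x, x ∉ K → ok (g ⁅x, v⁆) (g ⁅x, u⁆) = true := by
    intro x hx
    have pW := h.comm_mem_W x v
    have rW := h.comm_mem_W x u
    set p := g ⁅x, v⁆ with hp
    set r := g ⁅x, u⁆ with hr
    have hnz : ¬ (p = (false, false) ∧ r = (false, false)) := by
      rintro ⟨e1, e2⟩
      refine hx ⟨Subgroup.mem_centralizer_singleton_iff.2 ?_, Subgroup.mem_centralizer_singleton_iff.2 ?_⟩
      · refine (commutatorElement_eq_one_iff_commute.1 ?_).eq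
        rw [← hg _ pW, ← hp, e1]; simp [f]
      · refine (commutatorElement_eq_one_iff_commute.1 ?_).eq
        rw [← hg _ rW, ← hr, e2]; simp [f]
    by_contra hno
    -- the squares of `x`, `xv`, `xu`, `xvu` would exhaust `W`
    set c := g (x * x) with hcdef
    have hs : ∀ s : X, x * x * (s * s) * ⁅x, s⁆ = 1 → (s = 1 ∨ s = v ∨ s = u ∨ s = v * u) → False := by
      intro s he hs
      have hxs : x * s ∈ W X := hinv _ (by rw [h.sq_mul]; exact he)
      have hsK : s ∈ K := by
        refine ⟨Subgroup.mem_centralizer_singleton_iff.2 ?_, Subgroup.mem_centralizer_singleton_iff.2 ?_⟩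
        · rcases hs with rfl | rfl | rfl | rfl
          · simp
          · rfl
          · exact huC
          · rw [mul_assoc, huC]
        · rcases hs with rfl | rfl | rfl | rfl
          · simp
          · exact huC.symm
          · rfl
          · rw [← mul_assoc, huC]
      refine hx ?_
      rw [show x = x * s * s⁻¹ by group]
      exact K.mul_mem ⟨Subgroup.mem_centralizer_singleton_iff.2 (W_comm hxs v).symm,
        Subgroup.mem_centralizer_singleton_iff.2 (W_comm hxs u).symm⟩ (K.inv_mem hsK)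
    have hxx : x * x = f c := (hg _ (h.sq_mem_W x)).symm
    have q0 : c ≠ (false, false) := fun e => hs 1 (by rw [hxx, e]; simp [f]) (Or.inl rfl)
    have q1 : c ≠ bx p (true, false) := fun e => hs v (by
      rw [hxx, e, fadd, ← ha, ← hg _ pW, ← hp, show f (true, false) = a by simp [f]]
      calc f p * a * a * f p = f p * (a * a) * f p := by group
        _ = 1 := by rw [sqv.2, mul_one]; exact (fW p).2) (Or.inr (Or.inl rfl))
    have q2 : c ≠ bx r (false, true) := fun e => hs u (by
      rw [hxx, e, fadd, ← hb, ← hg _ rW, ← hr, show f (false, true) = b by simp [f]]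
      calc f r * b * b * f r = f r * (b * b) * f r := by group
        _ = 1 := by rw [hbW.2, mul_one]; exact (fW r).2) (Or.inr (Or.inr (Or.inl rfl)))
    have q3 : c ≠ bx (bx p r) (true, true) := fun e => hs (v * u) (by
      rw [hxx, e, fadd, fadd, h.comm_mul_right, sq_mul_of_comm huC.symm, ← ha, ← hb, ← hg _ pW,
        ← hg _ rW, ← hp, ← hr, show f (true, true) = a * b by simp [f]]
      calc f p * f r * (a * b) * (a * b) * (f p * f r) = f p * f r * ((a * b) * (a * b)) * (f p * f r) := by group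
        _ = 1 := by rw [(mul_mem sqv hbW).2, mul_one]; exact (mul_mem (fW p) (fW r)).2)
      (Or.inr (Or.inr (Or.inr rfl)))
    exact not_ok_cases p r c hnz hno q0 q1 q2 q3
  -- three elements independent modulo `K`
  have hKW : W X ≤ K := fun z hz => ⟨Subgroup.mem_centralizer_singleton_iff.2 (W_comm hz v).symm,
    Subgroup.mem_centralizer_singleton_iff.2 (W_comm hz u).symm⟩
  have hKn : K.Normal := ⟨fun k hk y => by
    rw [show y * k * y⁻¹ = ⁅y, k⁆ * k by rw [commutatorElement_def]; group]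
    exact K.mul_mem (hKW (h.comm_mem_W y k)) hk⟩
  have hQcard : 4 < Nat.card (X ⧸ K) := by
    by_contra hh
    have e := K.card_eq_card_quotient_mul_card_subgroup
    have := Nat.mul_le_mul (not_lt.1 hh) hKcard
    rw [hW] at this
    omega
  obtain ⟨q1, h1⟩ : ∃ q : X ⧸ K, q ≠ 1 := by
    by_contra hh
    push Not at hh
    have : Subsingleton (X ⧸ K) := ⟨fun p q => (hh p).trans (hh q).symm⟩
    have := Finite.card_le_one_iff_subsingleton.2 this
    omega
  obtain ⟨q2, h2a, h2b⟩ : ∃ q : X ⧸ K, q ≠ 1 ∧ q ≠ q1 := by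
    by_contra hh
    push Not at hh
    have : Nat.card (X ⧸ K) ≤ Nat.card Bool :=
      Nat.card_le_card_of_surjective (fun t : Bool => if t then q1 else 1) fun q => by
        by_cases e : q = 1
        · exact ⟨false, e.symm⟩
        · exact ⟨true, (hh q e).symm⟩
    rw [Nat.card_eq_fintype_card (α := Bool), Fintype.card_bool] at this
    omega
  obtain ⟨q3, h3⟩ : ∃ q : X ⧸ K, q ∉ ({1, q1, q2, q1 * q2} : Set (X ⧸ K)) := by
    by_contra hh
    push Not at hh
    have : Nat.card (X ⧸ K) ≤ Nat.card (Fin 4) :=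
      Nat.card_le_card_of_surjective ![1, q1, q2, q1 * q2] fun q => by
        rcases hh q with e | e | e | e
        exacts [⟨0, e.symm⟩, ⟨1, e.symm⟩, ⟨2, e.symm⟩, ⟨3, e.symm⟩]
    rw [Nat.card_fin] at this
    omega
  obtain ⟨x1, rfl⟩ := QuotientGroup.mk_surjective q1
  obtain ⟨x2, rfl⟩ := QuotientGroup.mk_surjective q2
  obtain ⟨x3, rfl⟩ := QuotientGroup.mk_surjective q3
  simp only [Set.mem_insert_iff, Set.mem_singleton_iff, not_or, ← QuotientGroup.mk_mul] at h3
  have notK : ∀ {y : X}, (QuotientGroup.mk y : X ⧸ K) ≠ 1 → y ∉ K := fun hy hh =>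
    hy ((QuotientGroup.eq_one_iff _).2 hh)
  have hsq : ∀ y : X, (QuotientGroup.mk y : X ⧸ K)⁻¹ = QuotientGroup.mk y := fun y => by
    rw [inv_eq_iff_mul_eq_one, ← QuotientGroup.mk_mul, QuotientGroup.eq_one_iff]
    exact hKW (h.sq_mem_W y)
  have n12 : x1 * x2 ∉ K := fun hh => h2b (by
    have e := (QuotientGroup.eq_one_iff (N := K) _).2 hh
    rw [QuotientGroup.mk_mul] at e
    rw [eq_inv_of_mul_eq_one_right e, hsq])
  have n13 : x1 * x3 ∉ K := fun hh => h3.2.1 (by
    have e := (QuotientGroup.eq_one_iff (N := K) _).2 hh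
    rw [QuotientGroup.mk_mul] at e
    rw [eq_inv_of_mul_eq_one_right e, hsq])
  have n23 : x2 * x3 ∉ K := fun hh => h3.2.2.1 (by
    have e := (QuotientGroup.eq_one_iff (N := K) _).2 hh
    rw [QuotientGroup.mk_mul] at e
    rw [eq_inv_of_mul_eq_one_right e, hsq])
  have n123 : x1 * x2 * x3 ∉ K := fun hh => h3.2.2.2 (by
    have e := (QuotientGroup.eq_one_iff (N := K) _).2 hh
    rw [QuotientGroup.mk_mul] at e
    rw [eq_inv_of_mul_eq_one_right e, hsq])
  have gm : ∀ y z w, g ⁅y * z, w⁆ = bx (g ⁅y, w⁆) (g ⁅z, w⁆) := fun y z w => by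
    rw [h.comm_mul_left, gadd (h.comm_mem_W _ _) (h.comm_mem_W _ _)]
  have t1 := hok x1 (notK h1)
  have t2 := hok x2 (notK h2a)
  have t3 := hok x3 (notK h3.1)
  have t12 := hok _ n12
  have t13 := hok _ n13
  have t23 := hok _ n23
  have t123 := hok _ n123
  simp only [gm] at t12 t13 t23 t123
  have := no_three (g ⁅x1, v⁆) (g ⁅x1, u⁆) (g ⁅x2, v⁆) (g ⁅x2, u⁆) (g ⁅x3, v⁆) (g ⁅x3, u⁆)
  rw [t1, t2, t3, t12, t13, t23, t123] at this
  exact absurd this (by decide)

/-- An elementary abelian subgroup containing `W` has order at most four. -/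
theorem no_eight (E : Subgroup X) (hE : ∀ a ∈ E, a * a = 1) (hWE : W X ≤ E) : Nat.card E ≤ 4 :=
  h.small E ⟨fun e he g => by
    rw [show g * e * g⁻¹ = ⁅g, e⁆ * e by rw [commutatorElement_def]; group]
    exact mul_mem (hWE (h.comm_mem_W g e)) he⟩ hE

/-- The case of a centre of order two. -/
theorem two_case (hW : Nat.card (W X) = 2) :
    Nonempty (X ≃* QuaternionGroup 2) ∨
      (Nat.card X = 32 ∧ Nat.card {x : X // orderOf x = 2} = 11) := by
  classical
  obtain ⟨k, hk⟩ := h.index_pow
  rw [hW] at hk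
  have h8 : 4 * 2 ≤ Nat.card X := hW ▸ h.four_mul_le
  by_cases hX8 : Nat.card X = 8
  · exact Or.inl (h.quaternion_of_card_eight hX8)
  right
  have hne16 : Nat.card X ≠ 16 := fun e => h.card_ne_eight_mul (by rw [e, hW])
  have h32 : 32 ≤ Nat.card X := by
    rcases Nat.lt_or_ge k 4 with h4 | h4
    · interval_cases k <;> omega
    · have := Nat.pow_le_pow_right (n := 2) two_pos h4; omega
  obtain ⟨z, hz, hz1⟩ := h.W_ne_bot
  have hWz : ∀ y ∈ W X, y = 1 ∨ y = z := by
    intro y hy
    by_contra hh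
    push Not at hh
    have h3 : ({1, z, y} : Finset X).card = 3 := by
      simp [Finset.card_insert_of_notMem, hz1.symm, Ne.symm hh.1, Ne.symm hh.2]
    have h4 : (({1, z, y} : Finset X) : Set X) ⊆ (W X : Set X) := by
      intro t ht
      simp at ht
      rcases ht with rfl | rfl | rfl
      · exact one_mem _
      · exact hz
      · exact hy
    have h5 := Set.ncard_le_ncard h4 (Set.toFinite _)
    rw [Set.ncard_coe_finset, h3, ← Nat.card_coe_set_eq] at h5
    have : Nat.card (W X : Set X) = 2 := hW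
    omega
  have hCv := fun v => h.card_le_centralizer v
  simp only [hW] at hCv
  -- a noncentral involution
  obtain ⟨v, hv2, hvW⟩ : ∃ v : X, v * v = 1 ∧ v ∉ W X := by
    by_contra hc
    push Not at hc
    obtain ⟨a, b, hab⟩ := h.nonab
    have haW : a ∉ W X := fun hh => hab (W_comm hh b).symm
    have hcov : ∀ x ∈ Subgroup.centralizer ({a} : Set X), x ∈ W X ∨ (∃ y ∈ W X, x = a * y) ∨
        (∃ y ∈ W X, x = a * y) ∨ ∃ y ∈ W X, x = a * a * y := by
      intro x hx
      by_cases hxW : x ∈ W X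
      · exact Or.inl hxW
      refine Or.inr (Or.inl ⟨a⁻¹ * x, hc _ ?_, (mul_inv_cancel_left a x).symm⟩)
      have hcx : a⁻¹ * x = x * a⁻¹ :=
        (Commute.inv_left (show Commute a x from (Subgroup.mem_centralizer_singleton_iff.1 hx).symm)).eq
      rw [sq_mul_of_comm hcx]
      rcases hWz _ (h.sq_mem_W x) with e | e
      · exact absurd (hc x e) hxW
      rcases hWz _ (h.sq_mem_W a) with e' | e'
      · exact absurd (hc a e') haW
      rw [e, show a⁻¹ * a⁻¹ = (a * a)⁻¹ by group, e', inv_mul_cancel]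
    have := card_le_four_of_cover hcov
    have := hCv a
    rw [hW] at *
    omega
  set H := Subgroup.centralizer ({v} : Set X) with hH
  have hzv : z ≠ v := fun e => hvW (e ▸ hz)
  have hWH : W X ≤ H := fun y hy => Subgroup.mem_centralizer_singleton_iff.2 (W_comm hy v).symm
  have hvH : v ∈ H := Subgroup.mem_centralizer_singleton_iff.2 rfl
  -- the involutions in `H`
  have hinvH : ∀ u ∈ H, u * u = 1 → u ∈ W X ∨ ∃ y ∈ W X, u = v * y := by
    intro u hu hu2
    by_contra hh
    push Not at hh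
    have cu : u * v = v * u := Subgroup.mem_centralizer_singleton_iff.1 hu
    let E : Subgroup X := Subgroup.closure ((W X : Set X) ∪ {v, u})
    have hgenc : ∀ p ∈ ((W X : Set X) ∪ {v, u}), ∀ r ∈ ((W X : Set X) ∪ {v, u}), p * r = r * p := by
      rintro p (hp | rfl | rfl) r (hr | rfl | rfl)
      all_goals first
        | rfl
        | exact cu
        | exact cu.symm
        | exact (W_comm hp _).symm
        | exact W_comm hr _
    have hEc : ∀ a ∈ E, ∀ b ∈ E, a * b = b * a := by
      intro p hp r hr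
      have h1 : E ≤ Subgroup.centralizer ((W X : Set X) ∪ {v, u}) := (Subgroup.closure_le _).2 fun a ha =>
        Subgroup.mem_centralizer_iff.2 fun c hc => hgenc c hc a ha
      have h2 : E ≤ Subgroup.centralizer (E : Set X) := (Subgroup.closure_le _).2 fun a ha =>
        Subgroup.mem_centralizer_iff.2 fun b hb => (Subgroup.mem_centralizer_iff.1 (h1 hb) a ha).symm
      exact Subgroup.mem_centralizer_iff.1 (h2 hr) p hp
    have hE2 : ∀ a ∈ E, a * a = 1 := by
      intro a ha
      induction ha using Subgroup.closure_induction with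
      | mem g hg => rcases hg with hg | rfl | rfl; exacts [hg.2, hv2, hu2]
      | one => simp
      | mul p r hp hr ihp ihr => rw [sq_mul_of_comm (hEc p hp r hr), ihp, ihr, one_mul]
      | inv p _ ihp => rw [← mul_inv_rev, ihp, inv_one]
    have hsmall := h.no_eight E hE2 fun y hy => Subgroup.subset_closure (Or.inl hy)
    have hzE : z ∈ E := Subgroup.subset_closure (Or.inl hz)
    have hvE : v ∈ E := Subgroup.subset_closure (Or.inr (by simp))
    have huE : u ∈ E := Subgroup.subset_closure (Or.inr (by simp))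
    have hu1 : u ≠ 1 := fun e => hh.1 (e ▸ one_mem _)
    have huz : u ≠ z := fun e => hh.1 (e ▸ hz)
    have huv : u ≠ v := fun e => hh.2 1 (one_mem _) (by rw [e, mul_one])
    have huvz : u ≠ v * z := hh.2 z hz
    have hv1 : v ≠ 1 := fun e => hvW (e ▸ one_mem _)
    have hvz1 : v * z ≠ 1 := fun e => hvW (by
      rw [eq_inv_of_mul_eq_one_left e]; exact inv_mem hz)
    have h5 : ({1, z, v, v * z, u} : Finset X).card = 5 := by
      simp [Finset.card_insert_of_notMem, hz1.symm, hu1.symm, huz.symm, huv.symm, huvz.symm, hzv,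
        hv1.symm, hv1, hvz1.symm, hz1]
    have hsub : (({1, z, v, v * z, u} : Finset X) : Set X) ⊆ (E : Set X) := by
      intro t ht
      simp at ht
      rcases ht with rfl | rfl | rfl | rfl | rfl
      exacts [one_mem _, hzE, hvE, mul_mem hvE hzE, huE]
    have h6 := Set.ncard_le_ncard hsub (Set.toFinite _)
    rw [Set.ncard_coe_finset, h5, ← Nat.card_coe_set_eq] at h6
    have : Nat.card (E : Set X) ≤ 4 := hsmall
    omega
  -- `|H| ≤ 16`
  have hH16 : Nat.card H ≤ 16 := by
    by_cases hne : ∃ u ∈ H, u * u ≠ 1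
    · obtain ⟨u, hu, hu2⟩ := hne
      have hu2z : u * u = z := (hWz _ (h.sq_mem_W u)).resolve_left hu2
      let g : H →* W X := MonoidHom.mk' (fun x => ⟨⁅(x : X), u⁆, h.comm_mem_W _ _⟩)
        (fun a b => Subtype.ext (h.comm_mul_left a b u))
      have hker : Nat.card g.ker ≤ 4 * Nat.card (W X) := by
        rw [Nat.card_congr (g.ker.equivMapOfInjective H.subtype H.subtype_injective).toEquiv]
        refine card_le_four_of_cover (v := v) (u := u) ?_
        rintro _ ⟨⟨x, hx⟩, hxk, rfl⟩
        show x ∈ W X ∨ _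
        have cxu : x * u = u * x :=
          (commutatorElement_eq_one_iff_commute.1 (congrArg Subtype.val hxk)).eq
        rcases hWz _ (h.sq_mem_W x) with e | e
        · rcases hinvH x hx e with h' | h'
          · exact Or.inl h'
          · exact Or.inr (Or.inl h')
        · have hs : u⁻¹ * x * (u⁻¹ * x) = 1 := by
            rw [sq_mul_of_comm (Commute.inv_left (show Commute u x from cxu.symm)).eq, e,
              show u⁻¹ * u⁻¹ = (u * u)⁻¹ by group, hu2z, inv_mul_cancel]
          rcases hinvH _ (mul_mem (inv_mem hu) hx) hs with h' | ⟨y, hy, e'⟩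
          · exact Or.inr (Or.inr (Or.inl ⟨_, h', (mul_inv_cancel_left u x).symm⟩))
          · refine Or.inr (Or.inr (Or.inr ⟨y, hy, ?_⟩))
            show x = v * u * y
            calc x = u * (u⁻¹ * x) := (mul_inv_cancel_left u x).symm
              _ = u * v * y := by rw [e', mul_assoc]
              _ = v * u * y := by rw [show u * v = v * u from Subgroup.mem_centralizer_singleton_iff.1 hu]
      rw [g.ker.card_eq_card_quotient_mul_card_subgroup]
      have hi : Nat.card (H ⧸ g.ker) ≤ 2 := by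
        rw [Nat.card_congr (QuotientGroup.quotientKerEquivRange g).toEquiv, ← hW]
        exact Subgroup.card_le_card_group _
      rw [hW] at hker
      exact Nat.mul_le_mul hi hker
    · push Not at hne
      exact (h.no_eight H hne hWH).trans (by norm_num)
  have hCv' := hCv v
  rw [← hH] at hCv'
  have hH' : Nat.card H = 16 := by omega
  have hX : Nat.card X = 32 := by omega
  refine ⟨hX, ?_⟩
  -- counting
  have hout : ∀ x, x ∉ H → (x * v * (x * v) = 1 ↔ x * x ≠ 1) ∧ x * v ∉ H := by
    intro x hx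
    have hc : ⁅x, v⁆ = z := (hWz _ (h.comm_mem_W x v)).resolve_left fun e => hx
      (Subgroup.mem_centralizer_singleton_iff.2 (commutatorElement_eq_one_iff_commute.1 e).eq)
    refine ⟨?_, fun hh => hx (by
      rw [show x = x * v * v⁻¹ by group]; exact H.mul_mem hh (H.inv_mem hvH))⟩
    rw [h.sq_mul, hv2, mul_one, hc]
    rcases hWz _ (h.sq_mem_W x) with e | e <;> rw [e]
    · simp [hz1]
    · simp [hz.2, hz1]
  let S1 := {x : X // x ∉ H ∧ x * x = 1}
  let S0 := {x : X // x ∉ H ∧ x * x ≠ 1}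
  have hvv : ∀ x : X, x * v * v = x := fun x => by rw [mul_assoc, hv2, mul_one]
  have e01 : S1 ≃ S0 :=
    { toFun := fun x => ⟨x.1 * v, (hout _ x.2.1).2, fun e => ((hout _ x.2.1).1.1 e) x.2.2⟩
      invFun := fun x => ⟨x.1 * v, (hout _ x.2.1).2, (hout _ x.2.1).1.2 x.2.2⟩
      left_inv := fun x => Subtype.ext (hvv x.1)
      right_inv := fun x => Subtype.ext (hvv x.1) }
  have hsum : Nat.card S1 + Nat.card S0 = 16 := by
    have e : S1 ⊕ S0 ≃ {x : X // x ∉ H} :=
      { toFun := Sum.elim (fun x => ⟨x.1, x.2.1⟩) (fun x => ⟨x.1, x.2.1⟩)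
        invFun := fun x => if hx : x.1 * x.1 = 1 then Sum.inl ⟨x.1, x.2, hx⟩ else Sum.inr ⟨x.1, x.2, hx⟩
        left_inv := fun s => by rcases s with ⟨x, h1, h2⟩ | ⟨x, h1, h2⟩ <;> simp [h2]
        right_inv := fun x => by by_cases hx : x.1 * x.1 = 1 <;> simp [hx] }
    rw [← Nat.card_sum, Nat.card_congr e]
    have h1 := Nat.card_congr (Equiv.sumCompl fun x => x ∈ H)
    rw [Nat.card_sum, hX] at h1
    have : Nat.card {x // x ∈ H} = 16 := hH'
    omega
  have hS1 : Nat.card S1 = 8 := by
    rw [← Nat.card_congr e01] at hsum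
    omega
  -- the three involutions of `H`
  have hI : {x : X | orderOf x = 2} = ({z, v, v * z} : Set X) ∪ {x | x ∉ H ∧ x * x = 1} := by
    ext x
    simp only [Set.mem_setOf_eq, Set.mem_union, Set.mem_insert_iff, Set.mem_singleton_iff]
    rw [orderOf_eq_iff two_pos]
    constructor
    · rintro ⟨hx, hlt⟩
      rw [pow_two] at hx
      have hx1 : x ≠ 1 := fun e => hlt 1 one_lt_two one_pos (by rw [e, one_pow])
      by_cases hxH : x ∈ H
      · left
        rcases hinvH x hxH hx with h' | ⟨y, hy, rfl⟩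
        · exact Or.inl ((hWz x h').resolve_left hx1)
        · rcases hWz y hy with rfl | rfl
          · exact Or.inr (Or.inl (mul_one v))
          · exact Or.inr (Or.inr rfl)
      · exact Or.inr ⟨hxH, hx⟩
    · intro hx
      have hx2 : x * x = 1 := by
        rcases hx with (rfl | rfl | rfl) | h'
        · exact hz.2
        · exact hv2
        · rw [sq_mul_of_comm (W_comm hz v), hv2, hz.2, one_mul]
        · exact h'.2
      have hx1 : x ≠ 1 := by
        rintro rfl
        rcases hx with (e | e | e) | h'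
        · exact hz1 e.symm
        · exact hvW (e ▸ one_mem _)
        · exact hvW (by rw [eq_inv_of_mul_eq_one_left e.symm]; exact inv_mem hz)
        · exact h'.1 (one_mem _)
      refine ⟨by rw [pow_two, hx2], fun m hm hm0 => ?_⟩
      rw [show m = 1 by omega, pow_one]; exact hx1
  show Nat.card ({x : X | orderOf x = 2} : Set X) = 11
  rw [Nat.card_coe_set_eq, hI, Set.ncard_union_eq ?_ (Set.toFinite _) (Set.toFinite _)]
  · have h3 : ({z, v, v * z} : Set X).ncard = 3 := by
      rw [Set.ncard_insert_of_notMem ?_ (Set.toFinite _), Set.ncard_pair]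
      · intro e
        exact hz1 (mul_eq_left.1 e.symm)
      · simp only [Set.mem_insert_iff, Set.mem_singleton_iff, not_or]
        exact ⟨hzv, fun e => hvW (by
          have : v = 1 := mul_eq_right.1 e.symm
          rw [this]; exact one_mem _)⟩
    rw [h3, ← Nat.card_coe_set_eq]
    show 3 + Nat.card S1 = 11
    omega
  · rw [Set.disjoint_left]
    intro x hx hx'
    simp only [Set.mem_insert_iff, Set.mem_singleton_iff] at hx
    rcases hx with rfl | rfl | rfl
    · exact hx'.1 (hWH hz)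
    · exact hx'.1 hvH
    · exact hx'.1 (H.mul_mem hvH (hWH hz))

/-- The classification. -/
theorem classify :
    Nonempty (X ≃* QuaternionGroup 2) ∨
      (Cfsg.IsSpecial 2 X ∧ Nat.card X = 64 ∧ Nat.card {x : X // orderOf x = 2} = 3 ∧
        ∀ x : X, orderOf x = 2 → x ∈ Subgroup.center X) ∨
      (Cfsg.IsExtraspecial 2 X ∧ Nat.card X = 32 ∧ Nat.card {x : X // orderOf x = 2} = 11) := by
  rcases h.card_W_two_or_four with hW | hW
  · rcases h.two_case hW with hq | ⟨h1, h2⟩
    · exact Or.inl hq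
    · exact Or.inr (Or.inr ⟨⟨h.isSpecial, by rw [h.center_eq.1, hW]⟩, h1, h2⟩)
  · exact Or.inr (Or.inl ⟨h.isSpecial, h.four_case hW⟩)

end Hyp

end CfsgLib.ClassTech.NoScn
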