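import Mathlib

/-!
Groups of order 320 with derived subgroup of order 64 and a Klein centre in it: generators, relations and
the resulting universal property.
-/

set_option autoImplicit false

namespace CfsgLib.ClassTech.Order320

open scoped commutatorElement

variable {G : Type*} [Group G]

/-- The conjugates of `d` under powers of `x`. -/
def dd (x d : G) (i : ℕ) : G := x ^ i * d * (x ^ i)⁻¹

/-- The relations of `2^{2+4}:5`. -/
structure Rel (x d : G) : Prop where
  x5 : x ^ 5 = 1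
  cx1 : Commute ⁅d, dd x d 1⁆ x
  cx2 : Commute ⁅d, dd x d 2⁆ x
  cd1 : Commute ⁅d, dd x d 1⁆ d
  cd2 : Commute ⁅d, dd x d 2⁆ d
  s1 : ⁅d, dd x d 1⁆ * ⁅d, dd x d 1⁆ = 1
  s2 : ⁅d, dd x d 2⁆ * ⁅d, dd x d 2⁆ = 1
  sq : d * d = ⁅d, dd x d 1⁆ * ⁅d, dd x d 2⁆
  e3 : ⁅d, dd x d 3⁆ = ⁅d, dd x d 2⁆
  e4 : dd x d 4 = d * dd x d 1 * dd x d 2 * dd x d 3

theorem map_dd {H : Type*} [Group H] (f : G →* H) (x d : G) (i : ℕ) :
    f (dd x d i) = dd (f x) (f d) i := by
  simp [dd]

theorem Rel.prod {H : Type*} [Group H] {x d : G} {y e : H} (h : Rel x d) (k : Rel y e) :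
    Rel (x, y) (d, e) := by
  have hc : ∀ i, ⁅((d, e) : G × H), dd (x, y) (d, e) i⁆ = (⁅d, dd x d i⁆, ⁅e, dd y e i⁆) := fun i =>
    Prod.ext
      (by rw [← MonoidHom.coe_fst, map_commutatorElement, map_dd]; rfl)
      (by rw [← MonoidHom.coe_snd, map_commutatorElement, map_dd]; rfl)
  refine ⟨Prod.ext h.x5 k.x5, ?_, ?_, ?_, ?_, ?_, ?_, ?_, ?_, ?_⟩
  · rw [hc]; exact Prod.ext h.cx1.eq k.cx1.eq
  · rw [hc]; exact Prod.ext h.cx2.eq k.cx2.eq
  · rw [hc]; exact Prod.ext h.cd1.eq k.cd1.eq
  · rw [hc]; exact Prod.ext h.cd2.eq k.cd2.eq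
  · rw [hc]; exact Prod.ext h.s1 k.s1
  · rw [hc]; exact Prod.ext h.s2 k.s2
  · rw [hc, hc]; exact Prod.ext h.sq k.sq
  · rw [hc, hc]; exact Prod.ext h.e3 k.e3
  · exact Prod.ext h.e4 k.e4

theorem mem_normalizer_closure [Finite G] {S : Set G} {a : G}
    (h : ∀ s ∈ S, a * s * a⁻¹ ∈ Subgroup.closure S) :
    a ∈ Subgroup.normalizer ((Subgroup.closure S : Subgroup G) : Set G) := by
  have hle : (Subgroup.closure S).map (MulAut.conj a).toMonoidHom ≤ Subgroup.closure S := by
    rw [MonoidHom.map_closure, Subgroup.closure_le]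
    rintro _ ⟨s, hs, rfl⟩
    exact h s hs
  have heq : (Subgroup.closure S).map (MulAut.conj a).toMonoidHom = Subgroup.closure S :=
    Subgroup.eq_of_le_of_card_ge hle
      (le_of_eq (Nat.card_congr ((Subgroup.closure S).equivMapOfInjective _
        (MulAut.conj a).injective).toEquiv))
  refine Subgroup.mem_normalizer_iff.2 fun g => ⟨fun hg => hle ⟨g, hg, rfl⟩, fun hg => ?_⟩
  have hg' : a * g * a⁻¹ ∈ (Subgroup.closure S).map (MulAut.conj a).toMonoidHom := heq.symm ▸ hg
  obtain ⟨k, hk, e⟩ := hg'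
  have : k = g := by
    simp only [MulEquiv.coe_toMonoidHom, MulAut.conj_apply] at e
    exact mul_left_cancel (mul_right_cancel e)
  rwa [← this]

theorem card_sup_zpowers_le [Finite G] {K : Subgroup G} {a : G} {n : ℕ} (hn : 0 < n)
    (ha : a ∈ Subgroup.normalizer (K : Set G)) (hp : a ^ n ∈ K) :
    Nat.card (K ⊔ Subgroup.zpowers a : Subgroup G) ≤ n * Nat.card K := by
  have hmul := Subgroup.coe_mul_of_right_le_normalizer_left K (Subgroup.zpowers a)
    (Subgroup.zpowers_le.2 ha)
  let f : K × Fin n → G := fun p => (p.1 : G) * a ^ (p.2 : ℕ)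
  have hsub : ((K ⊔ Subgroup.zpowers a : Subgroup G) : Set G) ⊆ Set.range f := by
    intro g hg
    rw [hmul] at hg
    obtain ⟨k, hk, z, hz, rfl⟩ := hg
    obtain ⟨j, rfl⟩ := (mem_powers_iff_mem_zpowers (x := a)).2 hz
    refine ⟨(⟨k * (a ^ n) ^ (j / n), mul_mem hk (pow_mem hp _)⟩, ⟨j % n, Nat.mod_lt _ hn⟩), ?_⟩
    simp only [f]
    rw [mul_assoc, ← pow_mul, ← pow_add, Nat.div_add_mod]
  calc Nat.card (K ⊔ Subgroup.zpowers a : Subgroup G)
      ≤ Nat.card (Set.range f) := Nat.card_mono (Set.toFinite _) hsub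
    _ ≤ Nat.card (K × Fin n) := Finite.card_range_le f
    _ = n * Nat.card K := by rw [Nat.card_prod, Nat.card_fin, mul_comm]

namespace Rel

variable {x d : G} (h : Rel x d)

/-- The subgroup generated by the two basic commutators. -/
def centre (x d : G) : Subgroup G := Subgroup.closure {⁅d, dd x d 1⁆, ⁅d, dd x d 2⁆}

theorem conj_dd (x d : G) (i j : ℕ) : x ^ i * dd x d j * (x ^ i)⁻¹ = dd x d (i + j) := by
  simp only [dd, pow_add]; group

include h

theorem commute_dd {c : G} (hx : Commute c x) (hd : Commute c d) (i : ℕ) :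
    Commute c (dd x d i) :=
  ((hx.pow_right i).mul_right hd).mul_right (hx.pow_right i).inv_right

theorem comm_dd {k : ℕ} (hc : Commute ⁅d, dd x d k⁆ x) (i : ℕ) :
    ⁅dd x d i, dd x d (i + k)⁆ = ⁅d, dd x d k⁆ := by
  have he : ⁅dd x d i, dd x d (i + k)⁆ = x ^ i * ⁅d, dd x d k⁆ * (x ^ i)⁻¹ := by
    rw [← conj_dd x d i k]; simp only [dd, commutatorElement_def]; group
  rw [he, ← (hc.pow_right i).eq]; group

theorem comm_one (i : ℕ) : ⁅dd x d i, dd x d (i + 1)⁆ = ⁅d, dd x d 1⁆ := h.comm_dd h.cx1 i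

theorem comm_two (i : ℕ) : ⁅dd x d i, dd x d (i + 2)⁆ = ⁅d, dd x d 2⁆ := h.comm_dd h.cx2 i

theorem comm_three (i : ℕ) : ⁅dd x d i, dd x d (i + 3)⁆ = ⁅d, dd x d 2⁆ :=
  (h.comm_dd (by rw [h.e3]; exact h.cx2) i).trans h.e3

theorem dd_sq (i : ℕ) : dd x d i * dd x d i = ⁅d, dd x d 1⁆ * ⁅d, dd x d 2⁆ := by
  have hc : Commute (⁅d, dd x d 1⁆ * ⁅d, dd x d 2⁆) (x ^ i) :=
    (h.cx1.mul_left h.cx2).pow_right i
  have he : dd x d i * dd x d i = x ^ i * (d * d) * (x ^ i)⁻¹ := by simp only [dd]; group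
  rw [he, h.sq, ← hc.eq]; group

theorem card_closure_le [Finite G] :
    Nat.card (Subgroup.closure {x, d}) ≤ 80 * Nat.card (centre x d) := by
  set c1 := ⁅d, dd x d 1⁆ with hc1
  set c2 := ⁅d, dd x d 2⁆ with hc2
  have hm1 : c1 ∈ centre x d := Subgroup.subset_closure (Set.mem_insert _ _)
  have hm2 : c2 ∈ centre x d := Subgroup.subset_closure (Set.mem_insert_of_mem _ rfl)
  have hmem : ∀ S : Set G, centre x d ≤ Subgroup.closure ({c1, c2} ∪ S) :=
    fun S => Subgroup.closure_mono Set.subset_union_left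
  let K : ℕ → Subgroup G := fun m => Subgroup.closure ({c1, c2} ∪ {g | ∃ i < m, g = dd x d i})
  have hK0 : K 0 ≤ centre x d := by
    refine (Subgroup.closure_le _).2 ?_
    rintro g (hg | ⟨i, hi, -⟩)
    · exact Subgroup.subset_closure hg
    · exact absurd hi (Nat.not_lt_zero i)
  have hKs : ∀ m, K (m + 1) ≤ K m ⊔ Subgroup.zpowers (dd x d m) := by
    intro m
    refine (Subgroup.closure_le _).2 ?_
    rintro g (hg | ⟨i, hi, rfl⟩)
    · exact Subgroup.mem_sup_left (Subgroup.subset_closure (Or.inl hg))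
    · rcases Nat.lt_succ_iff_lt_or_eq.1 hi with hi' | rfl
      · exact Subgroup.mem_sup_left (Subgroup.subset_closure (Or.inr ⟨i, hi', rfl⟩))
      · exact Subgroup.mem_sup_right (Subgroup.mem_zpowers _)
  have hbr : ∀ i j, i < j → j ≤ 3 → ⁅dd x d i, dd x d j⁆ ∈ centre x d := by
    intro i j hij hj
    obtain rfl | rfl | rfl : j = i + 1 ∨ j = i + 2 ∨ j = i + 3 := by omega
    · rw [h.comm_one]; exact hm1
    · rw [h.comm_two]; exact hm2
    · rw [h.comm_three]; exact hm2
  have hstep : ∀ m ≤ 3, Nat.card (K (m + 1)) ≤ 2 * Nat.card (K m) := by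
    intro m hm
    refine le_trans (Subgroup.card_le_of_le (hKs m)) (card_sup_zpowers_le two_pos ?_ ?_)
    · refine mem_normalizer_closure ?_
      rintro s ((rfl | rfl) | ⟨i, hi, rfl⟩)
      · rw [← (commute_dd h h.cx1 h.cd1 m).eq, mul_assoc, mul_inv_cancel, mul_one]
        exact Subgroup.subset_closure (Or.inl (Set.mem_insert _ _))
      · rw [← (commute_dd h h.cx2 h.cd2 m).eq, mul_assoc, mul_inv_cancel, mul_one]
        exact Subgroup.subset_closure (Or.inl (Set.mem_insert_of_mem _ rfl))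
      · have e : dd x d m * dd x d i * (dd x d m)⁻¹ = (⁅dd x d i, dd x d m⁆)⁻¹ * dd x d i := by
          rw [commutatorElement_def]; group
        rw [e]
        exact mul_mem (inv_mem (hmem _ (hbr i m hi hm)))
          (Subgroup.subset_closure (Or.inr ⟨i, hi, rfl⟩))
    · rw [pow_two, h.dd_sq]
      exact hmem _ (mul_mem hm1 hm2)
  have hK4 : Nat.card (K 4) ≤ 16 * Nat.card (centre x d) := by
    have := Subgroup.card_le_of_le hK0
    have := hstep 0 (by norm_num); have := hstep 1 (by norm_num)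
    have := hstep 2 (by norm_num); have := hstep 3 (by norm_num)
    simp only [Nat.reduceAdd] at *
    omega
  have hxN : x ∈ Subgroup.normalizer ((K 4 : Subgroup G) : Set G) := by
    refine mem_normalizer_closure ?_
    rintro s ((rfl | rfl) | ⟨i, hi, rfl⟩)
    · rw [← h.cx1.eq, mul_assoc, mul_inv_cancel, mul_one]
      exact Subgroup.subset_closure (Or.inl (Set.mem_insert _ _))
    · rw [← h.cx2.eq, mul_assoc, mul_inv_cancel, mul_one]
      exact Subgroup.subset_closure (Or.inl (Set.mem_insert_of_mem _ rfl))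
    · have e := conj_dd x d 1 i
      rw [pow_one] at e
      rw [e, add_comm]
      rcases Nat.lt_succ_iff_lt_or_eq.1 hi with hi' | rfl
      · exact Subgroup.subset_closure (Or.inr ⟨i + 1, by omega, rfl⟩)
      · rw [h.e4]
        refine mul_mem (mul_mem (mul_mem ?_ ?_) ?_) ?_
        · exact Subgroup.subset_closure (Or.inr ⟨0, by norm_num, by simp [dd]⟩)
        · exact Subgroup.subset_closure (Or.inr ⟨1, by norm_num, rfl⟩)
        · exact Subgroup.subset_closure (Or.inr ⟨2, by norm_num, rfl⟩)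
        · exact Subgroup.subset_closure (Or.inr ⟨3, by norm_num, rfl⟩)
  have hle : Subgroup.closure {x, d} ≤ K 4 ⊔ Subgroup.zpowers x := by
    refine (Subgroup.closure_le _).2 ?_
    rintro g (rfl | rfl)
    · exact Subgroup.mem_sup_right (Subgroup.mem_zpowers _)
    · exact Subgroup.mem_sup_left (Subgroup.subset_closure (Or.inr ⟨0, by norm_num, by simp [dd]⟩))
  have h5 := card_sup_zpowers_le (n := 5) (by norm_num) hxN (by rw [h.x5]; exact one_mem _)
  have := Subgroup.card_le_of_le hle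
  omega

theorem commute_c12 : Commute ⁅d, dd x d 1⁆ ⁅d, dd x d 2⁆ := by
  conv => arg 2; rw [commutatorElement_def]
  have h1 : Commute ⁅d, dd x d 1⁆ d := h.cd1
  have h2 := commute_dd h h.cx1 h.cd1 2
  exact ((h1.mul_right h2).mul_right h1.inv_right).mul_right h2.inv_right

theorem card_centre_le [Finite G] : Nat.card (centre x d) ≤ 4 := by
  have hle : centre x d ≤ Subgroup.zpowers ⁅d, dd x d 1⁆ ⊔ Subgroup.zpowers ⁅d, dd x d 2⁆ := by
    refine (Subgroup.closure_le _).2 ?_
    rintro g (rfl | rfl)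
    · exact Subgroup.mem_sup_left (Subgroup.mem_zpowers _)
    · exact Subgroup.mem_sup_right (Subgroup.mem_zpowers _)
  have hn : ⁅d, dd x d 2⁆ ∈ Subgroup.normalizer
      ((Subgroup.zpowers ⁅d, dd x d 1⁆ : Subgroup G) : Set G) := by
    rw [Subgroup.zpowers_eq_closure]
    refine mem_normalizer_closure ?_
    rintro s rfl
    rw [← (commute_c12 h).eq, mul_assoc, mul_inv_cancel, mul_one]
    exact Subgroup.subset_closure rfl
  have h2 := card_sup_zpowers_le (n := 2) two_pos hn (by rw [pow_two, h.s2]; exact one_mem _)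
  have h1 : Nat.card (Subgroup.zpowers ⁅d, dd x d 1⁆) ≤ 2 := by
    rw [Nat.card_zpowers]
    exact orderOf_le_of_pow_eq_one two_pos (by rw [pow_two, h.s1])
  have := Subgroup.card_le_of_le hle
  omega

theorem card_closure_le' [Finite G] : Nat.card (Subgroup.closure {x, d}) ≤ 320 := by
  have := h.card_closure_le
  have := h.card_centre_le
  omega

/-- In a group of order 320 generated by such a pair, the commutators form a fours group. -/
theorem centre_facts [Finite G] (hcard : Nat.card G = 320) (hgen : Subgroup.closure {x, d} = ⊤) :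
    Nat.card (centre x d) = 4 ∧ ⁅d, dd x d 1⁆ ≠ 1 ∧ ⁅d, dd x d 2⁆ ≠ 1 ∧
      ⁅d, dd x d 1⁆ * ⁅d, dd x d 2⁆ ≠ 1 := by
  have h1 := h.card_closure_le
  rw [hgen, Nat.card_congr Subgroup.topEquiv.toEquiv, hcard] at h1
  have h4 : Nat.card (centre x d) = 4 := le_antisymm h.card_centre_le (by omega)
  have hcyc : ∀ c : G, c * c = 1 → ¬ (centre x d ≤ Subgroup.zpowers c) := fun c hc hle => by
    have := Subgroup.card_le_of_le hle
    rw [Nat.card_zpowers] at this
    have := orderOf_le_of_pow_eq_one two_pos (by rw [pow_two, hc] : c ^ 2 = 1)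
    omega
  refine ⟨h4, fun e => hcyc _ h.s2 ?_, fun e => hcyc _ h.s1 ?_, fun e => hcyc _ h.s1 ?_⟩
  all_goals refine (Subgroup.closure_le _).2 ?_
  all_goals rintro g (rfl | rfl)
  · rw [e]; exact one_mem _
  · exact Subgroup.mem_zpowers _
  · exact Subgroup.mem_zpowers _
  · rw [e]; exact one_mem _
  · exact Subgroup.mem_zpowers _
  · rw [eq_inv_of_mul_eq_one_right e]; exact inv_mem (Subgroup.mem_zpowers _)

/-- Relations of the presentation give a homomorphism out of any realisation of order 320. -/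
theorem exists_hom [Finite G] (hcard : Nat.card G = 320) (hgen : Subgroup.closure {x, d} = ⊤)
    {H : Type*} [Group H] [Finite H] {y e : H} (k : Rel y e) :
    ∃ f : G →* H, f x = y ∧ f d = e := by
  let P : Subgroup (G × H) := Subgroup.closure {(x, y), (d, e)}
  let π : P →* G := (MonoidHom.fst G H).comp P.subtype
  have hsurj : Function.Surjective π := by
    rw [← MonoidHom.range_eq_top, eq_top_iff, ← hgen, Subgroup.closure_le]
    rintro g (rfl | rfl)
    · exact ⟨⟨(_, y), Subgroup.subset_closure (Set.mem_insert _ _)⟩, rfl⟩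
    · exact ⟨⟨(_, e), Subgroup.subset_closure (Set.mem_insert_of_mem _ rfl)⟩, rfl⟩
  have hle : Nat.card P ≤ 320 := (h.prod k).card_closure_le'
  have hbij : Function.Bijective π :=
    hsurj.bijective_of_nat_card_le (by rw [hcard]; exact hle)
  let eqv := MulEquiv.ofBijective π hbij
  refine ⟨((MonoidHom.snd G H).comp P.subtype).comp eqv.symm.toMonoidHom, ?_, ?_⟩
  · have : eqv.symm x = ⟨(x, y), Subgroup.subset_closure (Set.mem_insert _ _)⟩ :=
      eqv.injective (by rw [MulEquiv.apply_symm_apply]; rfl)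
    simp [this]
  · have : eqv.symm d = ⟨(d, e), Subgroup.subset_closure (Set.mem_insert_of_mem _ rfl)⟩ :=
      eqv.injective (by rw [MulEquiv.apply_symm_apply]; rfl)
    simp [this]

end Rel

/-! ### Every such group has such generators -/

/-- A permutation of order dividing five fixes every set with fewer than five elements pointwise. -/
theorem fixed_of_small {α : Type*} [Finite α] (f : α → α) (hf : ∀ a, f^[5] a = a)
    (hα : Nat.card α < 5) (a : α) : f a = a := by
  classical
  rcases (Nat.dvd_prime (by norm_num : Nat.Prime 5)).1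
    (Function.IsPeriodicPt.minimalPeriod_dvd (hf a)) with h | h
  · exact Function.minimalPeriod_eq_one_iff_isFixedPt.1 h
  · exfalso
    have hinj : Function.Injective fun k : Fin 5 => f^[(k : ℕ)] a := fun i j e =>
      Fin.ext (Function.iterate_injOn_Iio_minimalPeriod (by rw [h]; exact i.2) (by rw [h]; exact j.2) e)
    have := Nat.card_le_card_of_injective _ hinj
    rw [Nat.card_fin] at this
    omega

theorem fixed_of_card_le {Q : Type*} [Group Q] [Finite Q] (α : MulAut Q) (hα : ∀ a, α^[5] a = a)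
    (hQ : Nat.card Q ∣ 8) (a : Q) : α a = a := by
  classical
  let Fx : Subgroup Q :=
    { carrier := {q | α q = q}
      one_mem' := map_one α
      mul_mem' := fun {p q} hp hq => by
        show α (p * q) = p * q
        rw [map_mul, show α p = p from hp, show α q = q from hq]
      inv_mem' := fun {p} hp => by
        show α p⁻¹ = p⁻¹
        rw [map_inv, show α p = p from hp] }
  suffices Fx = ⊤ by exact (this ▸ Subgroup.mem_top a : a ∈ Fx)
  by_contra hne
  have hperm : ∀ q, q ∉ Fx → α q ∉ Fx := fun q hq h => hq (α.injective h)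
  let g : {q // q ∉ Fx} → {q // q ∉ Fx} := fun q => ⟨α q.1, hperm q.1 q.2⟩
  have hg : ∀ (k : ℕ) (q : {q // q ∉ Fx}), (g^[k] q).1 = α^[k] q.1 := fun k q => by
    induction k with
    | zero => rfl
    | succ k ih => rw [Function.iterate_succ_apply', Function.iterate_succ_apply', ← ih]
  have h5 : 5 ≤ Nat.card {q // q ∉ Fx} := by
    by_contra hlt
    obtain ⟨q, hq⟩ : ∃ q, q ∉ Fx := by
      by_contra hc
      push Not at hc
      exact hne (eq_top_iff.2 fun q _ => hc q)
    exact hq (congrArg Subtype.val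
      (fixed_of_small g (fun q => Subtype.ext (by rw [hg]; exact hα _)) (by omega) ⟨q, hq⟩))
  have hsum : Nat.card Fx + Nat.card {q // q ∉ Fx} = Nat.card Q := by
    rw [← Nat.card_congr (Equiv.sumCompl (· ∈ Fx)), Nat.card_sum]
  have hdvd := Subgroup.card_subgroup_dvd_card Fx
  have hfix5 : ∀ q : Q, q ∈ Fx ↔ α q = q := fun q => Iff.rfl
  -- the orbits outside have length five, so at most three points are fixed; the count must be a divisor
  have hle : Nat.card Q ≤ 8 := Nat.le_of_dvd (by norm_num) hQ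
  have h9 : Nat.card {q // q ∉ Fx} = 5 := by
    obtain ⟨q, hq⟩ : Nonempty {q // q ∉ Fx} := (Nat.card_pos_iff.1 (by omega)).1
    have hinj : Function.Injective fun k : Fin 5 => g^[(k : ℕ)] ⟨q, hq⟩ := by
      have hmp : Function.minimalPeriod g ⟨q, hq⟩ = 5 := by
        rcases (Nat.dvd_prime (by norm_num : Nat.Prime 5)).1
          (Function.IsPeriodicPt.minimalPeriod_dvd
            (show Function.IsPeriodicPt g 5 ⟨q, hq⟩ from Subtype.ext (by rw [hg]; exact hα _))) with h | h
        · exact absurd (congrArg Subtype.val (Function.minimalPeriod_eq_one_iff_isFixedPt.1 h)) hq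
        · exact h
      exact fun i j e => Fin.ext
        (Function.iterate_injOn_Iio_minimalPeriod (by rw [hmp]; exact i.2) (by rw [hmp]; exact j.2) e)
    by_contra h
    have hcompl : ∀ y : {q // q ∉ Fx}, y ∉ Set.range (fun k : Fin 5 => g^[(k : ℕ)] ⟨q, hq⟩) →
        g y ∉ Set.range (fun k : Fin 5 => g^[(k : ℕ)] ⟨q, hq⟩) := by
      rintro y hy ⟨k, hk⟩
      refine hy ⟨⟨((k : ℕ) + 4) % 5, Nat.mod_lt _ (by norm_num)⟩, ?_⟩
      have hmod : ∀ n : ℕ, g^[n] ⟨q, hq⟩ = g^[n % 5] ⟨q, hq⟩ := fun n =>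
        ((show Function.IsPeriodicPt g 5 ⟨q, hq⟩ from
          Subtype.ext (by rw [hg]; exact hα _)).iterate_mod_apply n).symm
      show g^[((k : ℕ) + 4) % 5] ⟨q, hq⟩ = y
      rw [← hmod, add_comm, Function.iterate_add_apply, show g^[(k : ℕ)] ⟨q, hq⟩ = g y from hk,
        ← Function.iterate_succ_apply]
      exact Subtype.ext (by rw [hg]; exact hα _)
    let R : Set {q // q ∉ Fx} := (Set.range fun k : Fin 5 => g^[(k : ℕ)] ⟨q, hq⟩)ᶜ
    have hR : Nat.card R < 5 := by
      have := Set.ncard_add_ncard_compl (Set.range fun k : Fin 5 => g^[(k : ℕ)] ⟨q, hq⟩)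
      rw [Set.ncard_range_of_injective hinj, Nat.card_fin] at this
      rw [Nat.card_coe_set_eq]
      show (Set.range fun k : Fin 5 => g^[(k : ℕ)] ⟨q, hq⟩)ᶜ.ncard < 5
      omega
    obtain ⟨⟨y, hy⟩⟩ : Nonempty R := by
      refine (Nat.card_pos_iff.1 ?_).1
      have := Set.ncard_add_ncard_compl (Set.range fun k : Fin 5 => g^[(k : ℕ)] ⟨q, hq⟩)
      rw [Set.ncard_range_of_injective hinj, Nat.card_fin] at this
      rw [Nat.card_coe_set_eq]
      show 0 < (Set.range fun k : Fin 5 => g^[(k : ℕ)] ⟨q, hq⟩)ᶜ.ncard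
      omega
    let g' : R → R := fun z => ⟨g z.1, hcompl z.1 z.2⟩
    have hg' : ∀ (k : ℕ) (z : R), (g'^[k] z).1 = g^[k] z.1 := fun k z => by
      induction k with
      | zero => rfl
      | succ k ih => rw [Function.iterate_succ_apply', Function.iterate_succ_apply', ← ih]
    have := fixed_of_small g' (fun z => Subtype.ext (Subtype.ext (by rw [hg', hg]; exact hα _))) hR ⟨y, hy⟩
    exact y.2 (congrArg Subtype.val (congrArg Subtype.val this))
  have h8 : Nat.card Q ∈ Nat.divisors 8 := Nat.mem_divisors.2 ⟨hQ, by norm_num⟩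
  rw [show Nat.divisors 8 = {1, 2, 4, 8} by decide] at h8
  simp only [Finset.mem_insert, Finset.mem_singleton] at h8
  obtain ⟨m, hm⟩ := hdvd
  have : Nat.card Fx = 3 := by omega
  rw [this] at hm
  omega

theorem exists_rel [Finite G] (hG : Nat.card G = 320) (hD : Nat.card (commutator G) = 64)
    (hZ : IsKleinFour (Subgroup.center (commutator G))) :
    ∃ x d : G, Rel x d ∧ Subgroup.closure {x, d} = ⊤ ∧ d ∈ commutator G ∧
      (∀ a ∈ commutator G, ∀ b ∈ commutator G, ⁅a, b⁆ ∈ Rel.centre x d) ∧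
      (∀ c ∈ commutator G, (∀ a ∈ commutator G, a * c = c * a) → c ∈ Rel.centre x d) := by
  have : Fact (Nat.Prime 5) := ⟨by norm_num⟩
  have : Fact (Nat.Prime 2) := ⟨Nat.prime_two⟩
  set D := commutator G with hDdef
  let Z : Subgroup G := (Subgroup.center D).map D.subtype
  have hZ4 : Nat.card Z = 4 := by
    rw [Subgroup.card_map_of_injective D.subtype_injective]; exact hZ.card_four
  have hZD : Z ≤ D := Subgroup.map_subtype_le _
  have hZmem : ∀ c, c ∈ Z ↔ c ∈ D ∧ ∀ a ∈ D, a * c = c * a := by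
    intro c
    constructor
    · rintro ⟨⟨c, hc⟩, hcc, rfl⟩
      exact ⟨hc, fun a ha => congrArg Subtype.val (Subgroup.mem_center_iff.1 hcc ⟨a, ha⟩)⟩
    · rintro ⟨hc, h⟩
      exact ⟨⟨c, hc⟩, Subgroup.mem_center_iff.2 fun a => Subtype.ext (h a a.2), rfl⟩
  have hZ2 : ∀ c ∈ Z, c * c = 1 := by
    rintro _ ⟨c, hc, rfl⟩
    have : (⟨c, hc⟩ : Subgroup.center D) * ⟨c, hc⟩ = 1 := by
      rw [← pow_two, ← hZ.exponent_two]
      exact Monoid.pow_exponent_eq_one _
    exact congrArg (fun u : Subgroup.center D => ((u : D) : G)) this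
  obtain ⟨x, hx⟩ := exists_prime_orderOf_dvd_card' (G := G) 5 (by rw [hG]; norm_num)
  have hx5 : x ^ 5 = 1 := by rw [← hx]; exact pow_orderOf_eq_one x
  have hxD : x ∉ D := fun h => by
    have := orderOf_dvd_natCard (⟨x, h⟩ : D)
    rw [hD, ← Subgroup.orderOf_coe, hx] at this
    norm_num at this
  have hDn : D.Normal := inferInstance
  have hZn : Z.Normal := ⟨fun c hc g => by
    rw [hZmem] at hc ⊢
    refine ⟨hDn.conj_mem c hc.1 g, fun a ha => ?_⟩
    have := hc.2 (g⁻¹ * a * g) (by simpa using hDn.conj_mem a ha g⁻¹)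
    calc a * (g * c * g⁻¹) = g * ((g⁻¹ * a * g) * c) * g⁻¹ := by group
      _ = g * (c * (g⁻¹ * a * g)) * g⁻¹ := by rw [this]
      _ = g * c * g⁻¹ * a := by group⟩
  have hgenD : D ⊔ Subgroup.zpowers x = ⊤ := by
    refine Subgroup.eq_top_of_card_eq _ (Nat.dvd_antisymm (Subgroup.card_subgroup_dvd_card _) ?_)
    have h1 : 64 ∣ Nat.card (D ⊔ Subgroup.zpowers x : Subgroup G) :=
      hD ▸ Subgroup.card_dvd_of_le le_sup_left
    have h2 : 5 ∣ Nat.card (D ⊔ Subgroup.zpowers x : Subgroup G) := by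
      have := Subgroup.card_dvd_of_le (le_sup_right : Subgroup.zpowers x ≤ D ⊔ Subgroup.zpowers x)
      rwa [Nat.card_zpowers, hx] at this
    rw [hG]
    exact Nat.Coprime.mul_dvd_of_dvd_of_dvd (by norm_num : Nat.Coprime 64 5) h1 h2
  -- a proper normal subgroup inside `D` has index at least 16
  have habel : ∀ M : Subgroup G, M.Normal → M ≤ D → (∀ a ∈ D, ∀ b ∈ D, ⁅a, b⁆ ∈ M) →
      (∀ a ∈ D, ⁅x, a⁆ ∈ M) → M = D := by
    intro M hM hMD hc hxa
    refine le_antisymm hMD ?_
    let π := QuotientGroup.mk' M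
    let C : Subgroup (G ⧸ M) := Subgroup.center (G ⧸ M)
    have hdc : ∀ a b : G, ⁅a, b⁆ ∈ M → Commute (π a) (π b) := fun a b h => by
      rw [← commutatorElement_eq_one_iff_commute, ← map_commutatorElement]
      exact (QuotientGroup.eq_one_iff _).2 h
    have hCD : ∀ a ∈ D, π a ∈ C := fun a ha => by
      refine Subgroup.mem_center_iff.2 fun g => ?_
      obtain ⟨g, rfl⟩ := QuotientGroup.mk'_surjective M g
      have hg : g ∈ (Subgroup.centralizer {π a}).comap π := by
        refine (?_ : ⊤ ≤ (Subgroup.centralizer {π a}).comap π) (Subgroup.mem_top g)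
        rw [← hgenD, sup_le_iff, Subgroup.zpowers_le]
        exact ⟨fun b hb => Subgroup.mem_comap.2 (Subgroup.mem_centralizer_singleton_iff.2
            (hdc b a (hc b hb a ha)).eq),
          Subgroup.mem_comap.2 (Subgroup.mem_centralizer_singleton_iff.2 (hdc x a (hxa a ha)).eq)⟩
      exact Subgroup.mem_centralizer_singleton_iff.1 (Subgroup.mem_comap.1 hg)
    have hall : ∀ g h : G, Commute (π g) (π h) := by
      intro g h
      have hx' : ∀ h, Commute (π x) (π h) := fun h => by
        have hh : h ∈ (Subgroup.centralizer {π x}).comap π := by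
          refine (?_ : ⊤ ≤ (Subgroup.centralizer {π x}).comap π) (Subgroup.mem_top h)
          rw [← hgenD, sup_le_iff, Subgroup.zpowers_le]
          exact ⟨fun b hb => Subgroup.mem_comap.2 (Subgroup.mem_centralizer_singleton_iff.2
              (Subgroup.mem_center_iff.1 (hCD b hb) _).symm),
            Subgroup.mem_comap.2 (Subgroup.mem_centralizer_singleton_iff.2 rfl)⟩
        exact (Subgroup.mem_centralizer_singleton_iff.1 (Subgroup.mem_comap.1 hh)).symm
      have hg : g ∈ (Subgroup.centralizer {π h}).comap π := by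
        refine (?_ : ⊤ ≤ (Subgroup.centralizer {π h}).comap π) (Subgroup.mem_top g)
        rw [← hgenD, sup_le_iff, Subgroup.zpowers_le]
        exact ⟨fun b hb => Subgroup.mem_comap.2 (Subgroup.mem_centralizer_singleton_iff.2
            (Subgroup.mem_center_iff.1 (hCD b hb) _).symm),
          Subgroup.mem_comap.2 (Subgroup.mem_centralizer_singleton_iff.2 (hx' h).eq)⟩
      exact Subgroup.mem_centralizer_singleton_iff.1 (Subgroup.mem_comap.1 hg)
    rw [hDdef, commutator_eq_closure, Subgroup.closure_le]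
    rintro _ ⟨g, h, rfl⟩
    refine (QuotientGroup.eq_one_iff _).1 ?_
    show π ⁅g, h⁆ = 1
    rw [map_commutatorElement]
    exact commutatorElement_eq_one_iff_commute.2 (hall g h)
  have hindex : ∀ M : Subgroup G, M.Normal → M ≤ D → M ≠ D → 16 ∣ M.relIndex D := by
    intro M hM hMD hne
    have hdvd : M.relIndex D ∣ 2 ^ 6 := by
      rw [show (2 : ℕ) ^ 6 = 64 by norm_num, ← hD]
      exact Subgroup.relIndex_dvd_card M D
    obtain ⟨k, hk, hek⟩ := (Nat.dvd_prime_pow Nat.prime_two).1 hdvd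
    by_cases hk4 : 4 ≤ k
    · exact hek ▸ pow_dvd_pow 2 hk4
    exfalso
    -- the quotient `D / M`
    let N : Subgroup D := M.subgroupOf D
    have hN : N.Normal := Subgroup.Normal.subgroupOf hM D
    have hQ : Nat.card (D ⧸ N) = 2 ^ k := hek
    let α : MulAut (D ⧸ N) := QuotientGroup.congr N N
      (MulAut.conjNormal x : MulAut D) (by
        ext a
        constructor
        · rintro ⟨b, hb, rfl⟩
          show ((MulAut.conjNormal x b : D) : G) ∈ M
          rw [MulAut.conjNormal_apply]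
          exact hM.conj_mem _ hb x
        · intro ha
          refine ⟨(MulAut.conjNormal x).symm a, ?_, MulEquiv.apply_symm_apply _ _⟩
          show (((MulAut.conjNormal x).symm a : D) : G) ∈ M
          rw [MulAut.conjNormal_symm_apply]
          have := hM.conj_mem _ (show (a : G) ∈ M from ha) x⁻¹
          simpa using this)
    have hαk : ∀ (n : ℕ) (a : D), α^[n] (QuotientGroup.mk a) =
        QuotientGroup.mk (MulAut.conjNormal (x ^ n) a) := fun n a => by
      induction n with
      | zero => simp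
      | succ n ih =>
        rw [Function.iterate_succ_apply', ih, pow_succ', map_mul]
        rfl
    have hα5 : ∀ q, α^[5] q = q := fun q => by
      obtain ⟨a, rfl⟩ := QuotientGroup.mk_surjective q
      rw [hαk, hx5, map_one]; rfl
    have hfix := fixed_of_card_le α hα5 (by
      rw [hQ, show (8 : ℕ) = 2 ^ 3 by norm_num]; exact pow_dvd_pow 2 (by omega))
    have hxM : ∀ a ∈ D, ⁅x, a⁆ ∈ M := by
      intro a ha
      have h := hfix (QuotientGroup.mk (⟨a, ha⟩ : D))
      have h' := QuotientGroup.eq_iff_div_mem.1 h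
      have : x * a * x⁻¹ * a⁻¹ ∈ M := by
        have h'' : ((MulAut.conjNormal x (⟨a, ha⟩ : D) / ⟨a, ha⟩ : D) : G) ∈ M := h'
        simpa [div_eq_mul_inv] using h''
      rwa [commutatorElement_def]
    -- the derived subgroup of the quotient
    let M' : Subgroup G := M ⊔ ⁅D, D⁆
    have hM' : M'.Normal := Subgroup.sup_normal M ⁅D, D⁆
    have hM'D : M' ≤ D := sup_le hMD (Subgroup.commutator_le_right D D)
    have hM'eq : M' = D := habel M' hM' hM'D
      (fun a ha b hb => Subgroup.mem_sup_right (Subgroup.commutator_mem_commutator ha hb))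
      (fun a ha => Subgroup.mem_sup_left (hxM a ha))
    have hperf : commutator (D ⧸ N) = ⊤ := by
      rw [eq_top_iff]
      intro q _
      obtain ⟨⟨a, ha⟩, rfl⟩ := QuotientGroup.mk'_surjective N q
      have ha' : a ∈ (M ⊔ ⁅D, D⁆ : Subgroup G) := by rw [show M ⊔ ⁅D, D⁆ = D from hM'eq]; exact ha
      have hle : M ⊔ ⁅D, D⁆ ≤ ((commutator (D ⧸ N)).comap (QuotientGroup.mk' N)).map D.subtype := by
        refine sup_le (fun m hm => ⟨⟨m, hMD hm⟩, ?_, rfl⟩) (Subgroup.commutator_le.2 fun p hp q hq => ?_)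
        · show QuotientGroup.mk' N ⟨m, hMD hm⟩ ∈ commutator (D ⧸ N)
          rw [show QuotientGroup.mk' N ⟨m, hMD hm⟩ = 1 from (QuotientGroup.eq_one_iff _).2 (show (⟨m, hMD hm⟩ : D) ∈ N from hm)]
          exact one_mem _
        · refine ⟨⁅(⟨p, hp⟩ : D), ⟨q, hq⟩⁆, ?_, rfl⟩
          show QuotientGroup.mk' N ⁅(⟨p, hp⟩ : D), ⟨q, hq⟩⁆ ∈ commutator (D ⧸ N)
          rw [map_commutatorElement]
          exact Subgroup.commutator_mem_commutator (Subgroup.mem_top _) (Subgroup.mem_top _)
      obtain ⟨b, hb, hba⟩ := hle ha'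
      rwa [show b = ⟨a, ha⟩ from Subtype.ext hba] at hb
    have hnt : Nontrivial (D ⧸ N) := by
      rw [← Finite.one_lt_card_iff_nontrivial, hQ]
      refine Nat.one_lt_two_pow fun h0 => hne ?_
      refine le_antisymm hMD (Subgroup.relIndex_eq_one.1 ?_)
      rw [hek, h0, pow_zero]
    have := (IsPGroup.of_card hQ).isNilpotent
    exact (Group.IsSolvable.commutator_lt_top_of_nontrivial (D ⧸ N)).ne hperf
  have hZne : Z ≠ D := fun e => by rw [e, hD] at hZ4; norm_num at hZ4
  have hZ16 : Z.relIndex D = 16 := by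
    have h := Subgroup.card_mul_index (Z.subgroupOf D)
    rw [Nat.card_congr (Subgroup.subgroupOfEquivOfLe hZD).toEquiv, hZ4, hD] at h
    show (Z.subgroupOf D).index = 16
    omega
  have hbig : ∀ M : Subgroup G, M.Normal → Z ≤ M → M ≤ D → M = Z ∨ M = D := by
    intro M hM hZM hMD
    by_cases he : M = D
    · exact Or.inr he
    refine Or.inl (le_antisymm (Subgroup.relIndex_eq_one.1 ?_) hZM)
    have h := Subgroup.relIndex_mul_relIndex Z M D hZM hMD
    obtain ⟨m, hm⟩ := hindex M hM hMD he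
    rw [hZ16, hm] at h
    have : Z.relIndex M * m = 1 := by nlinarith
    exact Nat.eq_one_of_mul_eq_one_right this
  -- `D / Z` is elementary abelian and `x` acts without fixed points
  have hDD : ∀ a ∈ D, ∀ b ∈ D, ⁅a, b⁆ ∈ Z := by
    rcases hbig (Z ⊔ ⁅D, D⁆) (Subgroup.sup_normal Z ⁅D, D⁆) le_sup_left
      (sup_le hZD (Subgroup.commutator_le_right D D)) with h | h
    · exact fun a ha b hb => h ▸ Subgroup.mem_sup_right (Subgroup.commutator_mem_commutator ha hb)
    · exfalso
      let N : Subgroup D := Z.subgroupOf D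
      have hN : N.Normal := Subgroup.Normal.subgroupOf hZn D
      have hNc : N = Subgroup.center D := Subgroup.comap_map_eq_self_of_injective D.subtype_injective _
      have hQ : Nat.card (D ⧸ N) = 2 ^ 4 := hZ16
      have := (IsPGroup.of_card hQ).isNilpotent
      have hnt : Nontrivial (D ⧸ N) := by
        rw [← Finite.one_lt_card_iff_nontrivial, hQ]; norm_num
      refine (Group.IsSolvable.commutator_lt_top_of_nontrivial (D ⧸ N)).ne (eq_top_iff.2 fun q _ => ?_)
      obtain ⟨⟨a, ha⟩, rfl⟩ := QuotientGroup.mk'_surjective N q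
      have hle : Z ⊔ ⁅D, D⁆ ≤ ((commutator (D ⧸ N)).comap (QuotientGroup.mk' N)).map D.subtype := by
        refine sup_le (fun m hm => ⟨⟨m, hZD hm⟩, ?_, rfl⟩) (Subgroup.commutator_le.2 fun p hp q hq => ?_)
        · show QuotientGroup.mk' N ⟨m, hZD hm⟩ ∈ commutator (D ⧸ N)
          rw [show QuotientGroup.mk' N ⟨m, hZD hm⟩ = 1 from (QuotientGroup.eq_one_iff _).2 (show (⟨m, hZD hm⟩ : D) ∈ N from hm)]
          exact one_mem _
        · refine ⟨⁅(⟨p, hp⟩ : D), ⟨q, hq⟩⁆, ?_, rfl⟩
          show QuotientGroup.mk' N ⁅(⟨p, hp⟩ : D), ⟨q, hq⟩⁆ ∈ commutator (D ⧸ N)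
          rw [map_commutatorElement]
          exact Subgroup.commutator_mem_commutator (Subgroup.mem_top _) (Subgroup.mem_top _)
      obtain ⟨b, hb, hba⟩ := hle (h.symm ▸ ha)
      rwa [show b = ⟨a, ha⟩ from Subtype.ext hba] at hb
  have hcen : ∀ {c a : G}, c ∈ Z → a ∈ D → Commute c a := fun hc ha => (((hZmem _).1 hc).2 _ ha).symm
  -- bilinearity of commutators
  have hcm : ∀ {a b c : G}, a ∈ D → b ∈ D → c ∈ D → ⁅a, b * c⁆ = ⁅a, b⁆ * ⁅a, c⁆ := by
    intro a b c ha hb hc
    have hz := (hcen (hDD a ha c hc) hb).eq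
    calc ⁅a, b * c⁆ = ⁅a, b⁆ * (b * ⁅a, c⁆ * b⁻¹) := by simp only [commutatorElement_def]; group
      _ = ⁅a, b⁆ * ⁅a, c⁆ := by rw [← hz]; group
  have hsym : ∀ {a b : G}, a ∈ D → b ∈ D → ⁅b, a⁆ = ⁅a, b⁆ := fun {a b} ha hb => by
    rw [← commutatorElement_inv]
    exact inv_eq_of_mul_eq_one_right (hZ2 _ (hDD a ha b hb))
  have hmsq : ∀ {a b : G}, a ∈ D → b ∈ D → (a * b) * (a * b) = a * a * (b * b) * ⁅a, b⁆ := by
    intro a b ha hb
    have hz := (hcen (hDD b hb a ha) hb).eq
    calc (a * b) * (a * b) = a * (⁅b, a⁆ * (a * b)) * b := by simp only [commutatorElement_def]; group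
      _ = a * ((a * b) * ⁅b, a⁆) * b := by rw [(hcen (hDD b hb a ha) (mul_mem ha hb)).eq]
      _ = a * a * b * (⁅b, a⁆ * b) := by group
      _ = a * a * (b * b) * ⁅b, a⁆ := by rw [hz]; group
      _ = _ := by rw [hsym ha hb]
  have hDsq : ∀ a ∈ D, a * a ∈ Z := by
    let S : Subgroup G :=
      { carrier := {g | ∃ a ∈ D, ∃ c ∈ Z, g = a * a * c}
        one_mem' := ⟨1, one_mem _, 1, one_mem _, by simp⟩
        mul_mem' := by
          rintro _ _ ⟨a, ha, c, hc, rfl⟩ ⟨b, hb, e, he, rfl⟩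
          refine ⟨a * b, mul_mem ha hb, ⁅a, b⁆ * c * e, mul_mem (mul_mem (hDD a ha b hb) hc) he, ?_⟩
          rw [hmsq ha hb]
          calc a * a * c * (b * b * e) = a * a * (c * (b * b)) * e := by group
            _ = a * a * ((b * b) * c) * e := by rw [(hcen hc (mul_mem hb hb)).eq]
            _ = a * a * (b * b) * (⁅a, b⁆ * ⁅a, b⁆) * (c * e) := by
                rw [hZ2 _ (hDD a ha b hb)]; group
            _ = _ := by group
        inv_mem' := by
          rintro _ ⟨a, ha, c, hc, rfl⟩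
          refine ⟨a⁻¹, inv_mem ha, c⁻¹, inv_mem hc, ?_⟩
          rw [mul_inv_rev, (hcen (inv_mem hc) (inv_mem (mul_mem ha ha))).eq]
          group }
    have hSn : S.Normal := ⟨fun s hs g => by
      obtain ⟨a, ha, c, hc, rfl⟩ := hs
      exact ⟨g * a * g⁻¹, hDn.conj_mem a ha g, g * c * g⁻¹, hZn.conj_mem c hc g, by group⟩⟩
    have hSD : S ≤ D := by rintro _ ⟨a, ha, c, hc, rfl⟩; exact mul_mem (mul_mem ha ha) (hZD hc)
    rcases hbig S hSn (fun c hc => ⟨1, one_mem _, c, hc, by simp⟩) hSD with h | h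
    · exact fun a ha => h ▸ (⟨a, ha, 1, one_mem _, by simp⟩ : a * a ∈ S)
    · exfalso
      -- squaring would be onto the quotient, so it has odd order
      let N : Subgroup D := Z.subgroupOf D
      have hN : N.Normal := Subgroup.Normal.subgroupOf hZn D
      have hQ : Nat.card (D ⧸ N) = 16 := hZ16
      let sqf : D ⧸ N → D ⧸ N := fun q => q * q
      have hsurj : Function.Surjective sqf := by
        intro q
        obtain ⟨⟨g, hg⟩, rfl⟩ := QuotientGroup.mk'_surjective N q
        obtain ⟨a, ha, c, hc, e⟩ := h.symm.le hg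
        refine ⟨QuotientGroup.mk' N ⟨a, ha⟩, ?_⟩
        show _ * _ = _
        rw [← map_mul]
        apply QuotientGroup.eq.2
        show ((⟨a, ha⟩ * ⟨a, ha⟩ : D)⁻¹ * ⟨g, hg⟩ : D).1 ∈ Z
        push_cast
        rw [e, show (a * a)⁻¹ * (a * a * c) = c by group]
        exact hc
      obtain ⟨q, hq⟩ := exists_prime_orderOf_dvd_card' (G := D ⧸ N) 2 (by rw [hQ]; norm_num)
      have h1 : sqf q = sqf 1 := by
        show q * q = 1 * 1
        rw [one_mul, ← pow_two, ← hq, pow_orderOf_eq_one]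
      have := (Finite.injective_iff_surjective.2 hsurj) h1
      rw [this, orderOf_one] at hq
      norm_num at hq
  have hxZ : ∀ c ∈ Z, Commute c x := by
    intro c hc
    let f : Z → Z := fun c => ⟨x * c.1 * x⁻¹, hZn.conj_mem _ c.2 x⟩
    have hf : ∀ (k : ℕ) (c : Z), (f^[k] c).1 = x ^ k * c.1 * (x ^ k)⁻¹ := fun k c => by
      induction k with
      | zero => simp
      | succ k ih =>
        rw [Function.iterate_succ_apply']
        show x * (f^[k] c).1 * x⁻¹ = _
        rw [ih, pow_succ']; group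
    have := congrArg Subtype.val (fixed_of_small f
      (fun c => Subtype.ext (by rw [hf, hx5]; simp)) (by omega) ⟨c, hc⟩)
    simp only [f] at this
    exact (mul_inv_eq_iff_eq_mul.1 this).symm
  have hnofix : ∀ a ∈ D, ⁅x, a⁆ ∈ Z → a ∈ Z := by
    let E : Subgroup G :=
      { carrier := {a | a ∈ D ∧ ⁅x, a⁆ ∈ Z}
        one_mem' := ⟨one_mem _, by simp⟩
        mul_mem' := fun {a b} ha hb => ⟨mul_mem ha.1 hb.1, by
          rw [show ⁅x, a * b⁆ = ⁅x, a⁆ * (a * ⁅x, b⁆ * a⁻¹) by simp only [commutatorElement_def]; group]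
          exact mul_mem ha.2 (hZn.conj_mem _ hb.2 a)⟩
        inv_mem' := fun {a} ha => ⟨inv_mem ha.1, by
          rw [show ⁅x, a⁻¹⁆ = a⁻¹ * (⁅x, a⁆)⁻¹ * a⁻¹⁻¹ by simp only [commutatorElement_def]; group]
          exact hZn.conj_mem _ (inv_mem ha.2) _⟩ }
    have hZE : Z ≤ E := fun c hc => ⟨hZD hc, by
      rw [commutatorElement_eq_one_iff_commute.2 (hxZ c hc).symm]; exact one_mem _⟩
    have hEn : E.Normal := by
      refine Subgroup.normalizer_eq_top_iff.1 (eq_top_iff.2 ?_)
      rw [← hgenD, sup_le_iff, Subgroup.zpowers_le]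
      refine ⟨fun a ha => ?_, ?_⟩
      all_goals rw [show E = Subgroup.closure (E : Set G) from (Subgroup.closure_eq E).symm]
      all_goals refine mem_normalizer_closure fun b hb => ?_
      all_goals rw [Subgroup.closure_eq]
      · rw [show a * b * a⁻¹ = ⁅a, b⁆ * b by simp only [commutatorElement_def]; group]
        exact mul_mem (hZE (hDD a ha b hb.1)) hb
      · rw [show x * b * x⁻¹ = ⁅x, b⁆ * b by simp only [commutatorElement_def]; group]
        exact mul_mem (hZE hb.2) hb
    intro a ha hxa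
    rcases hbig E hEn hZE (fun a ha => ha.1) with h | h
    · exact h ▸ (⟨ha, hxa⟩ : a ∈ E)
    · exact absurd (habel Z hZn hZD hDD fun b hb => (h.symm.le hb).2) hZne
  -- the generators
  obtain ⟨a, ha, haZ⟩ : ∃ a ∈ D, a ∉ Z := by
    by_contra hc
    push Not at hc
    exact hZne (le_antisymm hZD hc)
  have hdd : ∀ (a : G), a ∈ D → ∀ i, dd x a i ∈ D := fun a ha i => hDn.conj_mem a ha (x ^ i)
  obtain ⟨w, hw, ew⟩ : ∃ w ∈ Z, dd x a 4 = a * dd x a 1 * dd x a 2 * dd x a 3 * w := by
    set u := a * dd x a 1 * dd x a 2 * dd x a 3 with hu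
    have huD : u ∈ D := mul_mem (mul_mem (mul_mem ha (hdd a ha 1)) (hdd a ha 2)) (hdd a ha 3)
    set v := u * dd x a 4 with hv
    have hvD : v ∈ D := mul_mem huD (hdd a ha 4)
    have hconj : ∀ i, x * dd x a i * x⁻¹ = dd x a (i + 1) := fun i => by
      rw [dd, dd, pow_succ']; group
    have h5 : dd x a 5 = a := by simp [dd, hx5]
    have h0 : dd x a 0 = a := by simp [dd]
    have hxv : x * v * x⁻¹ = a⁻¹ * v * a := by
      have e : x * v * x⁻¹ = (x * dd x a 0 * x⁻¹) * (x * dd x a 1 * x⁻¹) * (x * dd x a 2 * x⁻¹) *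
          (x * dd x a 3 * x⁻¹) * (x * dd x a 4 * x⁻¹) := by rw [hv, hu, h0]; group
      rw [e, hconj, hconj, hconj, hconj, hconj, h5, hv, hu]
      group
    have hvZ : v ∈ Z := hnofix v hvD (by
      rw [show ⁅x, v⁆ = x * v * x⁻¹ * v⁻¹ from commutatorElement_def _ _, hxv,
        show a⁻¹ * v * a * v⁻¹ = ⁅a⁻¹, v⁆ by rw [commutatorElement_def, inv_inv]]
      exact hDD _ (inv_mem ha) _ hvD)
    refine ⟨u⁻¹ * dd x a 4, ?_, by group⟩
    rw [show u⁻¹ * dd x a 4 = (u * u)⁻¹ * v by rw [hv]; group]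
    exact mul_mem (inv_mem (hDsq u huD)) hvZ
  obtain ⟨d, hdef⟩ : ∃ d, d = a * w := ⟨_, rfl⟩
  have hdD : d ∈ D := hdef ▸ mul_mem ha (hZD hw)
  have hdZ : d ∉ Z := fun h => haZ (by
    rw [show a = d * w⁻¹ by rw [hdef]; group]; exact mul_mem h (inv_mem hw))
  have hddw : ∀ i, dd x d i = dd x a i * w := fun i => by
    rw [dd, hdef, show x ^ i * (a * w) * (x ^ i)⁻¹ = x ^ i * a * (w * (x ^ i)⁻¹) by group,
      ((hxZ w hw).pow_right i).inv_right.eq, dd]
    group
  have he4 : dd x d 4 = d * dd x d 1 * dd x d 2 * dd x d 3 := by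
    have c2 := (hcen hw (hdd a ha 2)).eq
    have c1 := (hcen hw (hdd a ha 1)).eq
    have c3 := (hcen hw (hdd a ha 3)).eq
    rw [hddw 4, hddw 1, hddw 2, hddw 3, hdef, ew]
    calc a * dd x a 1 * dd x a 2 * dd x a 3 * w * w
        = a * dd x a 1 * dd x a 2 * dd x a 3 * (w * w) := by group
      _ = a * dd x a 1 * (w * w) * dd x a 2 * dd x a 3 * (w * w) := by
            rw [hZ2 w hw]; group
      _ = a * (dd x a 1 * w) * (w * dd x a 2) * (dd x a 3 * w) * w := by group
      _ = a * (w * dd x a 1) * (dd x a 2 * w) * (w * dd x a 3) * w := by rw [c1, c2, c3]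
      _ = a * w * dd x a 1 * dd x a 2 * (w * w) * dd x a 3 * w := by group
      _ = a * w * dd x a 1 * dd x a 2 * dd x a 3 * w := by rw [hZ2 w hw, mul_one]
      _ = a * w * dd x a 1 * dd x a 2 * (w * w) * (dd x a 3 * w) := by rw [hZ2 w hw]; group
      _ = a * w * (dd x a 1 * (w * w)) * dd x a 2 * (w * w) * (dd x a 3 * w) := by
            rw [hZ2 w hw]; simp only [mul_one]
      _ = a * w * (dd x a 1 * w) * (w * dd x a 2) * (w * w) * (dd x a 3 * w) := by group
      _ = a * w * (dd x a 1 * w) * (dd x a 2 * w) * (dd x a 3 * w) := by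
            rw [c2, hZ2 w hw, mul_one]
  set c1 := ⁅d, dd x d 1⁆ with hc1def
  set c2 := ⁅d, dd x d 2⁆ with hc2def
  have hdi := hdd d hdD
  have hshift : ∀ i k, ⁅dd x d i, dd x d (i + k)⁆ = ⁅d, dd x d k⁆ := by
    intro i k
    have he : ⁅dd x d i, dd x d (i + k)⁆ = x ^ i * ⁅d, dd x d k⁆ * (x ^ i)⁻¹ := by
      simp only [dd, commutatorElement_def, pow_add]; group
    rw [he, ← ((hxZ _ (hDD d hdD _ (hdi k))).pow_right i).eq]; group
  have h5 : dd x d 5 = d := by simp [dd, hx5]
  have he3 : ⁅d, dd x d 3⁆ = c2 := by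
    have h := hshift 3 2
    rw [h5] at h
    rw [← hsym (hdi 3) hdD] at h
    exact h
  have hsqi : ∀ i, dd x d i * dd x d i = d * d := fun i => by
    rw [show dd x d i * dd x d i = x ^ i * (d * d) * (x ^ i)⁻¹ by simp only [dd]; group,
      ← ((hxZ _ (hDsq d hdD)).pow_right i).eq]
    group
  have hsq : d * d = c1 * c2 := by
    have h01 : d * dd x d 1 ∈ D := mul_mem hdD (hdi 1)
    have h012 : d * dd x d 1 * dd x d 2 ∈ D := mul_mem h01 (hdi 2)
    have h := congrArg (fun g => g * g) he4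
    replace h : dd x d 4 * dd x d 4 = _ * _ := h
    rw [hsqi, hmsq h012 (hdi 3), hmsq h01 (hdi 2), hmsq hdD (hdi 1), hsqi, hsqi, hsqi,
      hsym (hdi 2) h01, hcm (hdi 2) hdD (hdi 1), hsym (hdi 3) h012, hcm (hdi 3) h01 (hdi 2),
      hcm (hdi 3) hdD (hdi 1), hsym hdD (hdi 2), hsym (hdi 1) (hdi 2), hsym hdD (hdi 3),
      hsym (hdi 1) (hdi 3), hsym (hdi 2) (hdi 3), he3, hshift 1 1, hshift 1 2, hshift 2 1] at h
    set z := d * d with hz
    -- everything lies in the fours group `Z`
    let e : G → Multiplicative (ZMod 1) := fun _ => 1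
    have hc : ∀ p ∈ Z, ∀ q ∈ Z, p * q = q * p := fun p hp q hq => (hcen hp (hZD hq)).eq
    have z1 : z ∈ Z := hDsq d hdD
    have k1 : c1 ∈ Z := hDD d hdD _ (hdi 1)
    have k2 : c2 ∈ Z := hDD d hdD _ (hdi 2)
    have hh : ∀ p q r : Z, p = p * p * q * p * (r * q) * p * (r * r * q) → p = q * r := by
      intro p q r hpqr
      have hcc : ∀ u v : Z, u * v = v * u := fun u v => Subtype.ext (hc u u.2 v v.2)
      letI : CommGroup Z := { (inferInstance : Group Z) with mul_comm := hcc }
      have e2 : ∀ u : Z, u * u = 1 := fun u => Subtype.ext (hZ2 u u.2)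
      have : p = p * p * (p * p) * (q * q) * (r * r) * (q * r) := by
        refine hpqr.trans ?_
        simp only [mul_assoc, mul_comm, mul_left_comm]
      simpa [e2] using this
    exact congrArg Subtype.val (hh ⟨z, z1⟩ ⟨c1, k1⟩ ⟨c2, k2⟩ (Subtype.ext h))
  have hrel : Rel x d :=
    { x5 := hx5
      cx1 := hxZ _ (hDD d hdD _ (hdi 1))
      cx2 := hxZ _ (hDD d hdD _ (hdi 2))
      cd1 := hcen (hDD d hdD _ (hdi 1)) hdD
      cd2 := hcen (hDD d hdD _ (hdi 2)) hdD
      s1 := hZ2 _ (hDD d hdD _ (hdi 1))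
      s2 := hZ2 _ (hDD d hdD _ (hdi 2))
      sq := hsq
      e3 := he3
      e4 := he4 }
  -- generation
  let L : Subgroup G := Subgroup.closure {g | ∃ i, g = dd x d i}
  have hLD : L ≤ D := (Subgroup.closure_le _).2 (by rintro _ ⟨i, rfl⟩; exact hdi i)
  have hdL : d ∈ L := Subgroup.subset_closure ⟨0, by simp [dd]⟩
  let W : Subgroup G := L ⊔ Z
  have hWn : W.Normal := by
    refine Subgroup.normalizer_eq_top_iff.1 (eq_top_iff.2 ?_)
    rw [← hgenD, sup_le_iff, Subgroup.zpowers_le]
    refine ⟨fun a ha => ?_, ?_⟩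
    all_goals rw [show W = Subgroup.closure (W : Set G) from (Subgroup.closure_eq W).symm]
    all_goals refine mem_normalizer_closure fun b hb => ?_
    all_goals rw [Subgroup.closure_eq]
    · rw [show a * b * a⁻¹ = ⁅a, b⁆ * b by simp only [commutatorElement_def]; group]
      exact mul_mem (Subgroup.mem_sup_right (hDD a ha b ((sup_le hLD hZD) hb))) hb
    · have hle : W.map (MulAut.conj x).toMonoidHom ≤ W := by
        rw [Subgroup.map_sup]
        refine sup_le ?_ ?_
        · rw [MonoidHom.map_closure, Subgroup.closure_le]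
          rintro _ ⟨_, ⟨i, rfl⟩, rfl⟩
          refine Subgroup.mem_sup_left (Subgroup.subset_closure ⟨i + 1, ?_⟩)
          simp only [MulEquiv.coe_toMonoidHom, MulAut.conj_apply, dd, pow_succ']
          group
        · rintro _ ⟨c, hc, rfl⟩
          exact Subgroup.mem_sup_right (hZn.conj_mem c hc x)
      exact hle ⟨b, hb, rfl⟩
  have hWD : W = D := (hbig W hWn le_sup_right (sup_le hLD hZD)).resolve_left
    fun h => hdZ (h ▸ Subgroup.mem_sup_left hdL)
  have hgen : Subgroup.closure {x, d} = ⊤ := by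
    set H := Subgroup.closure {x, d}
    have hxH : x ∈ H := Subgroup.subset_closure (Set.mem_insert _ _)
    have hdH : d ∈ H := Subgroup.subset_closure (Set.mem_insert_of_mem _ rfl)
    have hLH : L ≤ H := (Subgroup.closure_le _).2 (by
      rintro _ ⟨i, rfl⟩; exact mul_mem (mul_mem (pow_mem hxH i) hdH) (inv_mem (pow_mem hxH i)))
    -- `H ∩ D` is normal of index at most four in `D`
    have hHn : (H ⊓ D).Normal := by
      refine Subgroup.normalizer_eq_top_iff.1 (eq_top_iff.2 ?_)
      rw [← hgenD, ← hWD, sup_le_iff, sup_le_iff, Subgroup.zpowers_le]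
      refine ⟨⟨fun g hg => ?_, fun g hg => ?_⟩, ?_⟩
      all_goals rw [show H ⊓ W = Subgroup.closure ((H ⊓ W : Subgroup G) : Set G) from
        (Subgroup.closure_eq _).symm]
      all_goals refine mem_normalizer_closure fun b hb => ?_
      all_goals rw [Subgroup.closure_eq]
      · exact ⟨H.mul_mem (H.mul_mem (hLH hg) hb.1) (H.inv_mem (hLH hg)), hWn.conj_mem b hb.2 g⟩
      · rw [(hcen hg (hWD.le hb.2)).eq, mul_assoc, mul_inv_cancel, mul_one]; exact hb
      · exact ⟨H.mul_mem (H.mul_mem hxH hb.1) (H.inv_mem hxH), hWn.conj_mem b hb.2 x⟩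
    by_contra hne
    have hHD : H ⊓ D ≠ D := fun h => hne (by
      rw [eq_top_iff, ← hgenD, sup_le_iff, Subgroup.zpowers_le]
      exact ⟨h ▸ inf_le_left, hxH⟩)
    have h16 := hindex _ hHn inf_le_right hHD
    have hle : L ≤ H ⊓ D := le_inf hLH hLD
    -- `D = L Z`
    have hn : Nat.card D ≤ Nat.card L * Nat.card Z := by
      have hset : ((D : Subgroup G) : Set G) ⊆ Set.range (fun p : L × Z => (p.1 : G) * p.2) := by
        intro g hg
        replace hg : g ∈ L ⊔ Z := hWD.ge hg
        rw [Subgroup.mem_sup_of_normal_right] at hg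
        obtain ⟨l, hl, z, hz, rfl⟩ := hg
        exact ⟨(⟨l, hl⟩, ⟨z, hz⟩), rfl⟩
      calc Nat.card D ≤ Nat.card (Set.range fun p : L × Z => (p.1 : G) * p.2) :=
            Nat.card_mono (Set.toFinite _) hset
        _ ≤ Nat.card (L × Z) := Finite.card_range_le _
        _ = _ := Nat.card_prod _ _
    have hcard := Subgroup.card_le_of_le hle
    have hm : Nat.card (H ⊓ D : Subgroup G) * (H ⊓ D).relIndex D = 64 := by
      rw [← hD, ← Nat.card_congr (Subgroup.subgroupOfEquivOfLe (inf_le_right : H ⊓ D ≤ D)).toEquiv]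
      exact Subgroup.card_mul_index _
    obtain ⟨m, hm'⟩ := h16
    rw [hm'] at hm
    rw [hD, hZ4] at hn
    have : 1 ≤ m := Nat.one_le_iff_ne_zero.2 (fun h0 => by rw [h0] at hm; omega)
    nlinarith
  have hC : Rel.centre x d = Z := by
    refine Subgroup.eq_of_le_of_card_ge ((Subgroup.closure_le _).2 ?_)
      (by rw [(hrel.centre_facts hG hgen).1, hZ4])
    rintro g (rfl | rfl)
    · exact hDD d hdD _ (hdi 1)
    · exact hDD d hdD _ (hdi 2)
  exact ⟨x, d, hrel, hgen, hdD, fun a ha b hb => hC ▸ hDD a ha b hb,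
    fun c hc h => hC ▸ (hZmem c).2 ⟨hc, h⟩⟩

/-- A homomorphism from such a group that does not kill the fours group is injective. -/
theorem hom_injective [Finite G] (hG : Nat.card G = 320) (hD : Nat.card (commutator G) = 64) {x d : G}
    (h : Rel x d) (hgen : Subgroup.closure {x, d} = ⊤) (hd : d ∈ commutator G)
    (hDD : ∀ a ∈ commutator G, ∀ b ∈ commutator G, ⁅a, b⁆ ∈ Rel.centre x d)
    (hcen : ∀ c ∈ commutator G, (∀ a ∈ commutator G, a * c = c * a) → c ∈ Rel.centre x d)
    {H : Type*} [Group H] (f : G →* H) (h1 : f ⁅d, dd x d 1⁆ ≠ 1) (h2 : f ⁅d, dd x d 2⁆ ≠ 1)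
    (h3 : f (⁅d, dd x d 1⁆ * ⁅d, dd x d 2⁆) ≠ 1) : Function.Injective f := by
  have : Fact (Nat.Prime 5) := ⟨by norm_num⟩
  set C := Rel.centre x d with hCdef
  have hC : ∀ c ∈ C, f c = 1 → c = 1 := by
    intro c hc
    have : c = 1 ∨ c = ⁅d, dd x d 1⁆ ∨ c = ⁅d, dd x d 2⁆ ∨
        c = ⁅d, dd x d 1⁆ * ⁅d, dd x d 2⁆ := by
      rw [hCdef] at hc
      have i1 := inv_eq_of_mul_eq_one_right h.s1
      have i2 := inv_eq_of_mul_eq_one_right h.s2
      have hcom := h.commute_c12
      set u := ⁅d, dd x d 1⁆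
      set v := ⁅d, dd x d 2⁆
      have hu : u * u = 1 := h.s1
      have hv : v * v = 1 := h.s2
      have uv : u * (u * v) = v := by rw [← mul_assoc, hu, one_mul]
      have vu : v * (u * v) = u := by rw [hcom.eq, ← mul_assoc, hv, one_mul]
      induction hc using Subgroup.closure_induction with
      | mem g hg =>
        rcases hg with e | e
        · exact Or.inr (Or.inl e)
        · exact Or.inr (Or.inr (Or.inl e))
      | one => simp
      | mul p q _ _ hp hq =>
        rcases hp with rfl | rfl | rfl | rfl <;> rcases hq with rfl | rfl | rfl | rfl <;>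
          first | (simp [hu, hv, uv, vu, mul_assoc, ← hcom.eq]; done) | trace_state
      | inv p _ hp =>
        rcases hp with rfl | rfl | rfl | rfl <;> simp [i1, i2, ← hcom.eq]
    rcases this with rfl | rfl | rfl | rfl
    · exact fun _ => rfl
    all_goals exact fun e => absurd e ‹_›
  rw [injective_iff_map_eq_one]
  intro k hk
  have hkD : ∀ m ∈ commutator G, f m = 1 → m = 1 := by
    intro m hm hfm
    have key : ∀ a ∈ commutator G, a * m = m * a := fun a ha => by
      have := hC _ (hDD a ha m hm) (by rw [map_commutatorElement, hfm]; simp)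
      exact (commutatorElement_eq_one_iff_commute.1 this).eq
    exact hC m (hcen m hm key) hfm
  by_contra hne
  -- the kernel centralises `D`, so has order five and contains `x`
  have hcomm : ∀ m ∈ f.ker, Commute m d := fun m hm => by
    refine commutatorElement_eq_one_iff_commute.1 (hkD _ ?_ ?_)
    · rw [show ⁅m, d⁆ = (m * d * m⁻¹) * d⁻¹ from commutatorElement_def _ _]
      exact mul_mem ((inferInstance : (commutator G).Normal).conj_mem d hd m) (inv_mem hd)
    · rw [map_commutatorElement, MonoidHom.mem_ker.1 hm]; simp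
  have hinf : f.ker ⊓ commutator G = ⊥ :=
    (Subgroup.eq_bot_iff_forall _).2 fun m hm => hkD m hm.2 hm.1
  have h5 : Nat.card f.ker = 5 := by
    have hidx : (commutator G).index = 5 := by
      have := (commutator G).card_mul_index
      rw [hD, hG] at this
      omega
    have := Subgroup.relIndex_dvd_index_of_normal (commutator G) f.ker
    rw [hidx, ← Subgroup.inf_relIndex_right, inf_comm, hinf, Subgroup.relIndex_bot_left] at this
    rcases (Nat.dvd_prime (by norm_num : Nat.Prime 5)).1 this with h' | h'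
    · have : k ∈ (⊥ : Subgroup G) := (Subgroup.card_eq_one.1 h') ▸ (MonoidHom.mem_ker.2 hk)
      exact absurd (Subgroup.mem_bot.1 this) hne
    · exact h'
  have hxk : x ∈ f.ker := by
    rw [← QuotientGroup.eq_one_iff]
    have hd5 : orderOf (QuotientGroup.mk x : G ⧸ f.ker) ∣ 5 :=
      orderOf_dvd_of_pow_eq_one (by rw [← QuotientGroup.mk_pow, h.x5]; rfl)
    have hd64 : orderOf (QuotientGroup.mk x : G ⧸ f.ker) ∣ 64 := by
      have := f.ker.card_mul_index
      rw [h5, hG] at this
      have h64 : Nat.card (G ⧸ f.ker) = 64 := by rw [← Subgroup.index_eq_card]; omega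
      rw [← h64]; exact orderOf_dvd_natCard _
    have := Nat.dvd_gcd hd5 hd64
    rw [show Nat.gcd 5 64 = 1 by norm_num, Nat.dvd_one] at this
    exact orderOf_eq_one_iff.1 this
  refine h1 ?_
  rw [show dd x d 1 = d by simp [dd, (hcomm x hxk).eq]]
  simp

end CfsgLib.ClassTech.Order320
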